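import Mathlib
import Cfsg.Agent.H44.ClassTools
import Cfsg.Agent.H44.TISylow
import Cfsg.Agent.H27.Dual

/-!
# Irreducible characters that are nonzero on exactly two conjugacy classes
-/

set_option autoImplicit false
open scoped ComplexConjugate

namespace Cfsg.Agent.H44

variable {G : Type*} [Group G] [Finite G]

/-- The data attached to a character nonzero on exactly two classes of a group of order above
two: the set `N` where it is nonzero and a non-identity element `g` of `N`. -/
structure TwoClassData (χ : Cfsg.IrrCharacter G) (N : Subgroup G) (g : G) : Prop where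
  normal : N.Normal
  ne_one : g ≠ 1
  val_ne : χ.1 g ≠ 0
  mem_iff : ∀ h : G, h ∈ N ↔ h = 1 ∨ IsConj g h
  support : ∀ h : G, χ.1 h ≠ 0 ↔ h ∈ N
  ker_other : ∀ ψ : Cfsg.IrrCharacter G, ψ ≠ χ → N ≤ kerOf ψ
  ker_self : kerOf χ = ⊥

/-- Existence of the data. -/
theorem exists_twoClassData (hG : 2 < Nat.card G) (χ : Cfsg.IrrCharacter G)
    (hχ : Nat.card {C : ConjClasses G // ∃ g ∈ C.carrier, (χ : G → ℂ) g ≠ 0} = 2) :
    ∃ (N : Subgroup G) (g : G), TwoClassData χ N g := by
  classical
  haveI := Fintype.ofFinite G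
  obtain ⟨⟨C, g, hgC, hg⟩, hg1⟩ : ∃ C : {C : ConjClasses G // ∃ g ∈ C.carrier,
      (χ : G → ℂ) g ≠ 0}, C ≠ ⟨ConjClasses.mk 1, 1, ConjClasses.mem_carrier_mk,
        H26.irr_one_ne_zero χ⟩ := by
    haveI : Nontrivial {C : ConjClasses G // ∃ g ∈ C.carrier, (χ : G → ℂ) g ≠ 0} := by
      rw [← Finite.one_lt_card_iff_nontrivial]
      omega
    exact exists_ne _
  have hCg : C = ConjClasses.mk g := (ConjClasses.mem_carrier_iff_mk_eq.mp hgC).symm
  subst hCg
  have hne : g ≠ 1 := by
    rintro rfl
    exact hg1 rfl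
  have hnc : ¬ IsConj (1 : G) g := fun h => hne (isConj_one_right.mp h)
  -- support
  have hsupp : ∀ h, χ.1 h ≠ 0 ↔ h = 1 ∨ IsConj g h := by
    intro h
    refine ⟨fun hh => ?_, ?_⟩
    · by_contra hcon
      push Not at hcon
      haveI : Fintype {C : ConjClasses G // ∃ g ∈ C.carrier, (χ : G → ℂ) g ≠ 0} :=
        Fintype.ofFinite _
      rw [Nat.card_eq_fintype_card] at hχ
      have h3 : ({⟨ConjClasses.mk 1, 1, ConjClasses.mem_carrier_mk, H26.irr_one_ne_zero χ⟩,
          ⟨ConjClasses.mk g, g, hgC, hg⟩,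
          ⟨ConjClasses.mk h, h, ConjClasses.mem_carrier_mk, hh⟩} :
          Finset {C : ConjClasses G // ∃ g ∈ C.carrier, (χ : G → ℂ) g ≠ 0}).card = 3 := by
        rw [Finset.card_insert_of_notMem, Finset.card_pair]
        · intro e
          exact hcon.2 (ConjClasses.mk_eq_mk_iff_isConj.mp (congrArg Subtype.val e))
        · rw [Finset.mem_insert, Finset.mem_singleton]
          rintro (e | e)
          · exact hnc (ConjClasses.mk_eq_mk_iff_isConj.mp (congrArg Subtype.val e))
          · exact hcon.1 (isConj_one_right.mp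
              (ConjClasses.mk_eq_mk_iff_isConj.mp (congrArg Subtype.val e)))
      have := Finset.card_le_univ ({⟨ConjClasses.mk 1, 1, ConjClasses.mem_carrier_mk,
          H26.irr_one_ne_zero χ⟩, ⟨ConjClasses.mk g, g, hgC, hg⟩,
          ⟨ConjClasses.mk h, h, ConjClasses.mem_carrier_mk, hh⟩} :
          Finset {C : ConjClasses G // ∃ g ∈ C.carrier, (χ : G → ℂ) g ≠ 0})
      omega
    · rintro (rfl | h')
      · exact H26.irr_one_ne_zero χ
      · rw [← H26.irr_eq_of_isConj χ h']
        exact hg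
  -- inner products
  set A := Finset.univ.filter fun h : G => IsConj g h with hA
  have hsum : ∀ F : G → ℂ, (∀ h, IsConj g h → F h = F g) →
      (∀ h, χ.1 h = 0 → F h = 0) → ∑ h : G, F h = F 1 + (A.card : ℂ) * F g := by
    intro F hF h0
    rw [← Finset.sum_subset (Finset.subset_univ (insert (1 : G) A)), Finset.sum_insert,
      Finset.sum_congr rfl (fun h hh => hF h (Finset.mem_filter.mp hh).2), Finset.sum_const,
      nsmul_eq_mul]
    · exact fun h => hne (isConj_one_left.mp (Finset.mem_filter.mp h).2)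
    · intro h _ hh
      rw [Finset.mem_insert, hA, Finset.mem_filter] at hh
      push Not at hh
      refine h0 h (by_contra fun hc => ?_)
      rcases (hsupp h).mp hc with h' | h'
      · exact hh.1 h'
      · exact hh.2 (Finset.mem_univ _) h'
  have horth : ∀ ψ : Cfsg.IrrCharacter G, ψ ≠ χ →
      χ.1 1 * conj (ψ.1 1) + (A.card : ℂ) * (χ.1 g * conj (ψ.1 g)) = 0 := by
    intro ψ hψ
    have h := H26.classInner_irr χ ψ
    rw [if_neg (Ne.symm hψ), Cfsg.classInner, mul_eq_zero] at h
    have h' := h.resolve_left (inv_ne_zero (Nat.cast_ne_zero.mpr Nat.card_pos.ne'))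
    rw [hsum (fun x => χ.1 x * conj (ψ.1 x)) (fun x hx => by
      rw [H26.irr_eq_of_isConj χ hx, H26.irr_eq_of_isConj ψ hx]) (fun x hx => by
      rw [hx, zero_mul])] at h'
    exact h'
  have hχ1 : H26.oneIrr G ≠ χ := by
    intro e
    subst e
    have hall : ∀ h : G, h = 1 ∨ IsConj g h := fun h =>
      (hsupp h).mp (by rw [H26.oneIrr_val]; exact one_ne_zero)
    have hc := card_isConj_mul_card_centralizer g
    have e : Nat.card {h : G // IsConj g h} + 1 = Nat.card G := by
      rw [Nat.card_congr (Equiv.subtypeEquivRight (p := IsConj g) (q := fun h => h ≠ 1) fun h =>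
        ⟨fun hh h1 => hne (isConj_one_left.mp (h1 ▸ hh)), fun h1 => (hall h).resolve_left h1⟩),
        Nat.card_eq_fintype_card, Nat.card_eq_fintype_card, Fintype.card_subtype,
        Finset.filter_ne', Finset.card_erase_of_mem (Finset.mem_univ _), Finset.card_univ]
      have := Fintype.card_pos (α := G)
      omega
    set c := Nat.card {h : G // IsConj g h}
    have hdvd : c ∣ c + 1 := by rw [e, ← hc]; exact Dvd.intro _ rfl
    have : c ∣ 1 := (Nat.dvd_add_right dvd_rfl).mp hdvd
    rw [Nat.dvd_one] at this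
    omega
  have hconst : ∀ ψ : Cfsg.IrrCharacter G, ψ ≠ χ → ψ.1 g = ψ.1 1 := by
    intro ψ hψ
    have h1 := horth _ hχ1
    simp only [H26.oneIrr_val, map_one, mul_one] at h1
    have h2 := horth ψ hψ
    have h3 : χ.1 1 * (conj (ψ.1 1) - conj (ψ.1 g)) = 0 := by
      linear_combination h2 - conj (ψ.1 g) * h1
    have := (mul_eq_zero.mp h3).resolve_left (H26.irr_one_ne_zero χ)
    rw [sub_eq_zero] at this
    exact (starRingEnd ℂ).injective this.symm
  let N : Subgroup G := ⨅ ψ : {ψ : Cfsg.IrrCharacter G // ψ ≠ χ}, kerOf ψ.1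
  have hNmem : ∀ h, h ∈ N ↔ ∀ ψ : Cfsg.IrrCharacter G, ψ ≠ χ → ψ.1 h = ψ.1 1 := by
    intro h
    simp only [N, Subgroup.mem_iInf, Subtype.forall, mem_kerOf]
  have hNiff : ∀ h, h ∈ N ↔ h = 1 ∨ IsConj g h := by
    intro h
    rw [hNmem]
    refine ⟨fun hh => or_iff_not_imp_left.mpr fun h1 => ?_, ?_⟩
    · refine (H26.isConj_iff_forall_irr g h).mpr fun ψ => ?_
      by_cases hψ : ψ = χ
      · subst hψ
        have hg0 := H26.column_orthogonality g 1
        have hh0 := H26.column_orthogonality h 1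
        rw [H26.classIndicator, if_neg (fun e => hne (isConj_one_left.mp e)), mul_zero,
          ← Finset.add_sum_erase _ _ (Finset.mem_univ ψ)] at hg0
        rw [H26.classIndicator, if_neg (fun e => h1 (isConj_one_left.mp e)), mul_zero,
          ← Finset.add_sum_erase _ _ (Finset.mem_univ ψ)] at hh0
        rw [Finset.sum_congr rfl fun φ hφ => by rw [hconst φ (Finset.mem_erase.mp hφ).1]] at hg0
        rw [Finset.sum_congr rfl fun φ hφ => by rw [hh φ (Finset.mem_erase.mp hφ).1]] at hh0
        have := hg0.trans hh0.symm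
        rw [add_left_inj] at this
        exact mul_right_cancel₀ (by simpa using H26.irr_one_ne_zero ψ) this
      · rw [hconst ψ hψ, hh ψ hψ]
    · rintro (rfl | hh) ψ hψ
      · rfl
      · rw [← H26.irr_eq_of_isConj ψ hh]
        exact hconst ψ hψ
  have hker : kerOf χ = ⊥ := by
    refine le_bot_iff.mp fun h hh => Subgroup.mem_bot.mpr ?_
    rw [mem_kerOf] at hh
    rcases (hsupp h).mp (hh ▸ H26.irr_one_ne_zero χ) with h' | h'
    · exact h'
    exfalso
    rw [← H26.irr_eq_of_isConj χ h'] at hh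
    have h1 := horth _ hχ1
    simp only [H26.oneIrr_val, map_one, mul_one, hh] at h1
    rw [← one_add_mul, mul_eq_zero] at h1
    refine h1.elim (fun e => ?_) (H26.irr_one_ne_zero χ)
    rw [← Nat.cast_one, ← Nat.cast_add, Nat.cast_eq_zero] at e
    omega
  refine ⟨N, g, Subgroup.normal_iInf_normal fun ψ => kerOf_normal ψ.1, hne, hg, hNiff,
    fun h => (hsupp h).trans (hNiff h).symm, fun ψ hψ => iInf_le_of_le ⟨ψ, hψ⟩ le_rfl, hker⟩

variable {χ : Cfsg.IrrCharacter G} {N : Subgroup G} {g : G}

/-- `N` is nontrivial. -/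
theorem TwoClassData.ne_bot (d : TwoClassData χ N g) : N ≠ ⊥ := fun h => d.ne_one (by
  have : g ∈ N := (d.mem_iff g).mpr (Or.inr (IsConj.refl g))
  rwa [h, Subgroup.mem_bot] at this)

/-- Any two non-identity elements of `N` are conjugate. -/
theorem TwoClassData.isConj_of_mem (d : TwoClassData χ N g) {x y : G} (hx : x ∈ N) (hy : y ∈ N)
    (hx1 : x ≠ 1) (hy1 : y ≠ 1) : IsConj x y :=
  (((d.mem_iff x).mp hx).resolve_left hx1).symm.trans (((d.mem_iff y).mp hy).resolve_left hy1)

/-- `N` is the unique minimal normal subgroup. -/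
theorem TwoClassData.le_of_normal (d : TwoClassData χ N g) (K : Subgroup G) [K.Normal]
    (hK : K ≠ ⊥) : N ≤ K := by
  intro n hn
  refine mem_of_forall_kerOf K fun ψ hψ => ?_
  by_cases h : ψ = χ
  · subst h
    rw [d.ker_self, le_bot_iff] at hψ
    exact absurd hψ hK
  · exact d.ker_other ψ h hn

/-- `N` is elementary abelian. -/
theorem TwoClassData.elementary (d : TwoClassData χ N g) :
    ∃ p : ℕ, p.Prime ∧ IsMulCommutative N ∧ (∀ x ∈ N, x ^ p = 1) ∧ IsPGroup p N := by
  haveI : Nontrivial N := N.nontrivial_iff_ne_bot.mpr d.ne_bot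
  obtain ⟨p, hp, hpd⟩ := Nat.exists_prime_and_dvd
    (show Nat.card N ≠ 1 from (Finite.one_lt_card (α := N)).ne')
  haveI := Fact.mk hp
  obtain ⟨⟨x, hxN⟩, hxo⟩ := exists_prime_orderOf_dvd_card' p hpd
  rw [← Subgroup.orderOf_coe] at hxo
  have hx1 : x ≠ 1 := fun h => hp.one_lt.ne (by rw [← hxo, show ((⟨x, hxN⟩ : N) : G) = 1 from h,
    orderOf_one])
  have hexp : ∀ y ∈ N, y ^ p = 1 := by
    intro y hy
    rcases eq_or_ne y 1 with rfl | hy1
    · simp
    obtain ⟨c, rfl⟩ := isConj_iff.mp (d.isConj_of_mem hxN hy hx1 hy1)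
    have h : x ^ p = 1 := hxo ▸ pow_orderOf_eq_one x
    rw [conj_pow, h]
    group
  have hpN : IsPGroup p N := fun y => ⟨1, Subtype.ext (by
    rw [pow_one, SubmonoidClass.coe_pow]; exact hexp y y.2)⟩
  haveI := d.normal
  refine ⟨p, hp, ?_, hexp, hpN⟩
  haveI : Nontrivial (Subgroup.center N) := hpN.center_nontrivial
  have hZ : ((Subgroup.center N).map N.subtype).Normal :=
    ConjAct.normal_of_characteristic_of_normal
  have hle := d.le_of_normal _ (fun h => (Subgroup.nontrivial_iff_ne_bot _).mp ‹_›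
    ((Subgroup.map_eq_bot_iff_of_injective _ N.subtype_injective).mp h))
  refine ⟨⟨fun a b => ?_⟩⟩
  obtain ⟨a', ha', hav⟩ := hle a.2
  rw [← Subtype.ext (a1 := a') (a2 := a) hav]
  exact (Subgroup.mem_center_iff.mp ha' b).symm

/-- Sums over `G` of a class function supported on `N`. -/
theorem TwoClassData.sum_eq [Fintype G] (d : TwoClassData χ N g) (F : G → ℂ)
    (hF : ∀ h, IsConj g h → F h = F g) (h0 : ∀ h, h ∉ N → F h = 0) :
    ∑ h : G, F h = F 1 + ((Nat.card N : ℂ) - 1) * F g := by
  classical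
  rw [← Finset.sum_subset (Finset.subset_univ (Finset.univ.filter fun h => h ∈ N))
    (fun h _ hh => h0 h (fun hc => hh (Finset.mem_filter.mpr ⟨Finset.mem_univ _, hc⟩))),
    ← Finset.add_sum_erase _ _ (Finset.mem_filter.mpr ⟨Finset.mem_univ _, N.one_mem⟩),
    Finset.sum_congr rfl (fun h hh => hF h ?_), Finset.sum_const, nsmul_eq_mul]
  · rw [Finset.card_erase_of_mem (Finset.mem_filter.mpr ⟨Finset.mem_univ _, N.one_mem⟩),
      Nat.card_eq_fintype_card (α := N), Fintype.card_subtype, Nat.cast_sub, Nat.cast_one]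
    exact Finset.card_pos.mpr ⟨1, Finset.mem_filter.mpr ⟨Finset.mem_univ _, N.one_mem⟩⟩
  · obtain ⟨h1, h2⟩ := Finset.mem_erase.mp hh
    exact ((d.mem_iff h).mp (Finset.mem_filter.mp h2).2).resolve_left h1

/-- The basic numerical relations. -/
theorem TwoClassData.relations [Fintype G] (d : TwoClassData χ N g) :
    χ.1 1 + ((Nat.card N : ℂ) - 1) * χ.1 g = 0 ∧
    χ.1 1 * χ.1 1 + ((Nat.card N : ℂ) - 1) * (χ.1 g * conj (χ.1 g)) = Nat.card G := by
  classical
  have h0 : ∀ h, h ∉ N → χ.1 h = 0 := fun h hh => by_contra fun hc => hh ((d.support h).mp hc)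
  have hne : χ ≠ H26.oneIrr G := by
    intro e
    have h : N = ⊤ := top_unique fun h _ => (d.support h).mp (by
      rw [e, H26.oneIrr_val]; exact one_ne_zero)
    have := d.ker_self
    rw [e, kerOf_oneIrr, ← h] at this
    exact d.ne_bot this
  refine ⟨?_, ?_⟩
  · have h := H26.classInner_irr χ (H26.oneIrr G)
    rw [if_neg hne, Cfsg.classInner, mul_eq_zero] at h
    have h' := h.resolve_left (inv_ne_zero (Nat.cast_ne_zero.mpr Nat.card_pos.ne'))
    simp only [H26.oneIrr_val, map_one, mul_one] at h'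
    rwa [d.sum_eq χ.1 (fun h hh => (H26.irr_eq_of_isConj χ hh).symm) h0] at h'
  · have h := H26.classInner_irr χ χ
    rw [if_pos rfl, Cfsg.classInner, inv_mul_eq_one₀ (Nat.cast_ne_zero.mpr Nat.card_pos.ne'),
      d.sum_eq (fun x => χ.1 x * conj (χ.1 x)) (fun x hx => by rw [H26.irr_eq_of_isConj χ hx])
        (fun x hx => by rw [h0 x hx, zero_mul])] at h
    rw [h]
    have hr : conj (χ.1 1) = χ.1 1 := by
      rw [← H26.irr_inv, inv_one]
    rw [hr]

/-- The centralizer of a non-identity element of `N` is a Sylow `p`-subgroup. -/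
theorem TwoClassData.exists_sylow_centralizer [Fintype G] (d : TwoClassData χ N g) {p : ℕ}
    [Fact p.Prime] (hpN : IsPGroup p N) {x : G} (hx : x ∈ N) (hx1 : x ≠ 1) :
    ∃ P : Sylow p G, Subgroup.centralizer ({x} : Set G) = P := by
  classical
  haveI := d.normal
  obtain ⟨h1, h2⟩ := d.relations
  obtain ⟨D, hD0, hD⟩ := exists_degree χ
  set q := Nat.card N with hq
  have hq2 : 2 ≤ q := by
    haveI := N.nontrivial_iff_ne_bot.mpr d.ne_bot
    exact Finite.one_lt_card
  have hgx : IsConj g x := ((d.mem_iff x).mp hx).resolve_left hx1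
  set C := Subgroup.centralizer ({x} : Set G) with hC
  have hcard : (q - 1) * Nat.card C = Nat.card G := by
    rw [← card_isConj_mul_card_centralizer x]
    congr 1
    rw [Nat.card_congr (Equiv.subtypeEquivRight (p := IsConj x) (q := fun h => h ∈ N ∧ h ≠ 1)
      fun h => ⟨fun hh => ⟨(d.mem_iff h).mpr (Or.inr (hgx.trans hh)),
        fun e => hx1 (isConj_one_left.mp (e ▸ hh))⟩,
        fun hh => d.isConj_of_mem hx hh.1 hx1 hh.2⟩)]
    rw [hq, Nat.card_eq_fintype_card, Nat.card_eq_fintype_card, Fintype.card_subtype,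
      Fintype.card_subtype]
    rw [show Finset.univ.filter (fun h : G => h ∈ N ∧ h ≠ 1) =
      (Finset.univ.filter fun h : G => h ∈ N).erase 1 by ext; simp [and_comm],
      Finset.card_erase_of_mem (Finset.mem_filter.mpr ⟨Finset.mem_univ _, N.one_mem⟩)]
  have hgval : χ.1 x = -(D : ℂ) / ((q : ℂ) - 1) := by
    have hqne : ((q : ℂ) - 1) ≠ 0 := sub_ne_zero.mpr (Nat.cast_ne_one.mpr (by omega))
    rw [← H26.irr_eq_of_isConj χ hgx, eq_div_iff hqne]
    linear_combination h1 - hD
  have hqD : (q - 1) ∣ D := by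
    refine H25.dvd_of_isIntegral_div (by omega) ?_
    rw [Nat.cast_sub (by omega : 1 ≤ q), Nat.cast_one]
    obtain ⟨n, ρ, -, e⟩ := χ.2
    have hint := (H25.isIntegral_char ρ x).neg
    rwa [e, hgval, neg_div, neg_neg] at hint
  obtain ⟨e, he⟩ := hqD
  have hGe : Nat.card G = (q - 1) * (q * (e * e)) := by
    have hge : χ.1 g = -(e : ℂ) := by
      have hqne : ((q : ℂ) - 1) ≠ 0 := sub_ne_zero.mpr (Nat.cast_ne_one.mpr (by omega))
      rw [H26.irr_eq_of_isConj χ hgx, hgval, he]
      push_cast [Nat.cast_sub (by omega : 1 ≤ q)]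
      field_simp
    have : (Nat.card G : ℂ) = (((q - 1) * (q * (e * e)) : ℕ) : ℂ) := by
      rw [← h2, hD, hge, he]
      push_cast [Nat.cast_sub (by omega : 1 ≤ q)]
      simp only [map_neg, map_natCast]
      ring
    exact_mod_cast this
  have hCe : Nat.card C = q * (e * e) := by
    rw [hGe] at hcard
    exact Nat.eq_of_mul_eq_mul_left (by omega) hcard
  -- the centralizer is a `p`-group
  have hCp : IsPGroup p C := by
    obtain ⟨m, hm⟩ := hpN.exists_card_eq
    suffices h : ∀ r, r.Prime → r ∣ Nat.card C → r = p by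
      obtain ⟨k, hk⟩ : ∃ k, Nat.card C = p ^ k :=
        ⟨_, Nat.eq_prime_pow_of_unique_prime_dvd Nat.card_pos.ne' (fun {r} => h r)⟩
      exact IsPGroup.of_card hk
    intro r hr hrC
    by_contra hrp
    haveI := Fact.mk hr
    obtain ⟨R⟩ : Nonempty (Sylow r C) := inferInstance
    set R' : Subgroup G := (R : Subgroup C).map C.subtype with hR'
    have hR'p : IsPGroup r R' := R.isPGroup'.map _
    have hRcard : Nat.card R' = r ^ (Nat.card C).factorization r := by
      rw [hR', Subgroup.card_subtype, Sylow.card_eq_multiplicity]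
    have hRC : R' ≤ C := Subgroup.map_subtype_le _
    have hRN : ∀ y, y ∈ R' → y ∈ N → y = 1 := by
      intro y hy hyN
      obtain ⟨k, hk⟩ := hR'p ⟨y, hy⟩
      obtain ⟨j, hj⟩ := hpN ⟨y, hyN⟩
      refine orderOf_eq_one_iff.mp (Nat.eq_one_of_dvd_coprimes
        (Nat.coprime_pow_primes k j hr (Fact.out) hrp)
        (orderOf_dvd_of_pow_eq_one (by simpa using congrArg Subtype.val hk))
        (orderOf_dvd_of_pow_eq_one (by simpa using congrArg Subtype.val hj)))
    obtain ⟨n, ρ, -, hρ⟩ := χ.2
    -- the abelian group generated by `x`, acting with `R'`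
    set X := Subgroup.zpowers x with hX
    haveI : Fintype X := Fintype.ofFinite _
    haveI : Fintype R' := Fintype.ofFinite _
    have hXN : X ≤ N := by rw [hX, Subgroup.zpowers_le]; exact hx
    haveI : IsMulCommutative X := inferInstance
    have hXnt : (⟨x, Subgroup.mem_zpowers x⟩ : X) ≠ 1 := fun h => hx1 (congrArg Subtype.val h)
    obtain ⟨μ, hμ⟩ := H27.exists_linear_ne_one hXnt
    have hμ1 : μ ≠ 1 := fun h => hμ (by rw [h]; rfl)
    have hcommute : ∀ a ∈ X, ∀ b ∈ R', a * b = b * a := by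
      intro a ha b hb
      obtain ⟨k, rfl⟩ := ha
      have hxb : Commute x b := (Subgroup.mem_centralizer_singleton_iff.mp (hRC hb)).symm
      exact (hxb.zpow_left k).eq
    let τ : Representation ℂ (X × R') (Fin n → ℂ) := ρ.comp
      { toFun := fun a => (a.1 : G) * (a.2 : G)
        map_one' := by simp
        map_mul' := fun a b => by
          simp only [Prod.fst_mul, Prod.snd_mul, Subgroup.coe_mul]
          rw [mul_assoc (a.1 : G), ← mul_assoc (b.1 : G), hcommute _ b.1.2 _ a.2.2]
          group }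
    let ν : Representation ℂ (X × R') ℂ :=
      H26.linearRep (μ.comp (MonoidHom.fst X R'))
    have hτ := H26.classInner_char_eq_finrank ν τ
    set mlt : ℕ := Module.finrank ℂ (Representation.IntertwiningMap ν τ)
    have hval : ∀ a : X × R', τ.character a = χ.1 ((a.1 : G) * (a.2 : G)) := fun a => by
      rw [← hρ]; rfl
    have hsumX : ∑ a : X, τ.character (a, 1) * conj (ν.character (a, 1)) =
        (χ.1 1 - χ.1 x) := by
      have hterm : ∀ a : X, τ.character (a, 1) * conj (ν.character (a, 1)) =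
          (if a = 1 then χ.1 1 - χ.1 x else 0) + χ.1 x * conj ((μ a : ℂˣ) : ℂ) := by
        intro a
        rw [hval, show ν.character (a, 1) = ((μ a : ℂˣ) : ℂ) from H26.char_linearRep _ _]
        split_ifs with ha
        · subst ha
          simp
        · simp only [OneMemClass.coe_one, mul_one, zero_add]
          congr 1
          exact (H26.irr_eq_of_isConj χ (d.isConj_of_mem hx (hXN a.2) hx1
            (fun h => ha (Subtype.ext h)))).symm
      rw [Finset.sum_congr rfl (fun a _ => hterm a), Finset.sum_add_distrib,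
        Finset.sum_ite_eq', if_pos (Finset.mem_univ _), ← Finset.mul_sum, ← map_sum,
        H27.sum_apply_linear hμ1, map_zero, mul_zero, add_zero]
    rw [Cfsg.classInner, Fintype.sum_prod_type, Nat.card_prod] at hτ
    have hinner : ∀ a : X, ∑ b : R', τ.character (a, b) * conj (ν.character (a, b)) =
        τ.character (a, 1) * conj (ν.character (a, 1)) := by
      intro a
      refine Finset.sum_eq_single 1 (fun b _ hb => ?_) (fun h => absurd (Finset.mem_univ _) h)
      rw [hval, show χ.1 ((a : G) * (b : G)) = 0 from ?_, zero_mul]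
      by_contra hc
      have hab := (d.support _).mp hc
      exact hb (Subtype.ext (hRN b b.2 (by
        have := N.mul_mem (N.inv_mem (hXN a.2)) hab
        rwa [inv_mul_cancel_left] at this)))
    rw [Finset.sum_congr rfl (fun a _ => hinner a), hsumX, hgval, hD] at hτ
    have hXne : ((Nat.card X * Nat.card R' : ℕ) : ℂ) ≠ 0 :=
      Nat.cast_ne_zero.mpr (Nat.mul_pos Nat.card_pos Nat.card_pos).ne'
    rw [inv_mul_eq_iff_eq_mul₀ hXne] at hτ
    have hqne : ((q : ℂ) - 1) ≠ 0 := sub_ne_zero.mpr (Nat.cast_ne_one.mpr (by omega))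
    have hnat : q * e = Nat.card X * Nat.card R' * mlt := by
      have hcast : ((q * e : ℕ) : ℂ) = ((Nat.card X * Nat.card R' * mlt : ℕ) : ℂ) := by
        push_cast at hτ ⊢
        rw [← hτ, he]
        push_cast [Nat.cast_sub (by omega : 1 ≤ q)]
        field_simp
        ring
      exact_mod_cast hcast
    have hdvd : Nat.card R' ∣ q * e := hnat ▸ (Dvd.intro_left _ rfl).mul_right _
    have hcop : (Nat.card R').Coprime q := by
      rw [hRcard, hq, hm]
      exact Nat.coprime_pow_primes _ _ hr Fact.out hrp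
    have he0 : e ≠ 0 := by
      rintro rfl
      rw [mul_zero] at he
      omega
    have hf : (Nat.card C).factorization r = e.factorization r + e.factorization r := by
      rw [hCe, Nat.factorization_mul (by omega) (mul_ne_zero he0 he0),
        Nat.factorization_mul he0 he0, Finsupp.add_apply, Finsupp.add_apply, hq, hm,
        Nat.factorization_eq_zero_of_not_dvd (fun h => hrp
          ((Nat.prime_dvd_prime_iff_eq hr Fact.out).mp (hr.dvd_of_dvd_pow h))), zero_add]
    have h3 := hcop.dvd_of_dvd_mul_left hdvd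
    rw [hRcard, hr.pow_dvd_iff_le_factorization he0] at h3
    have h4 := Nat.Prime.factorization_pos_of_dvd hr Nat.card_pos.ne' hrC
    omega
  -- the index is prime to `p`
  obtain ⟨m, hm⟩ := hpN.exists_card_eq
  have hidx : C.index = q - 1 := by
    have h := C.card_mul_index
    rw [← hcard, mul_comm (q - 1)] at h
    exact Nat.eq_of_mul_eq_mul_left Nat.card_pos h
  have hndvd : ¬ p ∣ C.index := by
    rw [hidx]
    intro h
    rw [hq, hm] at h hq2
    have hpm : p ∣ p ^ m := by
      refine dvd_pow_self p ?_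
      rintro rfl
      simp at hq2
    have h1 : p ∣ p ^ m - (p ^ m - 1) := Nat.dvd_sub hpm h
    rw [show p ^ m - (p ^ m - 1) = 1 by omega, Nat.dvd_one] at h1
    exact (Fact.out : p.Prime).ne_one h1
  exact ⟨hCp.toSylow hndvd, (IsPGroup.toSylow_coe hCp hndvd).symm⟩

end Cfsg.Agent.H44
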