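import Cfsg.Prelude.Def_Transfer
import Mathlib

/-! Primes in class sizes: without a normal complement for a prime, half of the elements have class
size divisible by it. -/

set_option autoImplicit false

namespace Cfsg.Agent.H44.ClassSizePrimes

open Subgroup

variable {G : Type*} [Group G] [Finite G]

/-- An element whose class size is prime to `p` centralises a Sylow subgroup. -/
theorem exists_sylow_le {p : ℕ} [Fact p.Prime] {x : G}
    (h : ¬ p ∣ (centralizer ({x} : Set G)).index) :
    ∃ Q : Sylow p G, x ∈ centralizer ((Q : Subgroup G) : Set G) := by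
  obtain ⟨R⟩ : Nonempty (Sylow p ↥(centralizer ({x} : Set G))) := inferInstance
  set Q₀ : Subgroup G := (R : Subgroup ↥(centralizer ({x} : Set G))).map (centralizer ({x} : Set G)).subtype
  have hcard : Nat.card ↥Q₀ = p ^ (Nat.card G).factorization p := by
    have h1 : Nat.card ↥Q₀ = Nat.card (R : Subgroup ↥(centralizer ({x} : Set G))) :=
      Subgroup.card_map_of_injective (Subgroup.subtype_injective _)
    rw [h1, R.card_eq_multiplicity, ← (centralizer ({x} : Set G)).index_mul_card,
      Nat.factorization_mul Subgroup.index_ne_zero_of_finite Nat.card_pos.ne', Finsupp.add_apply,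
      Nat.factorization_eq_zero_of_not_dvd h, zero_add]
  refine ⟨Sylow.ofCard Q₀ hcard, mem_centralizer_iff.2 fun y hy => ?_⟩
  rw [SetLike.mem_coe, Sylow.coe_ofCard] at hy
  obtain ⟨z, -, rfl⟩ := hy
  exact (mem_centralizer_iff.1 z.2 x rfl).symm

/-- Without a normal `p`-complement, twice the number of elements of class size prime to `p` is at
most the group order. -/
theorem two_mul_card_good {p : ℕ} [Fact p.Prime] (h : ¬ Cfsg.HasNormalPComplement p G) :
    2 * {x : G | ¬ p ∣ (centralizer ({x} : Set G)).index}.ncard ≤ Nat.card G := by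
  classical
  obtain ⟨P⟩ : Nonempty (Sylow p G) := inferInstance
  set C := centralizer ((P : Subgroup G) : Set G) with hCdef
  set N := normalizer ((P : Subgroup G) : Set G) with hNdef
  have hCN : C < N := by
    refine lt_of_le_of_ne (centralizer_le_normalizer _) fun e => h ?_
    exact ⟨P, _, (MonoidHom.transferSylow P e.ge).normal_ker,
      MonoidHom.ker_transferSylow_isComplement' P e.ge⟩
  have h2 : 2 * Nat.card C ≤ Nat.card N := by
    have h1 := Subgroup.card_subgroup_dvd_card (C.subgroupOf N)
    rw [Nat.card_congr (Subgroup.subgroupOfEquivOfLe hCN.le).toEquiv] at h1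
    obtain ⟨k, hk⟩ := h1
    have hlt : Nat.card C < Nat.card N := by
      have := Set.ncard_lt_ncard (SetLike.coe_ssubset_coe.2 hCN) (Set.toFinite _)
      rwa [← Nat.card_coe_set_eq, ← Nat.card_coe_set_eq] at this
    rcases k with _ | _ | k
    · omega
    · omega
    · rw [hk]; nlinarith
  have hconj : ∀ Q : Sylow p G,
      Nat.card ↥(centralizer ((Q : Subgroup G) : Set G)) ≤ Nat.card C := by
    intro Q
    obtain ⟨g, hg⟩ := MulAction.exists_smul_eq G P Q
    refine Nat.card_le_card_of_injective
      (fun y => (⟨g⁻¹ * (y : G) * g, ?_⟩ : C)) fun a b e => Subtype.ext ?_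
    · refine mem_centralizer_iff.2 fun q hq => ?_
      have hq' : g * q * g⁻¹ ∈ (Q : Subgroup G) := by
        rw [← hg, Sylow.coe_subgroup_smul]
        exact Subgroup.smul_mem_pointwise_smul q (MulAut.conj g) _ hq
      have := mem_centralizer_iff.1 y.2 _ hq'
      calc q * (g⁻¹ * (y : G) * g) = g⁻¹ * (g * q * g⁻¹ * y) * g := by group
        _ = g⁻¹ * ((y : G) * (g * q * g⁻¹)) * g := by rw [this]
        _ = g⁻¹ * (y : G) * g * q := by group
    · simpa using congrArg Subtype.val e
  haveI : Fintype (Sylow p G) := Fintype.ofFinite _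
  calc 2 * {x : G | ¬ p ∣ (centralizer ({x} : Set G)).index}.ncard
      ≤ 2 * Nat.card (Σ Q : Sylow p G, ↥(centralizer ((Q : Subgroup G) : Set G))) := by
        rw [← Nat.card_coe_set_eq]
        refine Nat.mul_le_mul_left 2 (Nat.card_le_card_of_injective
          (fun x => ⟨Classical.choose (exists_sylow_le x.2),
            ⟨x.1, Classical.choose_spec (exists_sylow_le x.2)⟩⟩) fun a b e => Subtype.ext ?_)
        exact congrArg (fun s => (s.2 : G)) e
    _ ≤ 2 * (Nat.card (Sylow p G) * Nat.card C) := by
        rw [Nat.card_sigma, Nat.card_eq_fintype_card]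
        refine Nat.mul_le_mul_left 2 ((Finset.sum_le_sum fun Q _ => hconj Q).trans ?_)
        simp
    _ ≤ Nat.card G := by
        rw [P.card_eq_index_normalizer, ← N.index_mul_card]
        calc 2 * (N.index * Nat.card C) = N.index * (2 * Nat.card C) := by ring
          _ ≤ N.index * Nat.card N := Nat.mul_le_mul_left _ h2

/-- At most `2σ` primes divide class sizes if each class size has at most `σ` prime divisors and at
most one prime divisor of the order has a normal complement. -/
theorem card_primes_le (σ : ℕ)
    (hσ : ∀ x : G, ((centralizer ({x} : Set G)).index).primeFactors.card ≤ σ)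
    (hnil : ∀ p q : ℕ, p.Prime → q.Prime → p ∣ Nat.card G → q ∣ Nat.card G →
      Cfsg.HasNormalPComplement p G → Cfsg.HasNormalPComplement q G → p = q) :
    Nat.card {p : ℕ | p.Prime ∧ ∃ x : G, p ∣ (centralizer ({x} : Set G)).index} ≤ 2 * σ := by
  classical
  haveI : Fintype G := Fintype.ofFinite G
  set S := ((Nat.card G).primeFactors.filter
    fun p => ∃ x : G, p ∣ (centralizer ({x} : Set G)).index) with hS
  have hset : {p : ℕ | p.Prime ∧ ∃ x : G, p ∣ (centralizer ({x} : Set G)).index} = ↑S := by
    ext p
    simp only [Set.mem_setOf_eq, hS, Finset.coe_filter, Nat.mem_primeFactors]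
    exact ⟨fun ⟨h1, x, hx⟩ => ⟨⟨h1, hx.trans (Subgroup.index_dvd_card _), Nat.card_pos.ne'⟩, x, hx⟩,
      fun ⟨h1, h2⟩ => ⟨h1.1, h2⟩⟩
  rw [hset, Nat.card_coe_set_eq, Set.ncard_coe_finset]
  set bad : ℕ → Finset G :=
    fun p => Finset.univ.filter fun x => p ∣ (centralizer ({x} : Set G)).index with hbad
  have hone : (centralizer ({1} : Set G)).index = 1 := by
    rw [Subgroup.index_eq_one, eq_top_iff]
    exact fun g _ => mem_centralizer_singleton_iff.2 (by simp)
  have hupper : ∑ p ∈ S, (bad p).card ≤ σ * (Nat.card G - 1) := by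
    calc ∑ p ∈ S, (bad p).card
        = ∑ x : G, (S.filter fun p => p ∣ (centralizer ({x} : Set G)).index).card := by
          simp only [hbad, Finset.card_filter]
          exact Finset.sum_comm
      _ = ∑ x ∈ Finset.univ.erase 1,
            (S.filter fun p => p ∣ (centralizer ({x} : Set G)).index).card := by
          refine (Finset.sum_erase _ ?_).symm
          rw [Finset.card_eq_zero, Finset.filter_eq_empty_iff]
          intro p hp hd
          rw [hone, Nat.dvd_one] at hd
          exact (Nat.prime_of_mem_primeFactors (Finset.mem_filter.1 hp).1).ne_one hd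
      _ ≤ (Finset.univ.erase (1 : G)).card * σ := by
          refine Finset.sum_le_card_nsmul _ _ σ fun x _ => le_trans (Finset.card_le_card ?_) (hσ x)
          intro p hp
          obtain ⟨h1, h2⟩ := Finset.mem_filter.1 hp
          exact Nat.mem_primeFactors.2
            ⟨Nat.prime_of_mem_primeFactors (Finset.mem_filter.1 h1).1, h2,
              Subgroup.index_ne_zero_of_finite⟩
      _ = σ * (Nat.card G - 1) := by
          rw [Finset.card_erase_of_mem (Finset.mem_univ _), Finset.card_univ,
            Nat.card_eq_fintype_card, mul_comm]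
  have hlow : ∀ p ∈ S, ¬ Cfsg.HasNormalPComplement p G → Nat.card G ≤ 2 * (bad p).card := by
    intro p hp hn
    haveI : Fact p.Prime := ⟨Nat.prime_of_mem_primeFactors (Finset.mem_filter.1 hp).1⟩
    have h1 := two_mul_card_good hn
    have h2 : {x : G | ¬ p ∣ (centralizer ({x} : Set G)).index}.ncard + (bad p).card
        = Nat.card G := by
      rw [show {x : G | ¬ p ∣ (centralizer ({x} : Set G)).index}
          = ((Finset.univ.filter fun x : G => ¬ p ∣ (centralizer ({x} : Set G)).index : Finset G) :
            Set G) by ext; simp, Set.ncard_coe_finset, hbad, Nat.card_eq_fintype_card]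
      rw [add_comm]
      exact Finset.card_filter_add_card_filter_not _
    omega
  have hpos : 0 < Nat.card G := Nat.card_pos
  by_cases hex : ∃ p ∈ S, Cfsg.HasNormalPComplement p G
  · obtain ⟨p₀, hp₀, hc⟩ := hex
    have h1 : (S.erase p₀).card * Nat.card G ≤ 2 * ∑ p ∈ S.erase p₀, (bad p).card := by
      rw [Finset.mul_sum]
      refine le_of_eq_of_le (by simp) (Finset.sum_le_sum
        (f := fun _ => Nat.card G) fun p hp => ?_)
      obtain ⟨hne, hp⟩ := Finset.mem_erase.1 hp
      refine hlow p hp fun hc' => hne (hnil p p₀ ?_ ?_ ?_ ?_ hc' hc)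
      · exact Nat.prime_of_mem_primeFactors (Finset.mem_filter.1 hp).1
      · exact Nat.prime_of_mem_primeFactors (Finset.mem_filter.1 hp₀).1
      · exact Nat.dvd_of_mem_primeFactors (Finset.mem_filter.1 hp).1
      · exact Nat.dvd_of_mem_primeFactors (Finset.mem_filter.1 hp₀).1
    have h2 : 1 ≤ (bad p₀).card := by
      obtain ⟨x, hx⟩ := (Finset.mem_filter.1 hp₀).2
      exact Finset.card_pos.2 ⟨x, by simp [hbad, hx]⟩
    rw [← Finset.add_sum_erase _ _ hp₀] at hupper
    rw [Finset.card_erase_of_mem hp₀] at h1
    have hS1 : 1 ≤ S.card := Finset.card_pos.2 ⟨p₀, hp₀⟩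
    by_contra hlt
    have h3 : (2 * σ) * Nat.card G ≤ (S.card - 1) * Nat.card G :=
      Nat.mul_le_mul_right _ (by omega)
    have h4 : σ * (Nat.card G - 1) + σ = σ * Nat.card G := by
      rw [← Nat.mul_succ]; congr 1; omega
    nlinarith
  · push_neg at hex
    have h1 : S.card * Nat.card G ≤ 2 * ∑ p ∈ S, (bad p).card := by
      rw [Finset.mul_sum]
      exact le_of_eq_of_le (by simp) (Finset.sum_le_sum
        (f := fun _ => Nat.card G) fun p hp => hlow p hp (hex p hp))
    have h4 : σ * (Nat.card G - 1) ≤ σ * Nat.card G := Nat.mul_le_mul_left _ (Nat.sub_le _ _)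
    exact Nat.le_of_mul_le_mul_right (by nlinarith) hpos

end Cfsg.Agent.H44.ClassSizePrimes
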