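import Mathlib

set_option autoImplicit false

namespace Cfsg.Agent.H44

variable {Q : Type*} [Group Q] [Finite Q] {V : Type*} [AddCommGroup V] [Module ℂ V]
  [FiniteDimensional ℂ V]

/-- If the central subgroup `D` acts nontrivially, some invariant subspace has all elements of the
central subgroup `Z` acting by scalars, nontrivially on `D`. -/
theorem exists_invariant_scalar_subspace (σ : Representation ℂ Q V) (Z D : Subgroup Q)
    (hZ : Z ≤ Subgroup.center Q) (hDZ : D ≤ Z) (hD : ∃ d ∈ D, σ d ≠ 1) :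
    ∃ (W : Submodule ℂ V) (μ : Q → ℂ), W ≠ ⊥ ∧ (∀ q : Q, ∀ w ∈ W, σ q w ∈ W) ∧
      (∀ z ∈ Z, ∀ w ∈ W, σ z w = μ z • w) ∧ ∃ d ∈ D, μ d ≠ 1 := by
  classical
  haveI : Fintype D := Fintype.ofFinite _
  let e : V →ₗ[ℂ] V := ∑ d : D, σ d.1
  have he : ∀ v, e v = ∑ d : D, σ d.1 v := fun v => by simp [e]
  have hcom : ∀ q : Q, ∀ v, σ q (e v) = e (σ q v) := by
    intro q v
    rw [he, he, map_sum]
    refine Finset.sum_congr rfl fun d _ => ?_
    rw [← Module.End.mul_apply, ← Module.End.mul_apply, ← map_mul, ← map_mul,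
      (Subgroup.mem_center_iff.mp (hZ (hDZ d.2)) q).symm]
  have habs : ∀ (c : D) v, σ c.1 (e v) = e v := by
    intro c v
    rw [he, map_sum]
    refine Fintype.sum_equiv (Equiv.mulLeft c) _ _ fun d => ?_
    rw [← Module.End.mul_apply, ← map_mul]
    rfl
  set U := LinearMap.ker e with hU
  have hUinv : ∀ q : Q, ∀ u ∈ U, σ q u ∈ U := by
    intro q u hu
    rw [hU, LinearMap.mem_ker] at hu ⊢
    rw [← hcom, hu, map_zero]
  have hUne : U ≠ ⊥ := by
    intro h
    obtain ⟨d, hd, hne⟩ := hD
    apply hne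
    refine LinearMap.ext fun v => ?_
    have hsurj := LinearMap.injective_iff_surjective.mp (LinearMap.ker_eq_bot.mp h)
    obtain ⟨u, rfl⟩ := hsurj v
    exact habs ⟨d, hd⟩ u
  obtain ⟨W, ⟨hWU, hW1, hWinv⟩, hWmin⟩ := wellFounded_lt.has_min
    {W : Submodule ℂ V | W ≤ U ∧ W ≠ ⊥ ∧ ∀ q : Q, ∀ w ∈ W, σ q w ∈ W} ⟨U, le_rfl, hUne, hUinv⟩
  have hscal : ∀ z : Q, ∃ c : ℂ, z ∈ Z → ∀ w ∈ W, σ z w = c • w := by
    intro z
    by_cases hz : z ∈ Z
    · haveI : Nontrivial W := Submodule.nontrivial_iff_ne_bot.mpr hW1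
      obtain ⟨c, hc⟩ := Module.End.exists_eigenvalue ((σ z).restrict (hWinv z))
      refine ⟨c, fun _ => ?_⟩
      let W' : Submodule ℂ V := W ⊓ Module.End.eigenspace (σ z) c
      have hW' : ¬ W' < W := by
        refine hWmin W' ⟨inf_le_left.trans hWU, ?_, ?_⟩
        · obtain ⟨w, hw⟩ := hc.exists_hasEigenvector
          intro hbot
          have hmem : (w : V) ∈ W' := by
            refine ⟨w.2, Module.End.mem_eigenspace_iff.mpr ?_⟩
            simpa using congrArg Subtype.val hw.apply_eq_smul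
          rw [hbot, Submodule.mem_bot] at hmem
          exact hw.2 (Subtype.ext hmem)
        · rintro q w ⟨hw, hwe⟩
          refine ⟨hWinv q w hw, Module.End.mem_eigenspace_iff.mpr ?_⟩
          rw [← Module.End.mul_apply, ← map_mul, (Subgroup.mem_center_iff.mp (hZ hz) q).symm,
            map_mul, Module.End.mul_apply, Module.End.mem_eigenspace_iff.mp hwe, map_smul]
      have hWW : W' = W := (eq_or_lt_of_le inf_le_left).resolve_right hW'
      intro w hw
      rw [← hWW] at hw
      exact Module.End.mem_eigenspace_iff.mp hw.2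
    · exact ⟨0, fun h => absurd h hz⟩
  choose μ hμ using hscal
  refine ⟨W, μ, hW1, hWinv, fun z hz => hμ z hz, ?_⟩
  by_contra hcon
  push Not at hcon
  obtain ⟨w, hw, hw0⟩ := W.exists_mem_ne_zero_of_ne_bot hW1
  have h : e w = (Fintype.card D : ℂ) • w := by
    rw [he]
    simp [hμ _ (hDZ (Subtype.mem _)) w hw, hcon, Nat.cast_smul_eq_nsmul]
  rw [LinearMap.mem_ker.mp (hWU hw)] at h
  rcases smul_eq_zero.mp h.symm with h | h
  · exact Fintype.card_ne_zero (Nat.cast_eq_zero.mp h)
  · exact hw0 h

/-- Nonzero vectors that are joint eigenvectors with pairwise different systems of eigenvalues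
are linearly independent. -/
theorem linearIndependent_of_joint_eigen {K : Type*} [Field K] {M : Type*} [AddCommGroup M]
    [Module K M] {ι κ : Type*} (f : κ → M →ₗ[K] M) (v : ι → M) (c : ι → κ → K)
    (hv : ∀ i, v i ≠ 0) (hf : ∀ i k, f k (v i) = c i k • v i) (hc : Function.Injective c) :
    LinearIndependent K v := by
  classical
  rw [linearIndependent_iff']
  intro s
  induction s using Finset.induction with
  | empty => simp
  | @insert j s hj ih =>
    intro g hg
    rw [Finset.sum_insert hj] at hg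
    have hs : ∀ i ∈ s, g i = 0 := by
      intro i hi
      obtain ⟨k, hk⟩ : ∃ k, c i k ≠ c j k :=
        Function.ne_iff.mp (hc.ne (fun h : i = j => hj (h ▸ hi)))
      have h1 := congrArg (f k) hg
      have h2 := congrArg (c j k • ·) hg
      simp only [map_add, map_sum, map_smul, map_zero, hf, smul_add, Finset.smul_sum,
        smul_zero] at h1 h2
      have h3 : ∑ l ∈ s, (g l * (c l k - c j k)) • v l = 0 := by
        have := congrArg₂ (· - ·) h1 h2
        simp only [sub_zero, smul_smul, mul_comm (c j k) (g j), add_sub_add_left_eq_sub,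
          ← Finset.sum_sub_distrib, ← sub_smul] at this
        rw [← this]
        exact Finset.sum_congr rfl fun l _ => by congr 1; ring
      exact (mul_eq_zero.mp (ih _ h3 i hi)).resolve_right (sub_ne_zero.mpr hk)
    intro i hi
    rcases Finset.mem_insert.mp hi with rfl | hi
    · rw [Finset.sum_eq_zero (fun l hl => by rw [hs l hl, zero_smul]), add_zero] at hg
      exact (smul_eq_zero.mp hg).resolve_right (hv _)
    · exact hs i hi

end Cfsg.Agent.H44
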