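import Mathlib
import Cfsg.Agent.H44.Inflation

/-!
# Counting products of two commutators with characters
-/

set_option autoImplicit false
open scoped ComplexConjugate

namespace Cfsg.Agent.H44

variable {G : Type*} [Group G] [Fintype G] {V : Type*} [AddCommGroup V] [Module ℂ V]
  [FiniteDimensional ℂ V]

/-- The sum of the operators of all commutators is a scalar. -/
theorem sum_commutator_apply (ρ : Representation ℂ G V) [ρ.IsIrreducible] :
    ∑ a : G, ∑ b : G, ρ (a * b * a⁻¹ * b⁻¹) =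
      ((Nat.card G : ℂ) / (Module.finrank ℂ V : ℂ)) ^ 2 • (LinearMap.id : V →ₗ[ℂ] V) := by
  have hsc : ∀ T : V →ₗ[ℂ] V, (∀ x, T * ρ x = ρ x * T) →
      T = (LinearMap.trace ℂ V T / (Module.finrank ℂ V : ℂ)) • LinearMap.id := fun T hT =>
    H25.eq_smul_id_of_comm ρ T fun x => by simpa [Module.End.mul_eq_comp] using hT x
  have hclass : ∀ h : G, ∑ b : G, ρ (b * h * b⁻¹) =
      ((Nat.card G : ℂ) * ρ.character h / (Module.finrank ℂ V : ℂ)) • LinearMap.id := by
    intro h
    rw [hsc (∑ b : G, ρ (b * h * b⁻¹)) fun x => ?_]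
    · congr 2
      rw [map_sum]
      show ∑ b : G, ρ.character (b * h * b⁻¹) = _
      simp [ρ.char_conj, Nat.card_eq_fintype_card]
    · rw [Finset.sum_mul, Finset.mul_sum]
      refine Fintype.sum_equiv (Equiv.mulLeft x⁻¹) _ _ fun b => ?_
      simp only [Equiv.coe_mulLeft, ← map_mul]
      congr 1
      group
  have hconv : ∑ a : G, ρ.character a⁻¹ • ρ a =
      ((Nat.card G : ℂ) / (Module.finrank ℂ V : ℂ)) • (LinearMap.id : V →ₗ[ℂ] V) := by
    rw [hsc (∑ a : G, ρ.character a⁻¹ • ρ a) fun x => ?_]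
    · congr 2
      rw [map_sum, ← H25.sum_char_mul_char_inv ρ]
      refine Finset.sum_congr rfl fun a _ => ?_
      rw [map_smul, smul_eq_mul, mul_comm]
      rfl
    · simp only [Finset.sum_mul, Finset.mul_sum, smul_mul_assoc, mul_smul_comm, ← map_mul]
      refine Fintype.sum_equiv (MulAut.conj x⁻¹).toEquiv _ _ fun a => ?_
      simp only [MulEquiv.toEquiv_eq_coe, EquivLike.coe_coe, MulAut.conj_apply, inv_inv]
      rw [show (x⁻¹ * a * x)⁻¹ = x⁻¹ * a⁻¹ * x⁻¹⁻¹ by group, ρ.char_conj,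
        show x * (x⁻¹ * a * x) = a * x by group]
  have hinner : ∀ a : G, ∑ b : G, ρ (a * b * a⁻¹ * b⁻¹) =
      ((Nat.card G : ℂ) / (Module.finrank ℂ V : ℂ)) • (ρ.character a⁻¹ • ρ a) := by
    intro a
    have h1 : ∑ b : G, ρ (a * b * a⁻¹ * b⁻¹) = ρ a * ∑ b : G, ρ (b * a⁻¹ * b⁻¹) := by
      rw [Finset.mul_sum]
      exact Finset.sum_congr rfl fun b _ => by rw [← map_mul]; congr 1; group
    rw [h1, hclass, mul_smul_comm, smul_smul, Module.End.mul_eq_comp, LinearMap.comp_id]
    congr 1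
    ring
  rw [Finset.sum_congr rfl fun a _ => hinner a, ← Finset.smul_sum, hconv, smul_smul, sq]

/-- The number of ways of writing an element as a product of two commutators. -/
theorem card_two_commutators [DecidableEq G] (z : G) :
    ((Finset.univ.filter fun t : G × G × G × G =>
        t.1 * t.2.1 * t.1⁻¹ * t.2.1⁻¹ * (t.2.2.1 * t.2.2.2 * t.2.2.1⁻¹ * t.2.2.2⁻¹) = z).card : ℂ) =
      (Nat.card G : ℂ) ^ 3 * ∑ χ : Cfsg.IrrCharacter G, χ.1 z / χ.1 1 ^ 3 := by
  classical
  let c : G → G → G := fun a b => a * b * a⁻¹ * b⁻¹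
  let F : G → ℂ := fun z => ∑ a : G, ∑ b : G, ∑ u : G, ∑ v : G,
    if c a b * c u v = z then 1 else 0
  have hF : Cfsg.IsClassFunction G F := by
    intro g h
    simp only [F]
    refine Fintype.sum_equiv (MulAut.conj h⁻¹).toEquiv _ _ fun a => ?_
    refine Fintype.sum_equiv (MulAut.conj h⁻¹).toEquiv _ _ fun b => ?_
    refine Fintype.sum_equiv (MulAut.conj h⁻¹).toEquiv _ _ fun u => ?_
    refine Fintype.sum_equiv (MulAut.conj h⁻¹).toEquiv _ _ fun v => if_congr ?_ rfl rfl
    simp only [c, MulEquiv.toEquiv_eq_coe, EquivLike.coe_coe, MulAut.conj_apply, inv_inv]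
    constructor
    · intro e
      calc _ = h⁻¹ * (a * b * a⁻¹ * b⁻¹ * (u * v * u⁻¹ * v⁻¹)) * h := by group
        _ = g := by rw [e]; group
    · intro e
      rw [← e]
      group
  have hin : ∀ χ : Cfsg.IrrCharacter G,
      Cfsg.classInner F χ.1 = (Nat.card G : ℂ) ^ 3 / χ.1 1 ^ 3 := by
    intro χ
    obtain ⟨n, ρ, hρ, e⟩ := χ.2
    haveI := hρ
    have hd : χ.1 1 = (Module.finrank ℂ (Fin n → ℂ) : ℂ) := by rw [← e, ρ.char_one]
    have hsum : ∑ a : G, ∑ b : G, ∑ u : G, ∑ v : G, ρ.character (c a b * c u v) =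
        (Nat.card G : ℂ) ^ 4 / χ.1 1 ^ 3 := by
      have h1 : LinearMap.trace ℂ _ ((∑ a : G, ∑ b : G, ρ (c a b)) *
          ∑ u : G, ∑ v : G, ρ (c u v)) =
          ∑ a : G, ∑ b : G, ∑ u : G, ∑ v : G, ρ.character (c a b * c u v) := by
        simp only [Finset.sum_mul, map_sum, Finset.mul_sum, ← map_mul, Representation.character]
        refine ((Finset.sum_congr rfl fun x _ => Finset.sum_comm).trans Finset.sum_comm).trans ?_
        refine Finset.sum_congr rfl fun a _ => ?_
        exact (Finset.sum_congr rfl fun u _ => Finset.sum_comm).trans Finset.sum_comm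
      rw [← h1, sum_commutator_apply ρ, smul_mul_smul_comm, map_smul]
      show _ • LinearMap.trace ℂ _ ((LinearMap.id : (Fin n → ℂ) →ₗ[ℂ] (Fin n → ℂ)).comp
        LinearMap.id) = _
      rw [LinearMap.id_comp, LinearMap.trace_id, smul_eq_mul, ← hd]
      have := H26.irr_one_ne_zero χ
      field_simp
    have hne : (Nat.card G : ℂ) ≠ 0 := Nat.cast_ne_zero.mpr Nat.card_pos.ne'
    have h2 : ∑ z : G, F z * conj (χ.1 z) =
        conj (∑ a : G, ∑ b : G, ∑ u : G, ∑ v : G, ρ.character (c a b * c u v)) := by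
      simp only [F, Finset.sum_mul, map_sum, ite_mul, one_mul, zero_mul, ← e]
      rw [Finset.sum_comm]
      refine Finset.sum_congr rfl fun a _ => ?_
      rw [Finset.sum_comm]
      refine Finset.sum_congr rfl fun b _ => ?_
      rw [Finset.sum_comm]
      refine Finset.sum_congr rfl fun u _ => ?_
      rw [Finset.sum_comm]
      refine Finset.sum_congr rfl fun v _ => ?_
      simp
    have hr : conj (χ.1 1) = χ.1 1 := by rw [← H26.irr_inv, inv_one]
    rw [Cfsg.classInner, h2, hsum, map_div₀, map_pow, map_pow, map_natCast, hr]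
    have := H26.irr_one_ne_zero χ
    field_simp
  have hexp := congrFun (H26.class_function_expansion F hF) z
  rw [Finset.sum_apply] at hexp
  have hcount : F z = ((Finset.univ.filter fun t : G × G × G × G =>
      t.1 * t.2.1 * t.1⁻¹ * t.2.1⁻¹ * (t.2.2.1 * t.2.2.2 * t.2.2.1⁻¹ * t.2.2.2⁻¹) = z).card : ℂ) := by
    rw [← Finset.sum_boole]
    simp only [F, c, Fintype.sum_prod_type]
  rw [← hcount, hexp, Finset.mul_sum]
  exact Finset.sum_congr rfl fun χ _ => by rw [Pi.smul_apply, smul_eq_mul, hin χ]; ring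

end Cfsg.Agent.H44
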