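import Mathlib
import Cfsg.Agent.H44.ItoMichler
import Cfsg.Agent.H44.UniqueDivisibleDegree
import Cfsg.Agent.H27.Clifford

/-!
# Derived length of a Sylow subgroup and the degrees divisible by `p`
-/

set_option autoImplicit false
open scoped ComplexConjugate commutatorElement

namespace Cfsg.Agent.H44

universe u

/-- The inner product is invariant under an isomorphism. -/
theorem classInner_comp_mulEquiv {A B : Type*} [Group A] [Group B] [Fintype A] [Fintype B]
    (e : A ≃* B) (φ ψ : B → ℂ) :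
    Cfsg.classInner (fun a => φ (e a)) (fun a => ψ (e a)) = Cfsg.classInner φ ψ := by
  rw [Cfsg.classInner, Cfsg.classInner, Nat.card_congr e.toEquiv,
    Fintype.sum_equiv e.toEquiv (fun a => φ (e a) * conj (ψ (e a)))
      (fun b => φ b * conj (ψ b)) (fun _ => rfl)]

/-- A constituent of a constituent is a constituent, with multiplicity. -/
theorem mul_mult_le_mult {H : Type*} [Group H] [Fintype H] {M : Type*} [Group M] [Fintype M]
    (j : M →* H) {φ : H → ℂ} (hφ : Cfsg.IsCharacter H φ) (ψ : Cfsg.IrrCharacter H)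
    (θ : Cfsg.IrrCharacter M) {a b c : ℕ} (ha : Cfsg.classInner φ ψ.1 = a)
    (hb : Cfsg.classInner (fun m => ψ.1 (j m)) θ.1 = b)
    (hc : Cfsg.classInner (fun m => φ (j m)) θ.1 = c) : a * b ≤ c := by
  classical
  obtain ⟨k, hk, hdec⟩ := H26.exists_nat_coeffs hφ
  choose l hl using fun τ : Cfsg.IrrCharacter H =>
    H26.exists_nat_classInner_irr (H26.isCharacter_comp (H26.irr_isCharacter τ) j) θ
  have h1 : (c : ℂ) = ((∑ τ : Cfsg.IrrCharacter H, k τ * l τ : ℕ) : ℂ) := by
    rw [← hc, show (fun m => φ (j m)) =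
      ∑ τ : Cfsg.IrrCharacter H, (k τ : ℂ) • (fun m => τ.1 (j m)) from funext fun m => by
        rw [hdec]; simp [Finset.sum_apply], H26.classInner_sum_left, Nat.cast_sum]
    refine Finset.sum_congr rfl fun τ _ => ?_
    rw [H26.classInner_smul_left, Nat.cast_mul]
    congr 1
    exact hl τ
  have h2 : a = k ψ := by exact_mod_cast ha.symm.trans (hk ψ)
  have h3 : b = l ψ := by exact_mod_cast hb.symm.trans (hl ψ)
  rw [Nat.cast_inj] at h1
  rw [h1, h2, h3]
  exact Finset.single_le_sum (f := fun τ => k τ * l τ) (fun _ _ => Nat.zero_le _)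
    (Finset.mem_univ ψ)

/-- The determinant character. -/
theorem exists_det_hom {T : Type*} [Group T] {n : ℕ} (ρ : Representation ℂ T (Fin n → ℂ)) :
    ∃ L : T →* ℂˣ, ∀ (t : T) (c : ℂ), ρ t = c • LinearMap.id → (L t : ℂ) = c ^ n := by
  refine ⟨MonoidHom.toHomUnits ((LinearMap.det : ((Fin n → ℂ) →ₗ[ℂ] (Fin n → ℂ)) →* ℂ).comp ρ), fun t c h => ?_⟩
  rw [MonoidHom.coe_toHomUnits, MonoidHom.comp_apply, h, LinearMap.det_smul, LinearMap.det_id,
    mul_one, Module.finrank_fin_fun]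

variable {G : Type u} [Group G] [Finite G] {p : ℕ} [hp : Fact p.Prime]

/-- A character of degree prime to `p` not trivial on `M` has a restriction to a Sylow subgroup
with a linear constituent that is nontrivial on `M`. -/
theorem exists_linear_of_not_dvd (P : Sylow p G) (M : Subgroup G) [M.Normal]
    (hMP : M ≤ (P : Subgroup G)) (χ : Cfsg.IrrCharacter G)
    (hχ : ¬ p ∣ Cfsg.charDegree (χ : G → ℂ)) (hM : ¬ M ≤ kerOf χ) [Fintype M] :
    ∃ μ : ↥(P : Subgroup G) →* ℂˣ, (∃ m : M, μ ⟨m, hMP m.2⟩ ≠ 1) ∧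
      Cfsg.classInner (fun m : M => χ.1 m) (fun m : M => ((μ ⟨m, hMP m.2⟩ : ℂˣ) : ℂ)) ≠ 0 := by
  classical
  haveI := Fintype.ofFinite G
  haveI := Fintype.ofFinite ↥(P : Subgroup G)
  have hchar : Cfsg.IsCharacter ↥(P : Subgroup G) (fun x => χ.1 ((P : Subgroup G).subtype x)) :=
    H26.isCharacter_comp (H26.irr_isCharacter χ) (P : Subgroup G).subtype
  obtain ⟨b, hb, hdec⟩ := H26.exists_nat_coeffs hchar
  obtain ⟨ψ, hψb, hψ1⟩ : ∃ ψ, b ψ ≠ 0 ∧ ψ.1 1 = 1 := by
    by_contra hcon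
    push Not at hcon
    apply hχ
    have h : Cfsg.charDegree (χ : G → ℂ) =
        ∑ τ : Cfsg.IrrCharacter ↥(P : Subgroup G), b τ * Cfsg.charDegree (τ : ↥(P : Subgroup G) → ℂ) := by
      have h1 := congrFun hdec 1
      simp only [map_one, Finset.sum_apply, Pi.smul_apply, smul_eq_mul, ← cast_charDegree] at h1
      exact_mod_cast h1
    rw [h]
    refine Finset.dvd_sum fun τ _ => ?_
    by_cases hτ : b τ = 0
    · simp [hτ]
    · exact ((dvd_degree_iff_of_pGroup P.isPGroup' τ).mpr (hcon τ hτ)).mul_left _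
  obtain ⟨μ, hμ⟩ := H26.exists_hom_of_isCharacter_one (H26.irr_isCharacter ψ) hψ1
  let j : M →* ↥(P : Subgroup G) := Subgroup.inclusion hMP
  let θ : Cfsg.IrrCharacter M := ⟨_, H26.isIrrCharacter_hom (μ.comp j)⟩
  obtain ⟨c, hc⟩ := H26.exists_nat_classInner_irr (show Cfsg.IsCharacter M
    (fun m => χ.1 ((P : Subgroup G).subtype (j m))) from H26.isCharacter_comp hchar j) θ
  have hcpos : 0 < c := by
    refine lt_of_lt_of_le (Nat.mul_pos (Nat.pos_of_ne_zero hψb) one_pos)
      (mul_mult_le_mult j hchar ψ θ (hb ψ) ?_ hc)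
    rw [show (fun m => ψ.1 (j m)) = θ.1 from funext fun m => (hμ (j m)).symm,
      H26.classInner_irr, if_pos rfl, Nat.cast_one]
  have hne : Cfsg.classInner (fun m : M => χ.1 m) θ.1 ≠ 0 := by
    rw [show (fun m : M => χ.1 m) = fun m : M => χ.1 ((P : Subgroup G).subtype (j m)) from rfl, hc]
    exact_mod_cast hcpos.ne'
  refine ⟨μ, ?_, hne⟩
  by_contra hcon
  push Not at hcon
  apply hM
  intro m hm
  have hcl := congrFun (H27.clifford_restriction M χ.2 θ.2 hne) ⟨m, hm⟩
  have hcl1 := congrFun (H27.clifford_restriction M χ.2 θ.2 hne) 1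
  have hconst : ∀ x : M, (∑ᶠ τ ∈ {τ : M → ℂ | ∃ g : G, τ = H56.twist M θ.1 g}, τ) x =
      (∑ᶠ τ ∈ {τ : M → ℂ | ∃ g : G, τ = H56.twist M θ.1 g}, τ) 1 := by
    intro x
    have hfin : {τ : M → ℂ | ∃ g : G, τ = H56.twist M θ.1 g}.Finite :=
      (Set.finite_range fun g : G => H56.twist M θ.1 g).subset (by rintro _ ⟨g, rfl⟩; exact ⟨g, rfl⟩)
    rw [finsum_mem_eq_finite_toFinset_sum _ hfin, Finset.sum_apply, Finset.sum_apply]
    refine Finset.sum_congr rfl fun τ hτ => ?_
    obtain ⟨g, rfl⟩ := hfin.mem_toFinset.mp hτ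
    show ((μ (j ⟨_, _⟩) : ℂˣ) : ℂ) = ((μ (j ⟨_, _⟩) : ℂˣ) : ℂ)
    rw [show ∀ y : M, μ (j y) = 1 from hcon, show ∀ y : M, μ (j y) = 1 from hcon]
  rw [Pi.smul_apply, hconst, ← Pi.smul_apply] at hcl
  exact mem_kerOf.mpr (by simpa using hcl.trans hcl1.symm)

/-- If all degrees over nontrivial characters of a normal abelian `p`-subgroup are prime to `p`,
the Sylow subgroups are metabelian. -/
theorem commutator_sylow_le (hsolv : Cfsg.IsPSolvable p G) (P : Sylow p G) (M : Subgroup G)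
    [M.Normal] (hMP : M ≤ (P : Subgroup G)) (hMbot : M ≠ ⊥)
    (hdeg : ∀ χ : Cfsg.IrrCharacter G, p ∣ Cfsg.charDegree (χ : G → ℂ) → M ≤ kerOf χ) :
    ⁅(P : Subgroup G), (P : Subgroup G)⁆ ≤ M := by
  classical
  haveI := Fintype.ofFinite G
  haveI := Fintype.ofFinite M
  -- a nontrivial character of `G` on `M`
  obtain ⟨χ, hχM⟩ : ∃ χ : Cfsg.IrrCharacter G, ¬ M ≤ kerOf χ := by
    by_contra hcon
    push Not at hcon
    refine hMbot (eq_bot_iff.mpr fun m hm => ?_)
    exact mem_of_forall_kerOf ⊥ fun χ _ => hcon χ hm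
  have hχp : ¬ p ∣ Cfsg.charDegree (χ : G → ℂ) := fun h => hχM (hdeg χ h)
  obtain ⟨μ, ⟨m₀, hm₀⟩, hne⟩ := exists_linear_of_not_dvd P M hMP χ hχp hχM
  let θ : Cfsg.IrrCharacter M := ⟨_, H26.isIrrCharacter_hom (μ.comp (Subgroup.inclusion hMP))⟩
  have hθ1 : Cfsg.charDegree (θ : M → ℂ) = 1 := by simp [Cfsg.charDegree, θ]
  set T := inertia M θ.1 with hT
  have hPT : (P : Subgroup G) ≤ T := by
    intro x hx
    rw [hT, mem_inertia]
    funext m
    show ((μ _ : ℂˣ) : ℂ) = ((μ _ : ℂˣ) : ℂ)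
    congr 1
    have h := μ.map_mul (⟨x, hx⟩ : ↥(P : Subgroup G)) ⟨m, hMP m.2⟩
    calc μ ⟨x * m * x⁻¹, _⟩
        = μ ((⟨x, hx⟩ : ↥(P : Subgroup G)) * ⟨m, hMP m.2⟩ * ⟨x, hx⟩⁻¹) := rfl
      _ = μ ⟨m, hMP m.2⟩ := by rw [map_mul, map_mul, map_inv, mul_right_comm, mul_inv_cancel, one_mul]
  have hMT : M ≤ T := hMP.trans hPT
  haveI := Fintype.ofFinite T
  set MT := M.subgroupOf T with hMTdef
  haveI := Fintype.ofFinite MT
  let eM : MT ≃* M := Subgroup.subgroupOfEquivOfLe hMT
  let θT : Cfsg.IrrCharacter MT :=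
    ⟨_, H26.isIrrCharacter_hom ((μ.comp (Subgroup.inclusion hMP)).comp eM.toMonoidHom)⟩
  have hθT : ∀ x : MT, θT.1 x = θ.1 (eM x) := fun _ => rfl
  obtain ⟨e, he, hdχ⟩ := exists_degree_eq_index_inertia M χ θ hne
  rw [hθ1, mul_one, ← hT] at hdχ
  -- the constituents of `χ` on `T`
  have hchar : Cfsg.IsCharacter T (fun x => χ.1 (T.subtype x)) :=
    H26.isCharacter_comp (H26.irr_isCharacter χ) T.subtype
  have he' : Cfsg.classInner (fun x : MT => χ.1 (T.subtype (MT.subtype x))) θT.1 = e := by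
    rw [← he, ← classInner_comp_mulEquiv eM (fun m : M => χ.1 m) θ.1]
    rfl
  obtain ⟨b, hb, hdec⟩ := H26.exists_nat_coeffs hchar
  obtain ⟨ψ, hψb, hψθ⟩ : ∃ ψ, b ψ ≠ 0 ∧
      Cfsg.classInner (fun x : MT => ψ.1 (MT.subtype x)) θT.1 ≠ 0 := by
    by_contra hcon
    push Not at hcon
    have hne' : Cfsg.classInner (fun m : M => χ.1 m) θ.1 ≠ 0 := hne
    refine hne' ?_
    rw [he, ← he', show (fun x : MT => χ.1 (T.subtype (MT.subtype x))) =
      ∑ τ : Cfsg.IrrCharacter T, (b τ : ℂ) • (fun x : MT => τ.1 (MT.subtype x)) from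
        funext fun x => by
          rw [congrFun hdec (MT.subtype x)]
          simp [Finset.sum_apply], H26.classInner_sum_left]
    refine Finset.sum_eq_zero fun τ _ => ?_
    rw [H26.classInner_smul_left]
    by_cases hτ : b τ = 0
    · simp [hτ]
    · rw [hcon τ hτ, mul_zero]
  -- characters of `T` over `θ` restrict to multiples of `θ`
  have hres : ∀ τ : Cfsg.IrrCharacter T,
      Cfsg.classInner (fun x : MT => τ.1 (MT.subtype x)) θT.1 ≠ 0 →
      ∀ x : MT, τ.1 x = (Cfsg.charDegree (τ : T → ℂ) : ℂ) * θT.1 x := by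
    intro τ hτ x
    have hinv : ∀ t : T, H56.twist MT θT.1 t = θT.1 := fun t => funext fun y => by
      have h := congrFun ((mem_inertia M).mp t.2) (eM y)
      rw [hθT, ← h]
      rfl
    have hset : {φ : MT → ℂ | ∃ t : T, φ = H56.twist MT θT.1 t} = {θT.1} := by
      ext φ
      simp [hinv]
    have hcl := H27.clifford_restriction MT τ.2 θT.2 hτ
    rw [hset, finsum_mem_singleton] at hcl
    have h1 := congrFun hcl 1
    rw [Pi.smul_apply, smul_eq_mul] at h1
    simp only [OneMemClass.coe_one] at h1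
    rw [show θT.1 1 = 1 by simp [θT], mul_one] at h1
    have hx := congrFun hcl x
    rw [Pi.smul_apply, smul_eq_mul, ← h1] at hx
    rw [cast_charDegree]
    exact hx
  have hmult : ∀ τ : Cfsg.IrrCharacter T,
      Cfsg.classInner (fun x : MT => τ.1 (MT.subtype x)) θT.1 ≠ 0 →
      Cfsg.classInner (fun x : MT => τ.1 (MT.subtype x)) θT.1 = Cfsg.charDegree (τ : T → ℂ) := by
    intro τ hτ
    rw [show (fun x : MT => τ.1 (MT.subtype x)) = (Cfsg.charDegree (τ : T → ℂ) : ℂ) • θT.1 from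
      funext (hres τ hτ), H26.classInner_smul_left, H26.classInner_irr, if_pos rfl, mul_one]
  -- every character of `T` over `θ` has degree prime to `p`
  have hover : ∀ τ : Cfsg.IrrCharacter T,
      Cfsg.classInner (fun x : MT => τ.1 (MT.subtype x)) θT.1 ≠ 0 →
      ¬ p ∣ Cfsg.charDegree (τ : T → ℂ) := by
    intro τ hτ
    obtain ⟨ξ, hξ⟩ := exists_irr_over T τ
    have hξc : Cfsg.IsCharacter T (fun x => ξ.1 (T.subtype x)) :=
      H26.isCharacter_comp (H26.irr_isCharacter ξ) T.subtype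
    obtain ⟨a, ha⟩ := H26.exists_nat_classInner_irr hξc τ
    obtain ⟨c, hc⟩ := H26.exists_nat_classInner_irr (show Cfsg.IsCharacter MT
      (fun x => ξ.1 (T.subtype (MT.subtype x))) from H26.isCharacter_comp hξc MT.subtype) θT
    have hle : a * Cfsg.charDegree (τ : T → ℂ) ≤ c :=
      mul_mult_le_mult MT.subtype hξc τ θT ha
        (hmult τ hτ) hc
    have hapos : 0 < a := Nat.pos_of_ne_zero fun h => hξ (by
      rw [show (fun h : T => ξ.1 h) = fun h : T => ξ.1 (T.subtype h) from rfl, ha, h, Nat.cast_zero])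
    have hcM : Cfsg.classInner (fun m : M => ξ.1 m) θ.1 = c := by
      rw [← hc, ← classInner_comp_mulEquiv eM (fun m : M => ξ.1 m) θ.1]
      rfl
    have hcpos : 0 < c := lt_of_lt_of_le (Nat.mul_pos hapos (charDegree_pos τ)) hle
    have hξne : Cfsg.classInner (fun m : M => ξ.1 m) θ.1 ≠ 0 := by
      rw [hcM]; exact_mod_cast hcpos.ne'
    obtain ⟨e₁, he₁, hdξ⟩ := exists_degree_eq_index_inertia M ξ θ hξne
    have hec : e₁ = c := by exact_mod_cast he₁.symm.trans hcM
    rw [hec, hθ1, mul_one, ← hT] at hdξ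
    -- `ξ` is a constituent of the induced character
    have hind : Cfsg.charDegree (ξ : G → ℂ) * a ≤ T.index * Cfsg.charDegree (τ : T → ℂ) := by
      obtain ⟨k, hk, hkdec⟩ :=
        H26.exists_nat_coeffs (H25.isCharacter_indFun T (H26.irr_isCharacter τ))
      have hka : k ξ = a := by
        have h1 := hk ξ
        rw [H25.classInner_indFun_left T τ.1 ξ.1 (H26.irr_isClassFunction ξ),
          ← H25.conj_classInner] at h1
        rw [show (fun h : T => ξ.1 h) = fun h : T => ξ.1 (T.subtype h) from rfl, ha] at h1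
        simp only [map_natCast] at h1
        exact_mod_cast h1.symm
      have h1 := congrFun hkdec 1
      simp only [H25.indFun_one, Finset.sum_apply, Pi.smul_apply, smul_eq_mul,
        ← cast_charDegree] at h1
      have h2 : T.index * Cfsg.charDegree (τ : T → ℂ) =
          ∑ η : Cfsg.IrrCharacter G, k η * Cfsg.charDegree (η : G → ℂ) := by exact_mod_cast h1
      rw [h2, ← hka, mul_comm]
      exact Finset.single_le_sum (f := fun η => k η * Cfsg.charDegree (η : G → ℂ))
        (fun _ _ => Nat.zero_le _) (Finset.mem_univ ξ)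
    have heq : c = Cfsg.charDegree (τ : T → ℂ) := by
      rw [hdξ] at hind
      have hidx : 0 < T.index := Nat.pos_of_ne_zero Subgroup.index_ne_zero_of_finite
      refine le_antisymm ?_ ((Nat.le_mul_of_pos_left _ hapos).trans hle)
      nlinarith
    intro hd
    have hM' : ¬ M ≤ kerOf ξ := fun hle' => by
      have hcl := congrFun (H27.clifford_restriction M ξ.2 θ.2 hξne) 1
      have hm := hle' m₀.2
      rw [mem_kerOf] at hm
      refine hm₀ (Units.ext ?_)
      have h := hres τ hτ (eM.symm m₀)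
      have h1 : θT.1 (eM.symm m₀) = θ.1 m₀ := by rw [hθT, MulEquiv.apply_symm_apply]
      have hz : Cfsg.classInner (fun m : M => ξ.1 m) θ.1 =
          (Cfsg.charDegree (ξ : G → ℂ) : ℂ) * Cfsg.classInner (H26.oneIrr M).1 θ.1 := by
        rw [← H26.classInner_smul_left]
        congr 1
        funext m
        rw [mem_kerOf.mp (hle' m.2), Pi.smul_apply, H26.oneIrr_val, smul_eq_mul, mul_one,
          cast_charDegree]
      by_contra hne'
      rw [H26.classInner_irr, if_neg (fun h => hne' ?_), mul_zero] at hz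
      · exact hξne hz
      · have := congrFun (congrArg Subtype.val h.symm) m₀
        exact this
    exact hM' (hdeg ξ (by rw [hdξ, heq]; exact dvd_mul_of_dvd_left hd _))
  -- an extension of `θ`
  obtain ⟨d, ρ, -, hρe⟩ := ψ.2
  have hd : Cfsg.charDegree (ψ : T → ℂ) = d := by simp [Cfsg.charDegree, ← hρe]
  obtain ⟨L, hL⟩ := exists_det_hom ρ
  have hscal : ∀ x : MT, ρ (x : T) = θT.1 x • (LinearMap.id : (Fin d → ℂ) →ₗ[ℂ] Fin d → ℂ) := by
    intro x
    let f : MT →* ℂˣ := (μ.comp (Subgroup.inclusion hMP)).comp eM.toMonoidHom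
    let σ : Representation ℂ MT (Fin d → ℂ) :=
      { toFun := fun y => ((f y⁻¹ : ℂˣ) : ℂ) • ρ (y : T)
        map_one' := by simp
        map_mul' := fun y z => by
          rw [mul_inv_rev, map_mul, Subgroup.coe_mul, map_mul, Units.val_mul,
            smul_mul_smul_comm, mul_comm ((f z⁻¹ : ℂˣ) : ℂ)] }
    have hσ : σ.character x = (Module.finrank ℂ (Fin d → ℂ) : ℂ) := by
      have h := hres ψ hψθ x
      rw [hd, ← hρe] at h
      show LinearMap.trace ℂ _ (((f x⁻¹ : ℂˣ) : ℂ) • ρ (x : T)) = _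
      rw [map_smul, Module.finrank_fin_fun, smul_eq_mul]
      rw [show LinearMap.trace ℂ _ (ρ (x : T)) = (d : ℂ) * θT.1 x from h]
      show ((f x⁻¹ : ℂˣ) : ℂ) * ((d : ℂ) * (f x : ℂ)) = d
      rw [mul_left_comm, ← Units.val_mul, ← map_mul, inv_mul_cancel, map_one, Units.val_one,
        mul_one]
    have h := (H25.char_eq_degree_iff σ x).mp hσ
    have h' : ((f x⁻¹ : ℂˣ) : ℂ) • ρ (x : T) = LinearMap.id := h
    rw [← h', smul_smul, show θT.1 x = (f x : ℂ) from rfl, ← Units.val_mul, ← map_mul,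
      mul_inv_cancel, map_one, Units.val_one, one_smul]
  have hMp : IsPGroup p M := P.isPGroup'.to_le hMP
  obtain ⟨i, hi⟩ := hMp.exists_card_eq
  have hdp : ¬ p ∣ d := hd ▸ hover ψ hψθ
  obtain ⟨a, ha⟩ : ∃ a : ℕ, d * a ≡ 1 [MOD p ^ i] := by
    have h1 : 1 < p ^ i := by
      rw [← hi]
      exact (Subgroup.one_lt_card_iff_ne_bot M).mpr hMbot
    obtain ⟨a, -, ha⟩ := Nat.exists_mul_mod_eq_one_of_coprime
      (Nat.Coprime.pow_right i (hp.out.coprime_iff_not_dvd.mpr hdp).symm) h1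
    exact ⟨a, by rw [Nat.ModEq, ha, Nat.mod_eq_of_lt h1]⟩
  have hext : ∀ x : MT, ((L ^ a) (x : T) : ℂ) = θT.1 x := by
    intro x
    rw [MonoidHom.pow_apply, Units.val_pow_eq_pow_val, hL _ _ (hscal x), ← pow_mul]
    let f : MT →* ℂˣ := (μ.comp (Subgroup.inclusion hMP)).comp eM.toMonoidHom
    show (f x : ℂ) ^ (d * a) = (f x : ℂ)
    rw [← Units.val_pow_eq_pow_val, ← map_pow]
    congr 2
    have ho : orderOf x ∣ p ^ i := by
      rw [← hi, ← Nat.card_congr eM.toEquiv]
      exact orderOf_dvd_natCard x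
    rw [← pow_mod_orderOf, Nat.ModEq.of_dvd ho ha, pow_mod_orderOf, pow_one]
  -- the quotient has all degrees prime to `p`
  haveI : MT.Normal := by rw [hMTdef]; infer_instance
  have hq : ∀ β : Cfsg.IrrCharacter (T ⧸ MT), ¬ p ∣ Cfsg.charDegree (β : T ⧸ MT → ℂ) := by
    intro β hβ
    let τ : Cfsg.IrrCharacter T := ⟨_, isIrrCharacter_linear_mul (L ^ a) (inflate MT β)⟩
    have hτd : Cfsg.charDegree (τ : T → ℂ) = Cfsg.charDegree (β : T ⧸ MT → ℂ) := by
      rw [← charDegree_inflate MT β]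
      simp [Cfsg.charDegree, τ]
    refine hover τ ?_ (hτd ▸ hβ)
    rw [show (fun x : MT => τ.1 (MT.subtype x)) = (β.1 1) • θT.1 from funext fun x => by
      show ((L ^ a) (x : T) : ℂ) * (inflate MT β).1 x = β.1 1 * θT.1 x
      rw [hext, inflate_apply, (QuotientGroup.eq_one_iff (x : T)).mpr x.2, mul_comm],
      H26.classInner_smul_left, H26.classInner_irr, if_pos rfl, mul_one]
    exact H26.irr_one_ne_zero β
  have hTsolv := H35.isPSolvable_subgroup hsolv T
  obtain ⟨-, hab⟩ := normal_sylow_of_not_dvd_degrees _ (T ⧸ MT) rfl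
    (H84.isPSolvable_of_surjective (QuotientGroup.mk' MT) (QuotientGroup.mk'_surjective MT) hTsolv)
    hq ((P.subtype hPT).mapSurjective (QuotientGroup.mk'_surjective MT))
  rw [Subgroup.commutator_le]
  intro x hx y hy
  have h1 : ∀ z : G, ∀ hz : z ∈ (P : Subgroup G), ((⟨z, hPT hz⟩ : T) : T ⧸ MT) ∈
      (((P.subtype hPT).mapSurjective (QuotientGroup.mk'_surjective MT) : Sylow p (T ⧸ MT)) :
        Subgroup (T ⧸ MT)) := by
    intro z hz
    rw [Sylow.coe_mapSurjective]
    exact ⟨⟨z, hPT hz⟩, by rw [SetLike.mem_coe, Sylow.coe_subtype]; exact hz, rfl⟩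
  have h := hab.is_comm.comm ⟨_, h1 x hx⟩ ⟨_, h1 y hy⟩
  have h' : ((⁅(⟨x, hPT hx⟩ : T), ⟨y, hPT hy⟩⁆ : T) : T ⧸ MT) = 1 := by
    rw [commutatorElement_def, QuotientGroup.mk_mul, QuotientGroup.mk_mul, QuotientGroup.mk_mul,
      QuotientGroup.mk_inv, QuotientGroup.mk_inv,
      show ((⟨x, hPT hx⟩ : T) : T ⧸ MT) * ((⟨y, hPT hy⟩ : T) : T ⧸ MT) =
        ((⟨y, hPT hy⟩ : T) : T ⧸ MT) * ((⟨x, hPT hx⟩ : T) : T ⧸ MT) from congrArg Subtype.val h]
    group
  exact (QuotientGroup.eq_one_iff (N := MT) (⁅(⟨x, hPT hx⟩ : T), (⟨y, hPT hy⟩ : T)⁆ : T)).mp h'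

/-- Derived length of a Sylow subgroup of a `p`-solvable group. -/
theorem derivedSeries_sylow_eq_bot :
    ∀ (N : ℕ) (G : Type u) [Group G] [Finite G], Nat.card G = N → Cfsg.IsPSolvable p G →
      ∀ P : Sylow p G, derivedSeries ↥(P : Subgroup G)
        (Nat.card {χ : Cfsg.IrrCharacter G // p ∣ Cfsg.charDegree (χ : G → ℂ)} + 1) = ⊥ := by
  intro N
  induction N using Nat.strong_induction_on with
  | _ N ih =>
  intro G _ _ hN hsolv P
  classical
  by_cases h0 : Nat.card {χ : Cfsg.IrrCharacter G // p ∣ Cfsg.charDegree (χ : G → ℂ)} = 0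
  · rw [h0, zero_add, derivedSeries_one, commutator_eq_bot_iff_center_eq_top, eq_top_iff]
    intro x _
    obtain ⟨-, hc⟩ := normal_sylow_of_not_dvd_degrees _ G rfl hsolv (fun χ h =>
      (Finite.card_eq_zero_iff.mp h0).false ⟨χ, h⟩) P
    exact Subgroup.mem_center_iff.mpr fun y => hc.is_comm.comm y x
  -- passing to a quotient
  have hquot : ∀ M : Subgroup G, M.Normal → M ≠ ⊥ → ∀ k,
      Nat.card {χ : Cfsg.IrrCharacter G // p ∣ Cfsg.charDegree (χ : G → ℂ) ∧ M ≤ kerOf χ} + 1 ≤ k →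
      derivedSeries ↥(P : Subgroup G) k ≤ M.subgroupOf P := by
    intro M hMn hMbot k hk
    haveI := hMn
    have hlt : Nat.card (G ⧸ M) < N := by
      rw [← hN, M.card_eq_card_quotient_mul_card_subgroup]
      exact lt_mul_of_one_lt_right Nat.card_pos ((Subgroup.one_lt_card_iff_ne_bot M).mpr hMbot)
    have h := ih _ hlt (G ⧸ M) rfl (H84.isPSolvable_of_surjective (QuotientGroup.mk' M)
      (QuotientGroup.mk'_surjective M) hsolv)
      (P.mapSurjective (QuotientGroup.mk'_surjective M))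
    have hcard : Nat.card {ψ : Cfsg.IrrCharacter (G ⧸ M) // p ∣ Cfsg.charDegree (ψ : G ⧸ M → ℂ)} ≤
        Nat.card {χ : Cfsg.IrrCharacter G // p ∣ Cfsg.charDegree (χ : G → ℂ) ∧ M ≤ kerOf χ} := by
      refine Nat.card_le_card_of_injective
        (fun ψ => ⟨inflate M ψ.1, by rw [charDegree_inflate]; exact ψ.2, le_kerOf_inflate M ψ.1⟩)
        fun a b h => ?_
      exact Subtype.ext (inflate_injective M (congrArg Subtype.val h))
    let f : ↥(P : Subgroup G) →*
        ↥(((P.mapSurjective (QuotientGroup.mk'_surjective M)) : Sylow p (G ⧸ M)) :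
          Subgroup (G ⧸ M)) :=
      ((QuotientGroup.mk' M).comp (P : Subgroup G).subtype).codRestrict _ fun x => by
        rw [Sylow.coe_mapSurjective]
        exact ⟨x, x.2, rfl⟩
    intro x hx
    have h1 := map_derivedSeries_le_derivedSeries f k ⟨x, hx, rfl⟩
    have h2 := derivedSeries_antitone _ (show
      Nat.card {ψ : Cfsg.IrrCharacter (G ⧸ M) // p ∣ Cfsg.charDegree (ψ : G ⧸ M → ℂ)} + 1 ≤ k by
        omega) h1
    rw [h, Subgroup.mem_bot] at h2
    rw [Subgroup.mem_subgroupOf]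
    exact (QuotientGroup.eq_one_iff (x : G)).mp (congrArg Subtype.val h2)
  set n := Nat.card {χ : Cfsg.IrrCharacter G // p ∣ Cfsg.charDegree (χ : G → ℂ)} with hn
  have hle : ∀ M : Subgroup G,
      Nat.card {χ : Cfsg.IrrCharacter G // p ∣ Cfsg.charDegree (χ : G → ℂ) ∧ M ≤ kerOf χ} ≤ n :=
    fun M => Nat.card_le_card_of_injective (fun χ => ⟨χ.1, χ.2.1⟩)
      fun a b h => Subtype.ext (congrArg (fun z : {χ : Cfsg.IrrCharacter G //
        p ∣ Cfsg.charDegree (χ : G → ℂ)} => z.1) h)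
  haveI : Nontrivial G := by
    by_contra htriv
    rw [not_nontrivial_iff_subsingleton] at htriv
    refine h0 (Finite.card_eq_zero_iff.mpr ⟨fun χ => ?_⟩)
    have h := χ.2.trans (charDegree_dvd_card χ.1)
    rw [Nat.card_of_subsingleton (1 : G)] at h
    exact hp.out.not_dvd_one h
  rcases H84.pCore_ne_bot_or_pPrimeCore_ne_bot hsolv with hcore | hcore
  swap
  · -- a normal `p'`-subgroup
    refine eq_bot_iff.mpr ((hquot _ (pPrimeCore_normal' p) hcore _
      (Nat.add_le_add_right (hle _) 1)).trans fun x hx => ?_)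
    rw [Subgroup.mem_subgroupOf] at hx
    obtain ⟨i, hi⟩ := P.isPGroup' x
    have h1 : orderOf x ∣ p ^ i := orderOf_dvd_of_pow_eq_one hi
    have h2 : orderOf x ∣ Nat.card (Cfsg.pPrimeCore p G) := by
      rw [← Subgroup.orderOf_coe x]
      exact Subgroup.orderOf_dvd_natCard _ hx
    exact Subgroup.mem_bot.mpr (orderOf_eq_one_iff.mp (Nat.eq_one_of_dvd_coprimes
      ((pPrimeCore_card_coprime' p).pow_right i) h2 h1))
  · -- a normal abelian `p`-subgroup
    set Q := Cfsg.pCore p G with hQ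
    haveI : Q.Normal := pCore_normal' p
    let M : Subgroup G := Q ⊓ Subgroup.centralizer (Q : Set G)
    have hQp : IsPGroup p Q := pCore_isPGroup' p
    haveI : Nontrivial Q := (Subgroup.nontrivial_iff_ne_bot Q).mpr hcore
    have hMbot : M ≠ ⊥ := by
      haveI : Nontrivial (Subgroup.center Q) := hQp.center_nontrivial
      obtain ⟨z, hz⟩ := exists_ne (⟨1, one_mem _⟩ : Subgroup.center Q)
      intro h
      refine hz (Subtype.ext (Subtype.ext ?_))
      have : ((z.1 : Q) : G) ∈ M := ⟨z.1.2, Subgroup.mem_centralizer_iff.mpr fun y hy =>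
        congrArg Subtype.val (Subgroup.mem_center_iff.mp z.2 ⟨y, hy⟩)⟩
      rw [h, Subgroup.mem_bot] at this
      exact this
    have hMP : M ≤ (P : Subgroup G) := inf_le_left.trans (normal_pGroup_le_sylow P Q hQp)
    have hMab : ∀ a ∈ M, ∀ b ∈ M, a * b = b * a := fun a ha b hb =>
      (Subgroup.mem_centralizer_iff.mp hb.2 a ha.1)
    have key : derivedSeries ↥(P : Subgroup G) n ≤ M.subgroupOf P := by
      rcases Nat.lt_or_ge (Nat.card {χ : Cfsg.IrrCharacter G //
        p ∣ Cfsg.charDegree (χ : G → ℂ) ∧ M ≤ kerOf χ}) n with hlt | hge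
      · exact hquot M inferInstance hMbot n hlt
      · have hall : ∀ χ : Cfsg.IrrCharacter G, p ∣ Cfsg.charDegree (χ : G → ℂ) → M ≤ kerOf χ := by
          intro χ hχ
          have hbij := (Nat.bijective_iff_injective_and_card (fun χ : {χ : Cfsg.IrrCharacter G //
            p ∣ Cfsg.charDegree (χ : G → ℂ) ∧ M ≤ kerOf χ} =>
              (⟨χ.1, χ.2.1⟩ : {χ : Cfsg.IrrCharacter G // p ∣ Cfsg.charDegree (χ : G → ℂ)}))).mpr
            ⟨fun a b h => Subtype.ext (congrArg (fun z : {χ : Cfsg.IrrCharacter G //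
              p ∣ Cfsg.charDegree (χ : G → ℂ)} => z.1) h), le_antisymm (hle M) hge⟩
          obtain ⟨⟨χ', h1, h2⟩, he⟩ := hbij.2 ⟨χ, hχ⟩
          exact (show χ' = χ from congrArg Subtype.val he) ▸ h2
        refine (derivedSeries_antitone _ (show 1 ≤ n by omega)).trans ?_
        have h := commutator_sylow_le hsolv P M hMP hMbot hall
        rw [derivedSeries_one, commutator_def, Subgroup.commutator_le]
        intro x _ y _
        exact h (Subgroup.commutator_mem_commutator x.2 y.2)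
    rw [derivedSeries_succ, eq_bot_iff]
    refine (Subgroup.commutator_mono key key).trans (Subgroup.commutator_le.mpr fun x hx y hy => ?_)
    rw [Subgroup.mem_bot, commutatorElement_eq_one_iff_mul_comm]
    exact Subtype.ext (hMab _ hx _ hy)

end Cfsg.Agent.H44
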