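import Cfsg.Agent.H44.GLSylowTwo

/-!
# The determinant one part of the wreathed Sylow `2`-subgroup of `GL`
-/

set_option autoImplicit false
open scoped commutatorElement Pointwise
open Matrix Equiv

namespace Cfsg.Agent.H44.GLWreath

variable {F : Type*} [Field F]

/-- A Sylow sized subgroup of `GL` meets `SL` in a Sylow sized subgroup. -/
theorem card_comap_toGL [Finite F] {ι : Type*} [Fintype ι] [DecidableEq ι] [Nonempty ι]
    (W : Subgroup (GL ι F)) (hW : Nat.card W = 2 ^ padicValNat 2 (Nat.card (GL ι F))) :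
    Nat.card (W.comap (SpecialLinearGroup.toGL : SpecialLinearGroup ι F →* GL ι F)) =
      2 ^ padicValNat 2 (Nat.card (SpecialLinearGroup ι F)) := by
  haveI : Fact (Nat.Prime 2) := ⟨Nat.prime_two⟩
  set S := W.comap (SpecialLinearGroup.toGL : SpecialLinearGroup ι F →* GL ι F)
  have hWp : IsPGroup 2 W := IsPGroup.of_card hW
  have hSp : IsPGroup 2 S := hWp.comap_of_injective _ H1.toGL_injective'
  obtain ⟨a, ha⟩ := IsPGroup.iff_card.mp hSp
  have hle : a ≤ padicValNat 2 (Nat.card (SpecialLinearGroup ι F)) :=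
    (padicValNat_dvd_iff_le Nat.card_pos.ne').mp (ha ▸ Subgroup.card_subgroup_dvd_card S)
  set φ := (GeneralLinearGroup.det : GL ι F →* Fˣ).comp W.subtype
  have h1 := Subgroup.index_mul_card φ.ker
  rw [Subgroup.index_ker] at h1
  have hker : Nat.card φ.ker = Nat.card S := by
    refine (Nat.card_congr (Equiv.ofBijective
      (fun s : S => (⟨⟨SpecialLinearGroup.toGL s.1, s.2⟩, ?_⟩ : φ.ker)) ⟨?_, ?_⟩)).symm
    · rw [MonoidHom.mem_ker]
      show GeneralLinearGroup.det (SpecialLinearGroup.toGL s.1) = 1
      exact Units.ext s.1.2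
    · intro s t h
      exact Subtype.ext (H1.toGL_injective' (congrArg Subtype.val (congrArg Subtype.val h)))
    · rintro ⟨⟨g, hg⟩, hk⟩
      have hk' : GeneralLinearGroup.det g = 1 := hk
      refine ⟨⟨⟨g.val, congrArg Units.val hk'⟩, ?_⟩, ?_⟩
      · show SpecialLinearGroup.toGL ⟨g.val, _⟩ ∈ W
        convert hg using 1
        exact Units.ext rfl
      · exact Subtype.ext (Subtype.ext (Units.ext rfl))
  obtain ⟨b, hb⟩ := IsPGroup.iff_card.mp ((hWp.to_subgroup φ.ker).of_equiv (MulEquiv.refl _))
  obtain ⟨c, -, hc⟩ := (Nat.dvd_prime_pow Nat.prime_two).mp (hW ▸ Subgroup.card_range_dvd φ)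
  have hcle : c ≤ padicValNat 2 (Nat.card Fˣ) :=
    (padicValNat_dvd_iff_le Nat.card_pos.ne').mp (hc ▸ Subgroup.card_subgroup_dvd_card φ.range)
  have hv := congrArg (padicValNat 2) (H1.card_units_mul_card_SL (ι := ι) (F := F))
  rw [padicValNat.mul Nat.card_pos.ne' Nat.card_pos.ne'] at hv
  rw [hker, hc, ha, ← pow_add, hW] at h1
  have := Nat.pow_right_injective le_rfl h1
  rw [ha]
  congr 1
  omega

variable {G S : Type*} [Group G] [Group S] {m : ℕ}

theorem exists_of_mem_wreath (A : (Fin m → S) →* G) (B : Perm (Fin m) →* G)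
    (hconj : ∀ π f, B π * A f * (B π)⁻¹ = A (f ∘ π.symm)) {R : Subgroup S}
    {W₀ : Subgroup (Perm (Fin m))} {x : G} (hx : x ∈ wreath A B R W₀) :
    ∃ f, (∀ i, f i ∈ R) ∧ ∃ π ∈ W₀, A f * B π = x := by
  have hN : W₀.map B ≤
      Subgroup.normalizer (((Subgroup.pi Set.univ fun _ : Fin m => R).map A : Subgroup G) : Set G) := by
    rintro _ ⟨π, -, rfl⟩
    rw [Subgroup.mem_normalizer_iff]
    intro y
    constructor
    · rintro ⟨f, hf, rfl⟩
      exact ⟨f ∘ π.symm, fun i _ => hf (π.symm i) (Set.mem_univ _), (hconj π f).symm⟩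
    · rintro ⟨f, hf, hf'⟩
      refine ⟨f ∘ π, fun i _ => hf (π i) (Set.mem_univ _), ?_⟩
      have h := hconj π (f ∘ π)
      rw [show (f ∘ π) ∘ π.symm = f by ext i; simp, hf'] at h
      exact mul_left_cancel (mul_right_cancel h)
  have hx' : x ∈ ((wreath A B R W₀ : Subgroup G) : Set G) := hx
  rw [wreath, Subgroup.coe_mul_of_right_le_normalizer_left _ _ hN] at hx'
  obtain ⟨_, ⟨f, hf, rfl⟩, _, ⟨π, hπ, rfl⟩, rfl⟩ := hx'
  exact ⟨f, fun i => hf i (Set.mem_univ _), π, hπ, rfl⟩

variable [Finite F] [NeZero m]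

/-- The property for the determinant one part of the wreath product. -/
theorem sqDer_det (R : Subgroup (GL (Fin 2) F)) (W₀ : Subgroup (Perm (Fin m)))
    (hgen : GenByOrder 2 W₀)
    (hQ : SqDer (R.comap (SpecialLinearGroup.toGL : SpecialLinearGroup (Fin 2) F →* GL (Fin 2) F)))
    (d : GL (Fin 2) F) (hd : d ∈ R)
    (hdgen : R.map GeneralLinearGroup.det ≤ Subgroup.zpowers (GeneralLinearGroup.det d))
    (hsq : ∀ i : Fin m, d * d = 1 ∨ ∃ τ ∈ W₀, τ 0 = i ∧ τ i = 0) :
    SqDer ((wreath (base F m) (perm F m) R W₀).comap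
      (SpecialLinearGroup.toGL : SpecialLinearGroup (Fin 2 × Fin m) F →* GL (Fin 2 × Fin m) F)) := by
  classical
  set Q := (R.comap (SpecialLinearGroup.toGL : SpecialLinearGroup (Fin 2) F →* GL (Fin 2) F)).map
    SpecialLinearGroup.toGL with hQdef
  set u : Fin m → (Fin m → GL (Fin 2) F) := fun i => Pi.mulSingle i d * Pi.mulSingle 0 d⁻¹ with hu
  set T : Set (GL (Fin 2 × Fin m) F) :=
    ((⋃ i : Fin m, (fun r => base F m (Pi.mulSingle i r)) '' (Q : Set (GL (Fin 2) F))) ∪
      Set.range (fun i => base F m (u i))) ∪ perm F m '' {π | π ∈ W₀ ∧ π ^ 2 = 1} with hT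
  set W := wreath (base F m) (perm F m) R W₀ with hWdef
  set X := W.comap
    (SpecialLinearGroup.toGL : SpecialLinearGroup (Fin 2 × Fin m) F →* GL (Fin 2 × Fin m) F)
  have hQR : Q ≤ R := Subgroup.map_comap_le _ _
  have hQmem : ∀ {g : GL (Fin 2) F}, g ∈ R → GeneralLinearGroup.det g = 1 → g ∈ Q := fun {g} hg h1 =>
    ⟨⟨g.val, congrArg Units.val h1⟩, show SpecialLinearGroup.toGL _ ∈ R by
      convert hg using 1; exact Units.ext rfl, Units.ext rfl⟩
  have hperm : W₀.map (perm F m) ≤ Subgroup.closure T := by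
    rw [← hgen, MonoidHom.map_closure]
    exact Subgroup.closure_mono Set.subset_union_right
  have himg : X.map SpecialLinearGroup.toGL = Subgroup.closure T := by
    refine le_antisymm ?_ ((Subgroup.closure_le _).mpr ?_)
    · rintro _ ⟨s, hs, rfl⟩
      obtain ⟨f, hf, π, hπ, hs'⟩ := exists_of_mem_wreath (base F m) (perm F m) (perm_conj F m)
        (show SpecialLinearGroup.toGL s ∈ W from hs)
      rw [← hs']
      refine mul_mem ?_ (hperm ⟨π, hπ, rfl⟩)
      have hdet : ∏ i, GeneralLinearGroup.det (f i) = 1 := by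
        have := congrArg GeneralLinearGroup.det hs'
        rw [map_mul, det_base, det_perm, mul_one] at this
        rw [this]
        exact Units.ext s.2
      choose e he using fun i => Subgroup.mem_zpowers_iff.mp (hdgen ⟨f i, hf i, rfl⟩)
      let Dm : AddSubgroup (Fin m → ℤ) :=
        { carrier := {x | base F m (fun i => d ^ x i) ∈ Subgroup.closure T}
          zero_mem' := by
            simp only [Set.mem_setOf_eq, Pi.zero_apply, zpow_zero]
            exact (map_one (base F m)).symm ▸ one_mem _
          add_mem' := fun {x y} hx hy => by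
            simp only [Set.mem_setOf_eq, Pi.add_apply, _root_.zpow_add] at hx hy ⊢
            have := mul_mem hx hy
            rw [← map_mul] at this
            exact this
          neg_mem' := fun {x} hx => by
            simp only [Set.mem_setOf_eq, Pi.neg_apply, _root_.zpow_neg] at hx ⊢
            have := inv_mem hx
            rw [← map_inv] at this
            exact this }
      set v : Fin m → ℤ := ∑ j, e j • (Pi.single j (1 : ℤ) - Pi.single 0 1) with hv
      have hvmem : v ∈ Dm := by
        refine sum_mem fun j _ => zsmul_mem ?_ _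
        suffices base F m (fun i => d ^ ((Pi.single j (1 : ℤ) - Pi.single 0 1 : Fin m → ℤ) i)) ∈
          Subgroup.closure T from this
        refine Subgroup.subset_closure (Or.inl (Or.inr ⟨j, congrArg _ (funext fun i => ?_)⟩))
        simp only [hu, Pi.mul_apply, Pi.sub_apply, _root_.zpow_sub]
        congr 1 <;> simp only [Pi.mulSingle_apply, Pi.single_apply] <;> split_ifs <;> simp
      have hvi : ∀ i, v i = e i - (Pi.single 0 (∑ j, e j) : Fin m → ℤ) i := by
        intro i
        simp only [hv, Finset.sum_apply, Pi.smul_apply, Pi.sub_apply, smul_eq_mul, mul_sub,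
          Finset.sum_sub_distrib, Pi.single_apply, mul_ite, mul_one, mul_zero]
        congr 1
        · simp
        · split_ifs <;> simp
      have hsum : GeneralLinearGroup.det d ^ (∑ j, e j) = 1 := by
        have h := map_prod (zpowersHom Fˣ (GeneralLinearGroup.det d))
          (fun j => Multiplicative.ofAdd (e j)) Finset.univ
        rw [← ofAdd_sum] at h
        simp only [zpowersHom_apply, toAdd_ofAdd, he] at h
        rw [h, hdet]
      have hrest : base F m (f * (fun i => d ^ v i)⁻¹) ∈ Subgroup.closure T := by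
        have : f * (fun i => d ^ v i)⁻¹ ∈ (Subgroup.closure T).comap (base F m) := by
          refine Subgroup.pi_mem_of_mulSingle_mem _ fun i => ?_
          refine Subgroup.subset_closure (Or.inl (Or.inl (Set.mem_iUnion.mpr ⟨i, _, ?_, rfl⟩)))
          refine hQmem (mul_mem (hf i) (inv_mem (zpow_mem hd _))) ?_
          show GeneralLinearGroup.det (f i * (d ^ v i)⁻¹) = 1
          rw [map_mul, map_inv, map_zpow, ← he, hvi, _root_.zpow_sub, Pi.single_apply]
          split_ifs <;> simp [hsum]
        exact this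
      have := mul_mem hrest (show base F m (fun i => d ^ v i) ∈ Subgroup.closure T from hvmem)
      rwa [← map_mul, inv_mul_cancel_right] at this
    · have hmem : ∀ g ∈ W, GeneralLinearGroup.det g = 1 → g ∈ X.map SpecialLinearGroup.toGL :=
        fun g hg h1 => ⟨⟨g.val, congrArg Units.val h1⟩, show SpecialLinearGroup.toGL _ ∈ W by
          convert hg using 1; exact Units.ext rfl, Units.ext rfl⟩
      rintro x ((hx | ⟨i, rfl⟩) | ⟨π, hπ, rfl⟩)
      · obtain ⟨i, r, hr, rfl⟩ := Set.mem_iUnion.mp hx
        refine hmem _ (Subgroup.mem_sup_left ⟨_, fun j _ => ?_, rfl⟩) ?_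
        · by_cases h : j = i
          · subst h; rw [Pi.mulSingle_eq_same]; exact hQR hr
          · rw [Pi.mulSingle_eq_of_ne h]; exact R.one_mem
        · obtain ⟨s, -, rfl⟩ := hr
          rw [det_base, Finset.prod_eq_single i (fun j _ hj => by rw [Pi.mulSingle_eq_of_ne hj, map_one])
            (fun h => absurd (Finset.mem_univ _) h), Pi.mulSingle_eq_same]
          exact Units.ext s.2
      · refine hmem _ (Subgroup.mem_sup_left ⟨_, fun j _ => ?_, rfl⟩) ?_
        · show u i j ∈ R
          simp only [hu, Pi.mul_apply]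
          refine mul_mem ?_ ?_ <;>
          · simp only [Pi.mulSingle_apply]
            split_ifs
            · first | exact hd | exact R.inv_mem hd
            · exact R.one_mem
        · simp only [hu, det_base, Pi.mul_apply, map_mul, Finset.prod_mul_distrib]
          rw [Finset.prod_eq_single i (fun j _ hj => by rw [Pi.mulSingle_eq_of_ne hj, map_one])
              (fun h => absurd (Finset.mem_univ _) h), Pi.mulSingle_eq_same,
            Finset.prod_eq_single 0 (fun j _ hj => by rw [Pi.mulSingle_eq_of_ne hj, map_one])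
              (fun h => absurd (Finset.mem_univ _) h), Pi.mulSingle_eq_same, map_inv, mul_inv_cancel]
      · exact hmem _ (Subgroup.mem_sup_right ⟨π, hπ.1, rfl⟩) (det_perm F m π)
  have key : SqDer (Subgroup.closure T) := by
    refine sqDer_closure T fun s hs => ?_
    rcases hs with (hs | ⟨i, rfl⟩) | ⟨π, hπ, rfl⟩
    · obtain ⟨i, r, hr, rfl⟩ := Set.mem_iUnion.mp hs
      set j : GL (Fin 2) F →* GL (Fin 2 × Fin m) F :=
        (base F m).comp (MonoidHom.mulSingle (fun _ : Fin m => GL (Fin 2) F) i) with hj
      have hle : Q.map j ≤ Subgroup.closure T := by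
        rintro _ ⟨r, hr, rfl⟩
        exact Subgroup.subset_closure (Or.inl (Or.inl (Set.mem_iUnion.mpr ⟨i, r, hr, rfl⟩)))
      refine Subgroup.commutator_mono hle hle ?_
      rw [← Subgroup.map_commutator]
      refine ⟨r ^ 2, ?_, map_pow j r 2⟩
      obtain ⟨s₀, hs₀, rfl⟩ := hr
      rw [hQdef, ← Subgroup.map_commutator]
      exact ⟨s₀ ^ 2, hQ s₀ hs₀, map_pow _ s₀ 2⟩
    · rcases hsq i with hdd | ⟨τ, hτ, h0, hi⟩
      · have : (base F m (u i)) ^ 2 = 1 := by
          rw [← map_pow, ← map_one (base F m)]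
          congr 1
          funext k
          have hdi : d⁻¹ = d := inv_eq_of_mul_eq_one_right hdd
          simp only [hu, Pi.pow_apply, Pi.mul_apply, Pi.one_apply, hdi, Pi.mulSingle_apply]
          split_ifs <;> simp [sq, hdd]
        simp only [this]
        exact one_mem _
      · have hinv : u i ∘ τ.symm = (u i)⁻¹ := by
          have s1 : τ.symm i = 0 := by rw [Equiv.symm_apply_eq, h0]
          have s2 : τ.symm 0 = i := by rw [Equiv.symm_apply_eq, hi]
          funext k
          simp only [hu, Function.comp_apply, Pi.inv_apply, Pi.mul_apply, Pi.mulSingle_apply]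
          by_cases h1 : k = i
          · subst h1
            by_cases h2 : k = 0
            · subst h2; simp [s1]
            · simp [s1, h2, Ne.symm h2]
          · have h3 : τ.symm k ≠ 0 := fun h => h1 (by rw [← τ.symm.injective.eq_iff, h, s1])
            by_cases h2 : k = 0
            · subst h2; simp [s2, h1, Ne.symm h1]
            · have h4 : τ.symm k ≠ i := fun h => h2 (by rw [← τ.symm.injective.eq_iff, h, s2])
              simp [h1, h2, h3, h4]
        have hc : (base F m (u i)) ^ 2 = ⁅base F m (u i), perm F m τ⁆ := by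
          rw [commutatorElement_def, mul_assoc, mul_assoc, ← mul_assoc (perm F m τ), ← map_inv,
            perm_conj, show ((u i)⁻¹ : Fin m → GL (Fin 2) F) ∘ τ.symm = (u i ∘ τ.symm)⁻¹ from rfl,
            hinv, inv_inv, sq]
        simp only [hc]
        exact Subgroup.commutator_mem_commutator (Subgroup.subset_closure (Or.inl (Or.inr ⟨i, rfl⟩)))
          (hperm ⟨τ, hτ, rfl⟩)
    · rw [← map_pow, hπ.2, map_one]
      exact one_mem _
  intro s hs
  have h := key _ (himg ▸ Subgroup.mem_map_of_mem _ hs)
  rw [← himg, ← Subgroup.map_commutator, ← map_pow] at h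
  exact (Subgroup.mem_map_iff_mem H1.toGL_injective').mp h

end Cfsg.Agent.H44.GLWreath
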