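import Cfsg.Agent.H42.ClassMult
import Cfsg.Agent.H42.DegreeBound
import Cfsg.Agent.H42.InvertedSylow
import Cfsg.Agent.H28.Counting
import Cfsg.Agent.H43.CharTools
import Cfsg.Agent.H53.PConstrained
import Cfsg.Agent.H55.FittingHall

/-!
# Transitive groups of prime power degree with odd centralisers of `p`-elements

Without a character of `p`-defect zero such a group has exactly one involution fixing each point,
so a Sylow `p`-subgroup is normal.
-/

set_option autoImplicit false

namespace Cfsg.Agent.H44.PPT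

open scoped ComplexConjugate Pointwise

variable {G : Type*} [Group G] [Finite G]

omit [Finite G] in
theorem int_of_integral_div {p : ℕ} (n : ℕ) (hp : 0 < p) {S : ℂ} (h : (n : ℂ) = (p : ℂ) * S)
    (hS : IsIntegral ℤ S) : ∃ m : ℕ, n = p * m := by
  have hp0 : (p : ℂ) ≠ 0 := Nat.cast_ne_zero.mpr hp.ne'
  have hS' : S = algebraMap ℚ ℂ ((n : ℚ) / p) := by
    rw [map_div₀, map_natCast, map_natCast, h, mul_div_cancel_left₀ _ hp0]
  rw [hS', isIntegral_algebraMap_iff (algebraMap ℚ ℂ).injective] at hS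
  obtain ⟨z, hz⟩ := (IsIntegrallyClosed.isIntegral_iff (R := ℤ) (K := ℚ)).mp hS
  have h1 : ((n : ℤ) : ℚ) = (((p : ℤ) * z : ℤ) : ℚ) := by
    have hz' : (z : ℚ) = (n : ℚ) / p := by simpa using hz
    push_cast
    rw [hz', mul_div_cancel₀ _ (Nat.cast_ne_zero.mpr hp.ne')]
  have h2 : (n : ℤ) = (p : ℤ) * z := by exact_mod_cast h1
  exact Int.natCast_dvd_natCast.mp ⟨z, h2⟩

/-- Without defect zero, products of two conjugates of an element with `p'`-centraliser hit every
element a multiple of `p` times. -/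
theorem dvd_pairCount [Fintype G] (p : ℕ) [Fact p.Prime]
    (hdz : ∀ χ : Cfsg.IrrCharacter G,
      (Cfsg.charDegree (χ : G → ℂ)).factorization p ≠ (Nat.card G).factorization p)
    (a g : G) (ha : ¬ p ∣ Nat.card (Subgroup.centralizer ({a} : Set G))) :
    p ∣ H42.pairCount a a g := by
  classical
  have hp : p.Prime := Fact.out
  set C := Nat.card (Subgroup.centralizer ({a} : Set G)) with hC
  have hk : ∀ χ : Cfsg.IrrCharacter G, ∃ k : ℕ, Nat.card G = Cfsg.charDegree (χ : G → ℂ) * p * k := by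
    intro χ
    obtain ⟨q, hq⟩ := H42.charDegree_dvd_card χ
    have hd0 := (H42.charDegree_pos χ).ne'
    have hq0 : q ≠ 0 := by rintro rfl; exact Nat.card_pos.ne' (hq.trans (mul_zero _))
    have hqp : p ∣ q := by
      by_contra hn
      refine hdz χ ?_
      rw [hq, Nat.factorization_mul hd0 hq0, Finsupp.add_apply,
        Nat.factorization_eq_zero_of_not_dvd hn, add_zero]
    obtain ⟨k, rfl⟩ := hqp
    exact ⟨k, hq.trans (mul_assoc _ _ _).symm⟩
  choose k hk using hk
  set S : ℂ := ∑ χ : Cfsg.IrrCharacter G,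
    (k χ : ℂ) * (conj ((χ : G → ℂ) a) * conj ((χ : G → ℂ) a) * (χ : G → ℂ) g)
  have hint : IsIntegral ℤ S := IsIntegral.sum _ fun χ _ => by
    have hc : IsIntegral ℤ (conj ((χ : G → ℂ) a)) := by
      rw [← H26.irr_inv]; exact H43.irr_isIntegral χ _
    exact (isIntegral_algebraMap (R := ℤ) (A := ℂ) (x := (k χ : ℤ))).mul
      ((hc.mul hc).mul (H43.irr_isIntegral χ _)) |> fun h => by simpa using h
  have hI : (C : ℂ) * ((Subgroup.centralizer ({a} : Set G)).index : ℂ) = (Nat.card G : ℂ) := by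
    rw [← Nat.cast_mul, hC, Subgroup.card_mul_index]
  have hval : ((H42.pairCount a a g * C * C : ℕ) : ℂ) = (p : ℂ) * S := by
    have hG : (Nat.card G : ℂ) ≠ 0 := Nat.cast_ne_zero.mpr Nat.card_pos.ne'
    push_cast
    rw [H42.pairCount_formula]
    have : ∀ χ : Cfsg.IrrCharacter G,
        (Nat.card G : ℂ) * (conj ((χ : G → ℂ) a) * conj ((χ : G → ℂ) a) * (χ : G → ℂ) g /
          (χ : G → ℂ) 1) =
        (p : ℂ) * ((k χ : ℂ) * (conj ((χ : G → ℂ) a) * conj ((χ : G → ℂ) a) * (χ : G → ℂ) g)) := by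
      intro χ
      have hd : ((Cfsg.charDegree (χ : G → ℂ) : ℕ) : ℂ) ≠ 0 :=
        Nat.cast_ne_zero.mpr (H42.charDegree_pos χ).ne'
      rw [H43.irr_charDegree_spec χ, show (Nat.card G : ℂ) =
        ((Cfsg.charDegree (χ : G → ℂ) : ℕ) : ℂ) * p * k χ by rw [hk χ]; push_cast; ring]
      field_simp
    rw [show (p : ℂ) * S = ∑ χ : Cfsg.IrrCharacter G, (p : ℂ) *
        ((k χ : ℂ) * (conj ((χ : G → ℂ) a) * conj ((χ : G → ℂ) a) * (χ : G → ℂ) g)) from Finset.mul_sum _ _ _,
      ← Finset.sum_congr rfl fun χ _ => this χ, ← Finset.mul_sum]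
    field_simp
    linear_combination (∑ χ : Cfsg.IrrCharacter G, conj ((χ : G → ℂ) a) ^ 2 * (χ : G → ℂ) g /
      (χ : G → ℂ) 1) * (((Nat.card G : ℂ) + (C : ℂ) * ((Subgroup.centralizer ({a} : Set G)).index : ℂ))) * hI
  obtain ⟨m, hm⟩ := int_of_integral_div (H42.pairCount a a g * C * C) hp.pos hval hint
  rcases hp.dvd_mul.mp (Dvd.intro m hm.symm) with h | h
  · rcases hp.dvd_mul.mp h with h | h
    · exact h
    · exact absurd h ha
  · exact absurd h ha

theorem involutive {u : G} (hu : orderOf u = 2) : u * u = 1 := by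
  rw [← pow_two, ← hu, pow_orderOf_eq_one]

theorem orderOf_conj' (g u : G) : orderOf (g * u * g⁻¹) = orderOf u :=
  (MulAut.conj g).orderOf_eq u

/-- An involution permuting a set of odd size fixes one of its points. -/
theorem exists_fixed {α : Type*} [Finite α] (f : α → α) (hf : Function.Involutive f)
    (hodd : Odd (Nat.card α)) : ∃ a, f a = a := by
  classical
  haveI : Fintype α := Fintype.ofFinite α
  haveI : Fact (Nat.Prime 2) := ⟨Nat.prime_two⟩
  refine Equiv.Perm.exists_fixed_point_of_prime (p := 2) (n := 1) ?_ (σ := hf.toPerm) ?_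
  · rw [← Nat.card_eq_fintype_card]
    intro h
    exact Nat.not_even_iff_odd.mpr hodd (even_iff_two_dvd.mpr h)
  · rw [pow_one, pow_two]
    exact Equiv.ext fun a => hf a

variable {Ω : Type*} [MulAction G Ω]

/-- A subgroup centralising a transitive group fixes every point as soon as it fixes one. -/
theorem eq_one_of_fix [FaithfulSMul G Ω] {R : Subgroup G} (hab : IsMulCommutative R)
    (htrans : ∀ a b : Ω, ∃ y ∈ R, y • a = b) {y : G} (hy : y ∈ R) {a : Ω} (h : y • a = a) : y = 1 := by
  refine eq_of_smul_eq_smul (α := Ω) fun b => ?_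
  obtain ⟨x, hx, rfl⟩ := htrans a b
  have hc : y * x = x * y := congrArg Subtype.val (hab.is_comm.comm (⟨y, hy⟩ : R) ⟨x, hx⟩)
  rw [one_smul, ← mul_smul, hc, mul_smul, h]

/-- The standing situation: no element of order twice `p`, abelian regular Sylow subgroups. -/
structure Ctx (G Ω : Type*) [Group G] [MulAction G Ω] (p : ℕ) where
  r : ℕ
  rpos : 1 ≤ r
  odd : p ≠ 2
  cardΩ : Nat.card Ω = p ^ r
  cent : ∀ g : G, g ≠ 1 → (∃ k : ℕ, orderOf g = p ^ k) →
    Odd (Nat.card ↥(Subgroup.centralizer ({g} : Set G)))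
  solvable : ∀ X : Subgroup G, Odd (Nat.card X) → Group.IsSolvable X
  comm : ∀ R : Sylow p G, IsMulCommutative (R : Subgroup G)
  trans : ∀ (R : Sylow p G) (a b : Ω), ∃ y ∈ (R : Subgroup G), y • a = b
  stab : ∀ a : Ω, ¬ p ∣ Nat.card (MulAction.stabilizer G a)
  inverted : ∀ t : G, orderOf t = 2 →
    ∃ R : Sylow p G, ∀ x ∈ (R : Subgroup G), t * x * t⁻¹ = x⁻¹
  dvd : ∀ a g : G, ¬ p ∣ Nat.card (Subgroup.centralizer ({a} : Set G)) →
    p ∣ Nat.card {x : G // IsConj x a ∧ IsConj (x⁻¹ * g) a}

namespace Ctx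

variable [Finite Ω] {p : ℕ} [hp : Fact p.Prime] (c : Ctx G Ω p)

include c in
theorem odd_Ω : Odd (Nat.card Ω) := by
  rw [c.cardΩ]; exact (hp.out.odd_of_ne_two c.odd).pow

include c in
theorem invol_cent {u : G} (hu : orderOf u = 2) :
    ¬ p ∣ Nat.card (Subgroup.centralizer ({u} : Set G)) := by
  intro hd
  obtain ⟨⟨y, hy⟩, hyo⟩ := exists_prime_orderOf_dvd_card' p hd
  rw [Subgroup.orderOf_mk] at hyo
  have hy1 : y ≠ 1 := by
    rintro rfl
    rw [orderOf_one] at hyo
    exact hp.out.one_lt.ne hyo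
  have huy : u ∈ Subgroup.centralizer ({y} : Set G) :=
    Subgroup.mem_centralizer_singleton_iff.2 (Subgroup.mem_centralizer_singleton_iff.1 hy).symm
  have h2 := Subgroup.orderOf_dvd_natCard _ huy
  rw [hu] at h2
  exact Nat.not_even_iff_odd.mpr (c.cent y hy1 ⟨1, by rw [pow_one, hyo]⟩) (even_iff_two_dvd.mpr h2)

include c in
theorem invol_fix {u : G} (hu : orderOf u = 2) : ∃ a : Ω, u • a = a :=
  exists_fixed (fun a => u • a) (fun a => by simp only; rw [← mul_smul, involutive hu, one_smul]) c.odd_Ω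

include c in
theorem invol_unique [FaithfulSMul G Ω] {u : G} (hu : orderOf u = 2) {a b : Ω} (ha : u • a = a)
    (hb : u • b = b) : a = b := by
  obtain ⟨R, hR⟩ := c.inverted u hu
  obtain ⟨y, hy, rfl⟩ := c.trans R a b
  have h1 : u • y • a = y⁻¹ • a := by
    rw [← mul_smul, show u * y = y⁻¹ * u by rw [← hR y hy]; group, mul_smul, ha]
  have h2 : (y * y) • a = a := by
    rw [mul_smul, ← hb, h1, ← mul_smul, mul_inv_cancel, one_smul]
  have h3 := eq_one_of_fix (c.comm R) (c.trans R) (mul_mem hy hy) h2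
  have h4 : orderOf y ∣ 2 := orderOf_dvd_of_pow_eq_one (by rw [pow_two, h3])
  have h5 : orderOf (⟨y, hy⟩ : (R : Subgroup G)) = orderOf y := Subgroup.orderOf_mk y hy
  obtain ⟨k, hk⟩ := IsPGroup.iff_orderOf.1 R.2 ⟨y, hy⟩
  rw [h5] at hk
  rcases (Nat.dvd_prime Nat.prime_two).1 h4 with h | h
  · rw [orderOf_eq_one_iff.1 h, one_smul]
  · rcases Nat.eq_zero_or_pos k with h0 | h0
    · rw [h0, pow_zero] at hk; omega
    · exact absurd ((Nat.prime_dvd_prime_iff_eq hp.out Nat.prime_two).1 (h ▸ hk ▸ dvd_pow_self p h0.ne')) c.odd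

include c in
theorem odd_of_two_fixed [FaithfulSMul G Ω] {h : G} {a b : Ω} (hab : a ≠ b) (ha : h • a = a)
    (hb : h • b = b) : Odd (orderOf h) := by
  rw [← Nat.not_even_iff_odd, even_iff_two_dvd]
  intro h2
  obtain ⟨m, hm⟩ := h2
  have hm0 : m ≠ 0 := by rintro rfl; exact (orderOf_pos h).ne' (hm.trans (mul_zero _))
  have hu : orderOf (h ^ m) = 2 := by
    rw [orderOf_pow' h hm0, hm, Nat.gcd_eq_right (dvd_mul_left m 2), Nat.mul_div_cancel _ (Nat.pos_of_ne_zero hm0)]
  exact hab (c.invol_unique hu (smul_pow_eq h a ha m) (smul_pow_eq h b hb m))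
where
  smul_pow_eq (h : G) (a : Ω) (ha : h • a = a) : ∀ m : ℕ, h ^ m • a = a
    | 0 => by rw [pow_zero, one_smul]
    | m + 1 => by rw [pow_succ, mul_smul, ha, smul_pow_eq h a ha m]

include c in
/-- A `p'`-element centralised by a nontrivial `p`-element and inverted by an involution fixes the
point of the involution. -/
theorem fix_of_p_centralizer [FaithfulSMul G Ω] {u h : G} (hu : orderOf u = 2)
    {Y : Subgroup G} (hY : IsPGroup p Y) (hY1 : Y ≠ ⊥) (hYh : ∀ y ∈ Y, y * h = h * y)
    (huh : u * h * u⁻¹ = h⁻¹) {b : Ω} (hb : h • b = b) : ∃ a : Ω, u • a = a ∧ h • a = a := by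
  classical
  obtain ⟨y, hy, hy1⟩ := (Subgroup.bot_or_exists_ne_one Y).resolve_left hY1
  have hyp : ∃ k : ℕ, orderOf y = p ^ k := by
    obtain ⟨k, hk⟩ := IsPGroup.iff_orderOf.1 hY ⟨y, hy⟩
    exact ⟨k, by rwa [Subgroup.orderOf_mk] at hk⟩
  set X := Subgroup.centralizer ({y} : Set G) with hX
  have hXodd := c.cent y hy1 hyp
  haveI : Group.IsSolvable X := c.solvable X hXodd
  obtain ⟨R, hR⟩ := hY.exists_le_sylow
  have hRX : (R : Subgroup G) ≤ X := fun x hx => Subgroup.mem_centralizer_singleton_iff.2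
    (congrArg Subtype.val ((c.comm R).is_comm.comm (⟨x, hx⟩ : (R : Subgroup G)) ⟨y, hR hy⟩))
  -- no normal `p'`-subgroup
  have hcore : Cfsg.pPrimeCore p X = ⊥ := by
    have hN := H19.pPrimeCore_normal p X
    set N := Cfsg.pPrimeCore p X with hNdef
    have hNp : ¬ p ∣ Nat.card N := hp.out.coprime_iff_not_dvd.1 (H19.pPrimeCore_coprime (G := X) p).symm
    rw [eq_bot_iff]
    intro n hn
    rw [Subgroup.mem_bot]
    refine Subtype.ext (eq_of_smul_eq_smul (α := Ω) fun a => ?_)
    rw [OneMemClass.coe_one, one_smul]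
    set K := (MulAction.stabilizer G a).subgroupOf X with hK
    have hKp : ¬ p ∣ Nat.card K := by
      intro hd
      refine c.stab a (hd.trans ?_)
      exact Subgroup.card_dvd_of_injective (f := ({
        toFun := fun k => ⟨((k : X) : G), k.2⟩
        map_one' := rfl
        map_mul' := fun _ _ => rfl } : K →* MulAction.stabilizer G a))
        fun k k' e => Subtype.ext (Subtype.ext (congrArg (fun z : MulAction.stabilizer G a => (z : G)) e))
    have hidx : K.index = p ^ c.r := by
      rw [← c.cardΩ]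
      haveI : MulAction.IsPretransitive X Ω := ⟨fun a b => by
        obtain ⟨x, hx, e⟩ := c.trans R a b
        exact ⟨⟨x, hRX hx⟩, e⟩⟩
      rw [show K = MulAction.stabilizer X a from Subgroup.ext fun x => Iff.rfl,
        MulAction.index_stabilizer_of_transitive]
    have hsup : ¬ p ∣ Nat.card (K ⊔ N : Subgroup X) := by
      intro hd
      have h1 := (hd.trans (H55.card_sup_dvd_mul K N))
      exact (hp.out.dvd_mul.1 h1).elim hKp hNp
    have hle : Nat.card (K ⊔ N : Subgroup X) ∣ Nat.card K := by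
      refine (Nat.Coprime.dvd_of_dvd_mul_right ?_ ((Subgroup.card_subgroup_dvd_card (K ⊔ N)).trans (dvd_of_eq K.card_mul_index.symm)))
      rw [hidx]
      exact (hp.out.coprime_iff_not_dvd.2 hsup).symm.pow_right _
    have : K ⊔ N = K := (Subgroup.eq_of_le_of_card_ge le_sup_left
      (Nat.le_of_dvd Nat.card_pos hle)).symm
    have hnK : n ∈ K := this ▸ Subgroup.mem_sup_right hn
    exact hnK
  -- the Sylow subgroup is normal in the centraliser
  set R' := (R : Subgroup G).subgroupOf X with hR'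
  have hR'p : IsPGroup p R' := R.2.comap_subtype
  have hR'max : ∀ Q : Subgroup X, IsPGroup p Q → R' ≤ Q → Q = R' := by
    intro Q hQ hle
    have h1 := R.3 (Q := Q.map X.subtype) (hQ.map _) (by
      intro x hx
      exact ⟨⟨x, hRX hx⟩, hle hx, rfl⟩)
    refine le_antisymm (fun q hq => ?_) hle
    show (q : G) ∈ (R : Subgroup G)
    rw [← h1]; exact ⟨q, hq, rfl⟩
  have hO := H53.centralizer_pCore_le (G := X) hcore
  have hOp : IsPGroup p (Cfsg.pCore p X) := H19.pCore_isPGroup (G := X) p
  have hOR : Cfsg.pCore p X ≤ R' := by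
    haveI := H19.pCore_normal p X
    have := hR'max (R' ⊔ Cfsg.pCore p X) (hR'p.to_sup_of_normal_right hOp) le_sup_left
    exact this ▸ le_sup_right
  have hRO : R' ≤ Cfsg.pCore p X := fun x hx => hO (Subgroup.mem_centralizer_iff.2 fun z hz =>
    Subtype.ext (by
      have := congrArg Subtype.val ((c.comm R).is_comm.comm
        (⟨(z : G), hOR hz⟩ : (R : Subgroup G)) ⟨(x : G), hx⟩)
      simpa only [Subgroup.coe_mul] using this))
  have hRn : R'.Normal := (le_antisymm hRO hOR) ▸ H19.pCore_normal p X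
  have hhX : h ∈ X := Subgroup.mem_centralizer_singleton_iff.2 (hYh y hy).symm
  have hconjR : ∀ x ∈ (R : Subgroup G), h * x * h⁻¹ ∈ (R : Subgroup G) := fun x hx =>
    hRn.conj_mem ⟨x, hRX hx⟩ hx ⟨h, hhX⟩
  -- the fixed points of `h` form a coset of its centraliser in `R`
  have hbij : Nat.card {x : Ω // h • x = x} =
      Nat.card (((R : Subgroup G) ⊓ Subgroup.centralizer ({h} : Set G) : Subgroup G)) := by
    symm
    refine Nat.card_eq_of_bijective (fun x => ⟨(x : G) • b, by
      rw [← mul_smul, ← (Subgroup.mem_centralizer_singleton_iff.1 x.2.2), mul_smul, hb]⟩) ⟨?_, ?_⟩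
    · intro x x' e
      have e' : (x : G) • b = (x' : G) • b := congrArg Subtype.val e
      refine Subtype.ext (inv_mul_eq_one.1 ?_).symm
      refine eq_one_of_fix (c.comm R) (c.trans R) (mul_mem (inv_mem x'.2.1) x.2.1) (a := b) ?_
      rw [mul_smul, e', ← mul_smul, inv_mul_cancel, one_smul]
    · rintro ⟨z, hz⟩
      obtain ⟨x, hx, rfl⟩ := c.trans R b z
      refine ⟨⟨x, hx, ?_⟩, rfl⟩
      refine Subgroup.mem_centralizer_singleton_iff.2 ?_
      have h1 : x⁻¹ * (h * x * h⁻¹) = 1 := by
        refine eq_one_of_fix (c.comm R) (c.trans R) (mul_mem (inv_mem hx) (hconjR x hx)) (a := b) ?_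
        rw [mul_smul, mul_smul, mul_smul, show h⁻¹ • b = b from inv_smul_eq_iff.2 hb.symm, hz,
          inv_smul_smul]
      have h2 : x = h * x * h⁻¹ := inv_mul_eq_one.1 h1
      calc x * h = h * x * h⁻¹ * h := by rw [← h2]
        _ = h * x := inv_mul_cancel_right _ _
  have hodd : Odd (Nat.card {x : Ω // h • x = x}) := by
    rw [hbij]
    obtain ⟨k, hk⟩ := IsPGroup.iff_card.1 R.2
    exact ((hp.out.odd_of_ne_two c.odd).pow (n := k)).of_dvd_nat (hk ▸ Subgroup.card_dvd_of_le inf_le_left)
  have hpres : ∀ x : Ω, h • x = x → h • u • x = u • x := by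
    intro x hx
    have e : h * u = u * h⁻¹ := by
      have := involutive hu
      have h1 : u * h = h⁻¹ * u := mul_inv_eq_iff_eq_mul.1 huh
      calc h * u = u * (u * h) * u := by rw [← mul_assoc, this, one_mul]
        _ = u * h⁻¹ * (u * u) := by rw [h1]; group
        _ = _ := by rw [this, mul_one]
    rw [← mul_smul, e, mul_smul, show h⁻¹ • x = x from inv_smul_eq_iff.2 hx.symm]
  obtain ⟨⟨a, ha⟩, hfix⟩ := exists_fixed
    (fun x : {x : Ω // h • x = x} => (⟨u • (x : Ω), hpres x x.2⟩ : {x : Ω // h • x = x}))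
    (fun x => Subtype.ext (show u • u • (x : Ω) = x by rw [← mul_smul, involutive hu, one_smul]))
    hodd
  exact ⟨a, congrArg Subtype.val hfix, ha⟩

include c in
/-- An element fixing two points and inverted by an involution fixes its point. -/
theorem fix_of_inverted [FaithfulSMul G Ω] {u u' : G} (hu : orderOf u = 2) (hu' : orderOf u' = 2)
    {β γ : Ω} (hne : β ≠ γ) (hβ : (u * u') • β = β) (hγ : (u * u') • γ = γ) :
    ∃ a : Ω, u • a = a ∧ (u * u') • a = a := by
  classical
  set h := u * u' with hh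
  have huu := involutive hu
  have hu'u := involutive hu'
  have huh : u * h * u⁻¹ = h⁻¹ := by
    rw [hh, mul_inv_rev, inv_eq_of_mul_eq_one_right huu, inv_eq_of_mul_eq_one_right hu'u]
    simp [← mul_assoc, huu]
  have hoddh := c.odd_of_two_fixed hne hβ hγ
  set C := Subgroup.centralizer ({h} : Set G) with hC
  have hmem : ∀ x, x ∈ C ↔ x * h = h * x := fun x => Subgroup.mem_centralizer_singleton_iff
  have hnorm : ∀ x ∈ C, u * x * u⁻¹ ∈ C := by
    intro x hx
    rw [hmem] at hx ⊢
    have e : h = u * h⁻¹ * u⁻¹ := by rw [← huh]; simp [mul_assoc, inv_eq_of_mul_eq_one_right huu, huu]; simp [← mul_assoc, huu]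
    have hx' : x * h⁻¹ = h⁻¹ * x := ((show Commute x h from hx).inv_right).eq
    rw [e]
    calc u * x * u⁻¹ * (u * h⁻¹ * u⁻¹) = u * (x * h⁻¹) * u⁻¹ := by group
      _ = _ := by rw [hx']; group
  by_cases heven : Even (Nat.card C)
  · -- an involution commuting with both
    have hodd := H28.odd_card_involutions heven
    obtain ⟨k, hk⟩ := exists_fixed
      (fun x : {x : C // orderOf x = 2} => (⟨⟨u * (x : C) * u⁻¹, hnorm _ (x : C).2⟩, by
        rw [← Subgroup.orderOf_coe, orderOf_conj', Subgroup.orderOf_coe, x.2]⟩ : {x : C // orderOf x = 2}))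
      (fun x => Subtype.ext (Subtype.ext (show u * (u * ((x : C) : G) * u⁻¹) * u⁻¹ = ((x : C) : G) by
        rw [inv_eq_of_mul_eq_one_right huu]; simp [mul_assoc, huu]; simp [← mul_assoc, huu]))) hodd
    set v : G := ((k : C) : G) with hv
    have hv2 : orderOf v = 2 := by rw [hv, Subgroup.orderOf_coe]; exact k.2
    have hvu : u * v * u⁻¹ = v := congrArg (fun x : {x : C // orderOf x = 2} => ((x : C) : G)) hk
    obtain ⟨e, he⟩ := c.invol_fix hv2
    have hfix : ∀ g : G, g * v = v * g → g • e = e := fun g hg =>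
      c.invol_unique hv2 (by rw [← mul_smul, ← hg, mul_smul, he]) he
    exact ⟨e, hfix u (mul_inv_eq_iff_eq_mul.1 hvu), hfix h ((hmem _).1 (k : C).2).symm⟩
  · rw [Nat.not_even_iff_odd] at heven
    have hpC : p ∣ Nat.card C := by
      by_contra hpn
      obtain ⟨z, hz, hzc⟩ := H37.exists_conj_of_mul_odd huu hu'u hoddh
      have hconj' : IsConj u' u := isConj_iff.2 ⟨z, hzc⟩
      have hd := c.dvd u h (c.invol_cent hu)
      -- the solutions are the conjugates of `u` under the centraliser
      have hcard : Nat.card {x : G // IsConj x u ∧ IsConj (x⁻¹ * h) u} =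
          (((Subgroup.centralizer ({u} : Set G)).subgroupOf C)).index := by
        rw [Subgroup.index]
        symm
        refine Nat.card_eq_of_bijective (Quotient.lift (fun d : C =>
          (⟨(d : G) * u * (d : G)⁻¹, isConj_iff.2 ⟨(d : G)⁻¹, by group⟩, ?_⟩ :
            {x : G // IsConj x u ∧ IsConj (x⁻¹ * h) u})) ?_) ⟨?_, ?_⟩
        · refine (isConj_iff.2 ⟨(d : G)⁻¹, ?_⟩).trans hconj'
          have hd' := (hmem _).1 d.2
          have e : (d : G)⁻¹ * h * (d : G) = h := by rw [mul_assoc, ← hd', inv_mul_cancel_left]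
          calc (d : G)⁻¹ * (((d : G) * u * (d : G)⁻¹)⁻¹ * h) * ((d : G)⁻¹)⁻¹
              = u⁻¹ * ((d : G)⁻¹ * h * d) := by group
            _ = u' := by rw [e, hh, inv_mul_cancel_left]
        · intro d d' hdd
          refine Subtype.ext ?_
          have h0 := QuotientGroup.leftRel_apply.1 hdd
          rw [Subgroup.mem_subgroupOf] at h0
          have h1 : ((d : G)⁻¹ * d') * u = u * ((d : G)⁻¹ * d') :=
            Subgroup.mem_centralizer_singleton_iff.1 h0
          show (d : G) * u * (d : G)⁻¹ = d' * u * (d' : G)⁻¹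
          calc (d : G) * u * (d : G)⁻¹ = d * (u * ((d : G)⁻¹ * d')) * (d' : G)⁻¹ := by group
            _ = _ := by rw [← h1]; group
        · rintro ⟨d⟩ ⟨d'⟩ e
          have e' : (d : G) * u * (d : G)⁻¹ = d' * u * (d' : G)⁻¹ := congrArg Subtype.val e
          refine Quotient.sound (QuotientGroup.leftRel_apply.2 ?_)
          rw [Subgroup.mem_subgroupOf]
          refine Subgroup.mem_centralizer_singleton_iff.2 ?_
          show ((d : G)⁻¹ * d') * u = u * ((d : G)⁻¹ * d')
          calc ((d : G)⁻¹ * d') * u = (d : G)⁻¹ * (d' * u * (d' : G)⁻¹) * d' := by group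
            _ = _ := by rw [← e']; group
        · rintro ⟨x, hx, hxh⟩
          obtain ⟨g, hg⟩ := isConj_iff.1 hx
          obtain ⟨g', hg'⟩ := isConj_iff.1 hxh
          have hxx : x * x = 1 := by
            have : x = g⁻¹ * u * g := by rw [← hg]; group
            rw [this]; calc _ = g⁻¹ * (u * u) * g := by group
              _ = _ := by rw [huu]; group
          have hyy : x⁻¹ * h * (x⁻¹ * h) = 1 := by
            have : x⁻¹ * h = g'⁻¹ * u * g' := by rw [← hg']; group
            rw [this]; calc _ = g'⁻¹ * (u * u) * g' := by group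
              _ = _ := by rw [huu]; group
          rw [inv_eq_of_mul_eq_one_right hxx] at hyy
          have hxi : x * h * x⁻¹ = h⁻¹ := by
            rw [inv_eq_of_mul_eq_one_right hxx]
            exact eq_inv_of_mul_eq_one_left (by simpa [mul_assoc] using hyy)
          have hu' := inv_eq_of_mul_eq_one_right huu
          -- `u * x` centralises `h`, so is a square there
          have hc : u * x ∈ C := by
            rw [hmem]
            have h1 : x * h = h⁻¹ * x := mul_inv_eq_iff_eq_mul.1 hxi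
            have h2 : u * h⁻¹ = h * u := by
              have h3 := congrArg (fun z => z⁻¹) huh
              simp only [mul_inv_rev, inv_inv] at h3
              rw [← mul_assoc] at h3
              exact mul_inv_eq_iff_eq_mul.1 h3
            rw [mul_assoc, h1, ← mul_assoc, h2, mul_assoc]
          obtain ⟨n, hn⟩ := exists_pow_eq_self_of_coprime (x := (⟨u * x, hc⟩ : C)) (n := 2)
            (Nat.coprime_two_left.2 (heven.of_dvd_nat (orderOf_dvd_natCard _)))
          set d : C := (⟨u * x, hc⟩ : C) ^ n with hd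
          have hdd : ((d : G)) * d = u * x := by
            have h4 := congrArg Subtype.val hn
            simp only [← pow_mul] at h4
            rw [← pow_two, hd, ← SubgroupClass.coe_pow, ← pow_mul, mul_comm]
            exact h4
          have hud : u * (d : G) * u⁻¹ = (d : G)⁻¹ := by
            rw [hd, SubgroupClass.coe_pow, ← conj_pow, ← inv_pow]
            congr 1
            simp [mul_inv_rev, hu', inv_eq_of_mul_eq_one_right hxx, ← mul_assoc, huu]
          refine ⟨⟦d⁻¹⟧, Subtype.ext ?_⟩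
          show ((d⁻¹ : C) : G) * u * ((d⁻¹ : C) : G)⁻¹ = x
          rw [Subgroup.coe_inv, inv_inv]
          calc (d : G)⁻¹ * u * d = u * ((d : G) * d) := by
                rw [← hud, hu']; simp [mul_assoc, huu]
            _ = x := by rw [hdd, ← mul_assoc, huu, one_mul]
      rw [hcard] at hd
      exact hpn (hd.trans (Subgroup.index_dvd_card _))
    -- a Sylow subgroup of the centraliser normalised by `u`
    have hiso : ∃ Y : Sylow p C, ∀ x ∈ (Y : Subgroup C),
        (⟨u * x * u⁻¹, hnorm _ x.2⟩ : C) ∈ (Y : Subgroup C) := by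
      let φ : MulAut C :=
        { toFun := fun x => ⟨u * x * u⁻¹, hnorm _ x.2⟩
          invFun := fun x => ⟨u * x * u⁻¹, hnorm _ x.2⟩
          left_inv := fun x => Subtype.ext (show u * (u * (x : G) * u⁻¹) * u⁻¹ = x by
            rw [inv_eq_of_mul_eq_one_right huu]; simp [mul_assoc, huu]; simp [← mul_assoc, huu])
          right_inv := fun x => Subtype.ext (show u * (u * (x : G) * u⁻¹) * u⁻¹ = x by
            rw [inv_eq_of_mul_eq_one_right huu]; simp [mul_assoc, huu]; simp [← mul_assoc, huu])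
          map_mul' := fun x y => Subtype.ext (show u * ((x : G) * y) * u⁻¹ = u * x * u⁻¹ * (u * y * u⁻¹) by group) }
      have hφ : φ * φ = 1 := MulEquiv.ext fun x => φ.left_inv x
      have hoddS : Odd (Nat.card (Sylow p C)) := by
        obtain ⟨Y⟩ := (inferInstance : Nonempty (Sylow p C))
        exact heven.of_dvd_nat (Y.card_eq_index_normalizer ▸ Subgroup.index_dvd_card _)
      obtain ⟨Y, hY⟩ := exists_fixed (fun Y : Sylow p C => φ • Y)
        (fun Y => by simp only; rw [← mul_smul, hφ, one_smul]) hoddS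
      refine ⟨Y, fun x hx => ?_⟩
      have hY' : φ • (Y : Subgroup C) = (Y : Subgroup C) :=
        (Sylow.pointwise_smul_def (g := φ) (P := Y)).symm.trans (congrArg Sylow.toSubgroup hY)
      rw [← hY']
      exact Subgroup.smul_mem_pointwise_smul x φ _ hx
    obtain ⟨Y, hYu⟩ := hiso
    have hY1 : (Y : Subgroup C).map C.subtype ≠ ⊥ := by
      rw [Ne, Subgroup.map_eq_bot_iff_of_injective _ C.subtype_injective]
      exact Y.ne_bot_of_dvd_card hpC
    exact c.fix_of_p_centralizer hu (Y.2.map _) hY1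
      (fun y hy => by obtain ⟨⟨x, hx⟩, -, rfl⟩ := hy; exact (hmem _).1 hx) huh hβ

include c in
/-- One involution fixes each point. -/
theorem invol_eq [FaithfulSMul G Ω] [MulAction.IsPretransitive G Ω] {t : G} (ht : orderOf t = 2)
    {u u' : G} (hu : orderOf u = 2) (hu' : orderOf u' = 2) {a : Ω} (ha : u • a = a)
    (ha' : u' • a = a) : u = u' := by
  classical
  obtain ⟨a₀, ha₀⟩ := c.invol_fix ht
  choose g hg using fun b : Ω => MulAction.exists_smul_eq G a₀ b
  have hpt : ∀ b : Ω, orderOf (g b * t * (g b)⁻¹) = 2 ∧ (g b * t * (g b)⁻¹) • b = b := fun b => by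
    refine ⟨by rw [orderOf_conj', ht], ?_⟩
    rw [mul_smul, mul_smul, inv_smul_eq_iff.2 (hg b).symm, ha₀, hg]
  have hmid : ∀ (v v' : G), orderOf v = 2 → orderOf v' = 2 → ∀ (a a' β : Ω), v • a = a → v' • a' = a' →
      β ≠ v • β → v • β = v' • β → a = a' := by
    intro v v' hv hv' a a' β hva hva' hne he
    have h1 : (v * v') • β = β := by rw [mul_smul, ← he, ← mul_smul, involutive hv, one_smul]
    have h2 : (v * v') • (v • β) = v • β := by
      rw [mul_smul]
      conv_lhs => rw [he, ← mul_smul v' v' β, involutive hv', one_smul]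
    obtain ⟨e, hve, hhe⟩ := c.fix_of_inverted hv hv' hne h1 h2
    have hv'e : v' • e = e := by
      rw [mul_smul] at hhe
      have := congrArg (v • ·) hhe
      rwa [← mul_smul, involutive hv, one_smul, hve] at this
    rw [c.invol_unique hv hva hve, c.invol_unique hv' hva' hv'e]
  -- the map from points to the images of a point under their involutions
  have key : ∀ β : Ω, β ≠ a → u • β = u' • β := by
    intro β hβ
    let j : {x : Ω // x ≠ β} → G := fun x => if (x : Ω) = a then u else g x * t * (g x)⁻¹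
    have hj : ∀ x, orderOf (j x) = 2 ∧ j x • (x : Ω) = x := fun x => by
      by_cases e : (x : Ω) = a
      · simp only [j, e, if_true]; exact ⟨hu, ha⟩
      · simp only [j, e, if_false]; exact hpt x
    have hmove : ∀ x : {x : Ω // x ≠ β}, j x • β ≠ β := fun x e =>
      x.2 (c.invol_unique (hj x).1 (hj x).2 e)
    let f : {x : Ω // x ≠ β} → {x : Ω // x ≠ β} := fun x => ⟨j x • β, hmove x⟩
    have hf : Function.Injective f := fun x x' e => Subtype.ext
      (hmid _ _ (hj x).1 (hj x').1 _ _ β (hj x).2 (hj x').2 (hmove x).symm (congrArg Subtype.val e))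
    have hne' : u' • β ≠ β := fun e => hβ (c.invol_unique hu' e ha')
    obtain ⟨x, hx⟩ := Finite.injective_iff_surjective.1 hf ⟨u' • β, hne'⟩
    have hxa : (x : Ω) = a :=
      hmid _ _ (hj x).1 hu' _ _ β (hj x).2 ha' (hmove x).symm (congrArg Subtype.val hx)
    have := congrArg Subtype.val hx
    simpa only [f, j, hxa, if_true] using this
  refine eq_of_smul_eq_smul (α := Ω) fun β => ?_
  by_cases hβ : β = a
  · rw [hβ, ha, ha']
  · exact key β hβ

include c in
/-- A Sylow subgroup is normal. -/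
theorem sylow_normal [FaithfulSMul G Ω] [MulAction.IsPretransitive G Ω] {t : G} (ht : orderOf t = 2) :
    ∃ R : Sylow p G, (R : Subgroup G).Normal := by
  obtain ⟨R, hR⟩ := c.inverted t ht
  obtain ⟨a, ha⟩ := c.invol_fix ht
  have htt := involutive ht
  have hall : ∀ u : G, orderOf u = 2 → u * t ∈ (R : Subgroup G) := by
    intro u hu
    obtain ⟨b, hb⟩ := c.invol_fix hu
    obtain ⟨y, hy, rfl⟩ := c.trans R a b
    have : u = y * t * y⁻¹ := c.invol_eq ht hu (by rw [orderOf_conj', ht]) hb
      (by rw [mul_smul, mul_smul, inv_smul_smul, ha])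
    rw [this, show y * t * y⁻¹ * t = y * (t * y * t⁻¹)⁻¹ * (t * t) by group, htt, hR y hy, inv_inv,
      mul_one]
    exact mul_mem hy hy
  refine ⟨R, ⟨fun x hx g => ?_⟩⟩
  obtain ⟨k, hk⟩ := IsPGroup.iff_orderOf.1 R.2 ⟨x, hx⟩
  rw [Subgroup.orderOf_mk] at hk
  obtain ⟨n, hn⟩ := exists_pow_eq_self_of_coprime (x := x) (n := 2)
    (hk ▸ Nat.coprime_two_left.2 ((hp.out.odd_of_ne_two c.odd).pow))
  set y := x ^ n with hy
  have hyR : y ∈ (R : Subgroup G) := pow_mem hx n
  have hyy : x = (y * t * y⁻¹) * t := by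
    rw [show y * t * y⁻¹ * t = y * (t * y * t⁻¹)⁻¹ * (t * t) by group, htt, hR y hyR, inv_inv,
      mul_one, hy, ← pow_add, ← two_mul, pow_mul]
    exact hn.symm
  rw [hyy, show g * (y * t * y⁻¹ * t) * g⁻¹ = (g * y) * t * (g * y)⁻¹ * (g * t * g⁻¹) by group]
  have h1 := hall _ (show orderOf ((g * y) * t * (g * y)⁻¹) = 2 by rw [orderOf_conj', ht])
  have h2 := hall _ (show orderOf (g * t * g⁻¹) = 2 by rw [orderOf_conj', ht])
  have h3 := mul_mem h1 (inv_mem h2)
  have hgt : (g * t * g⁻¹)⁻¹ = g * t * g⁻¹ :=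
    inv_eq_of_mul_eq_one_right (involutive (by rw [orderOf_conj', ht]))
  rwa [show (g * y) * t * (g * y)⁻¹ * t * (g * t * g⁻¹ * t)⁻¹ =
    (g * y) * t * (g * y)⁻¹ * (g * t * g⁻¹)⁻¹ by group, hgt] at h3

end Ctx

end Cfsg.Agent.H44.PPT
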