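import Mathlib
import Cfsg.Agent.H44.HallHigman
import Cfsg.Agent.H44.CommonEigen

set_option autoImplicit false
open scoped Pointwise commutatorElement

namespace Cfsg.Agent.H44

variable {G : Type*} [Group G] [Finite G]

/-- If a Sylow `p`-subgroup does not centralize a normal `p'`-subgroup `N`, it does not centralize
some invariant subgroup of `N` of prime power order. -/
theorem exists_invariant_noncentral {p : ℕ} [Fact p.Prime] (P : Sylow p G) (N : Subgroup G)
    [N.Normal] (hcop : (Nat.card N).Coprime p)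
    (hnc : ¬ N ≤ Subgroup.centralizer ((P : Subgroup G) : Set G)) :
    ∃ (q : ℕ) (Q : Subgroup G), q.Prime ∧ Q ≤ N ∧ IsPGroup q Q ∧
      (∀ a ∈ (P : Subgroup G), ∀ x ∈ Q, a * x * a⁻¹ ∈ Q) ∧
      ¬ Q ≤ Subgroup.centralizer ((P : Subgroup G) : Set G) := by
  by_contra hcon
  push Not at hcon
  apply hnc
  set C := Subgroup.centralizer ((P : Subgroup G) : Set G) ⊓ N
  suffices h : Nat.card N ∣ Nat.card C by
    have : C = N := Subgroup.eq_of_le_of_card_ge inf_le_right (Nat.le_of_dvd Nat.card_pos h)
    exact this ▸ inf_le_left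
  refine (Nat.dvd_iff_prime_pow_dvd_dvd _ _).mpr fun q j hq hj => ?_
  haveI := Fact.mk hq
  obtain ⟨S⟩ : Nonempty (Sylow q N) := inferInstance
  set S' : Subgroup G := (S : Subgroup N).map N.subtype with hS'
  have hsup := Sylow.normalizer_sup_eq_top S
  set K := Subgroup.normalizer (S' : Set G) with hK
  have hKN : K ⊔ N = ⊤ := hsup
  have hKidx : K.index ∣ Nat.card N := by
    have h1 : (K ⊓ N).relIndex N * N.index = (K ⊓ N).relIndex K * K.index := by
      rw [Subgroup.relIndex_mul_index inf_le_right, Subgroup.relIndex_mul_index inf_le_left]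
    have h2 : (K ⊓ N).relIndex K = N.index := by
      rw [Subgroup.inf_relIndex_left, ← Subgroup.relIndex_sup_right (H := K) (K := N), hKN,
        Subgroup.relIndex_top_right]
    rw [h2, mul_comm N.index, Nat.mul_right_cancel_iff
      (Nat.pos_of_ne_zero Subgroup.index_ne_zero_of_finite)] at h1
    exact h1 ▸ Subgroup.relIndex_dvd_card _ _
  obtain ⟨P₀⟩ : Nonempty (Sylow p K) := inferInstance
  have hP₀ : ¬ p ∣ ((P₀ : Subgroup K).map K.subtype).index := by
    rw [Subgroup.index_map_subtype, (Fact.out : p.Prime).dvd_mul, not_or]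
    exact ⟨P₀.not_dvd_index, fun h => (Fact.out : p.Prime).coprime_iff_not_dvd.mp hcop.symm
      (h.trans hKidx)⟩
  let P₁ : Sylow p G := (P₀.isPGroup'.map K.subtype).toSylow hP₀
  obtain ⟨g, hg⟩ := MulAction.exists_smul_eq G P₁ P
  have hP₁K : (P₁ : Subgroup G) ≤ K := Subgroup.map_subtype_le _
  set Q : Subgroup G := MulAut.conj g • S' with hQ
  have hQN : Q ≤ N := by
    rintro _ ⟨x, hx, rfl⟩
    exact ‹N.Normal›.conj_mem x (Subgroup.map_subtype_le _ hx) g
  have hinv : ∀ a ∈ (P : Subgroup G), ∀ x ∈ Q, a * x * a⁻¹ ∈ Q := by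
    intro a ha x hx
    rw [← hg, Sylow.coe_subgroup_smul] at ha
    obtain ⟨b, hb, rfl⟩ := ha
    obtain ⟨y, hy, rfl⟩ := hx
    refine ⟨b * y * b⁻¹, (Subgroup.mem_normalizer_iff.mp (hP₁K hb) y).mp hy, ?_⟩
    simp [mul_assoc]
  have hQp : IsPGroup q Q := (S.isPGroup'.map N.subtype).map _
  have hle : Q ≤ C := le_inf (hcon q Q hq hQN hQp hinv) hQN
  refine (S.pow_dvd_card_of_pow_dvd_card hj).trans ?_
  have : Nat.card (S : Subgroup N) = Nat.card Q := by
    rw [hQ, ← Nat.card_congr (Subgroup.equivSMul _ S').toEquiv, hS',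
      Subgroup.card_subtype]
  exact this ▸ Subgroup.card_dvd_of_le hle

/-- An element killed by two coprime exponents is trivial. -/
theorem eq_one_of_coprime_pow {x : G} {m n : ℕ} (hmn : m.Coprime n) (hm : x ^ m = 1)
    (hn : x ^ n = 1) : x = 1 := by
  have h1 := orderOf_dvd_of_pow_eq_one hm
  have h2 := orderOf_dvd_of_pow_eq_one hn
  exact orderOf_eq_one_iff.mp (Nat.eq_one_of_dvd_coprimes hmn h1 h2)

/-- An element of a subgroup is killed by the order of the subgroup. -/
theorem pow_natCard_eq_one_of_mem {N : Subgroup G} {x : G} (hx : x ∈ N) :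
    x ^ Nat.card N = 1 :=
  orderOf_dvd_iff_pow_eq_one.mp (N.orderOf_dvd_natCard hx)

/-- If `P` acts on a `q`-group `Q` of coprime order, and centralises all commutators `[a,x]`,
then it centralises `Q`. -/
theorem comm_eq_of_comm_commutator {a x : G} {m n : ℕ} (hmn : m.Coprime n) (ha : a ^ m = 1)
    (hc : (a * x * a⁻¹ * x⁻¹) ^ n = 1) (hcomm : a * (a * x * a⁻¹ * x⁻¹) = (a * x * a⁻¹ * x⁻¹) * a) :
    a * x = x * a := by
  set c := a * x * a⁻¹ * x⁻¹ with hcdef
  have h1 : ∀ k : ℕ, a ^ k * x * (a ^ k)⁻¹ = c ^ k * x := by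
    intro k
    induction k with
    | zero => simp
    | succ k ih =>
      have hck : a * c ^ k = c ^ k * a := (Commute.pow_right hcomm k).eq
      calc a ^ (k + 1) * x * (a ^ (k + 1))⁻¹ = a * (a ^ k * x * (a ^ k)⁻¹) * a⁻¹ := by
            rw [pow_succ', mul_inv_rev]; group
        _ = c ^ k * (a * x * a⁻¹) := by rw [ih, ← mul_assoc a, hck]; group
        _ = c ^ (k + 1) * x := by rw [pow_succ, mul_assoc, hcdef]; group
  have h2 : c ^ m = 1 := by
    have := h1 m
    rw [ha] at this
    simpa using this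
  have h3 : c = 1 := eq_one_of_coprime_pow hmn h2 hc
  rw [hcdef, ← commutatorElement_def, commutatorElement_eq_one_iff_mul_comm] at h3
  exact h3

/-- A faithful representation of a group with a Sylow `p`-subgroup `P` which is a trivial
intersection set and does not centralize a normal `p'`-subgroup has degree `d` with `|P| < d^2`. -/
theorem card_sylow_lt_sq_finrank {p : ℕ} [Fact p.Prime] (P : Sylow p G)
    (hTI : ∀ g : G, g ∉ Subgroup.normalizer ((P : Subgroup G) : Set G) →
      (P : Subgroup G) ⊓ (MulAut.conj g • (P : Subgroup G)) = ⊥)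
    (N : Subgroup G) [N.Normal] (hcop : (Nat.card N).Coprime p)
    (hnc : ¬ N ≤ Subgroup.centralizer ((P : Subgroup G) : Set G))
    {V : Type*} [AddCommGroup V] [Module ℂ V] [FiniteDimensional ℂ V]
    (ρ : Representation ℂ G V) (hρ : Function.Injective ρ) :
    Nat.card (P : Subgroup G) < Module.finrank ℂ V ^ 2 := by
  classical
  set C₀ := Subgroup.centralizer ((P : Subgroup G) : Set G) with hC₀
  obtain ⟨q₀, Q₀, hQ₀⟩ := exists_invariant_noncentral P N hcop hnc
  obtain ⟨Q, ⟨q, hq, hQN, hQp, hinv, hQC⟩, hmin⟩ := wellFounded_lt.has_min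
    {Q : Subgroup G | ∃ q : ℕ, q.Prime ∧ Q ≤ N ∧ IsPGroup q Q ∧
      (∀ a ∈ (P : Subgroup G), ∀ x ∈ Q, a * x * a⁻¹ ∈ Q) ∧ ¬ Q ≤ C₀} ⟨Q₀, q₀, hQ₀⟩
  haveI := Fact.mk hq
  have hproper : ∀ T : Subgroup G, T < Q → (∀ a ∈ (P : Subgroup G), ∀ x ∈ T, a * x * a⁻¹ ∈ T) →
      T ≤ C₀ := by
    intro T hT hTinv
    by_contra h
    exact hmin T ⟨q, hq, hT.le.trans hQN, hQp.to_le hT.le, hTinv, h⟩ hT
  have hC₀mem : ∀ {y : G}, y ∈ C₀ → ∀ a ∈ (P : Subgroup G), a * y * a⁻¹ = y := fun hy a ha => by
    rw [Subgroup.mem_centralizer_iff.mp hy a ha, mul_inv_cancel_right]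
  have hPN : ∀ z, z ∈ (P : Subgroup G) → z ∈ N → z = 1 := by
    intro z hz hzN
    obtain ⟨k, hk⟩ := P.isPGroup' ⟨z, hz⟩
    have hk' : z ^ p ^ k = 1 := by simpa using congrArg Subtype.val hk
    exact eq_one_of_coprime_pow (Nat.Coprime.pow_left k hcop.symm) hk'
      (pow_natCard_eq_one_of_mem hzN)
  -- trivial intersection: one nontrivial element centralizes only what `P` centralizes
  have hTI' : ∀ x ∈ (P : Subgroup G), x ≠ 1 → ∀ y ∈ Q, x * y = y * x → y ∈ C₀ := by
    intro x hx hx1 y hy hxy
    have hn := ti_mem_normalizer_of_commute hTI hx hx1 hxy.symm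
    rw [hC₀, Subgroup.mem_centralizer_iff]
    intro a ha
    have h1 : y * a * y⁻¹ * a⁻¹ ∈ (P : Subgroup G) :=
      mul_mem ((Subgroup.mem_normalizer_iff.mp hn a).mp ha) (inv_mem ha)
    have h2 : y * a * y⁻¹ * a⁻¹ ∈ N := by
      rw [show y * a * y⁻¹ * a⁻¹ = y * (a * y⁻¹ * a⁻¹) from by group]
      exact mul_mem (hQN hy) (hQN (hinv a ha _ (inv_mem hy)))
    have h := hPN _ h1 h2
    rw [← commutatorElement_def, commutatorElement_eq_one_iff_mul_comm] at h
    exact h.symm
  -- `Q` is generated by the commutators with `P`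
  set R := Subgroup.closure
    {z : G | ∃ a ∈ (P : Subgroup G), ∃ x ∈ Q, z = a * x * a⁻¹ * x⁻¹} with hR
  have hRQ : R = Q := by
    have hle : R ≤ Q := (Subgroup.closure_le _).mpr (by
      rintro _ ⟨a, ha, x, hx, rfl⟩
      exact mul_mem (hinv a ha x hx) (inv_mem hx))
    refine (eq_or_lt_of_le hle).resolve_right fun hlt => hQC ?_
    have hRinv : ∀ b ∈ (P : Subgroup G), ∀ x ∈ R, b * x * b⁻¹ ∈ R := by
      intro b hb x hx
      have : R ≤ R.comap (MulAut.conj b).toMonoidHom := (Subgroup.closure_le _).mpr (by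
        rintro _ ⟨a, ha, y, hy, rfl⟩
        show b * (a * y * a⁻¹ * y⁻¹) * b⁻¹ ∈ R
        rw [show b * (a * y * a⁻¹ * y⁻¹) * b⁻¹
          = ((b * a) * y * (b * a)⁻¹ * y⁻¹) * (b * y * b⁻¹ * y⁻¹)⁻¹ from by group]
        exact mul_mem (Subgroup.subset_closure ⟨_, mul_mem hb ha, y, hy, rfl⟩)
          (inv_mem (Subgroup.subset_closure ⟨_, hb, y, hy, rfl⟩)))
      exact this hx
    have hRC := hproper R hlt hRinv
    intro x hx
    rw [hC₀, Subgroup.mem_centralizer_iff]
    intro a ha
    obtain ⟨k, hk⟩ := P.isPGroup' ⟨a, ha⟩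
    have hk' : a ^ p ^ k = 1 := by simpa using congrArg Subtype.val hk
    have hcN : a * x * a⁻¹ * x⁻¹ ∈ N := hQN (mul_mem (hinv a ha x hx) (inv_mem hx))
    exact comm_eq_of_comm_commutator (m := p ^ k) (Nat.Coprime.pow_left k hcop.symm) hk'
      (pow_natCard_eq_one_of_mem hcN)
      (Subgroup.mem_centralizer_iff.mp (hRC (Subgroup.subset_closure ⟨a, ha, x, hx, rfl⟩)) a ha)
  -- the representation of `Q`
  set σ : Representation ℂ Q V := ρ.comp Q.subtype with hσ
  have hσinj : Function.Injective σ := hρ.comp Q.subtype_injective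
  have hnontriv : ∀ d : Q, d ≠ 1 → σ d ≠ 1 := fun d hd h => hd (hσinj (h.trans (map_one σ).symm))
  by_cases hab : IsMulCommutative Q
  · -- abelian case: `|P|` joint eigenvectors
    have hQcomm : ∀ u v : Q, u * v = v * u := fun u v => hab.is_comm.comm u v
    have hCbot : ∀ c ∈ Q, c ∈ C₀ → c = 1 := by
      intro c hc hcC
      letI : CommGroup Q := { (inferInstance : Group Q) with mul_comm := hQcomm }
      haveI : Fintype (P : Subgroup G) := Fintype.ofFinite _
      let f : Q →* Q :=
        { toFun := fun y => ∏ a : (P : Subgroup G), (⟨(a : G) * y * (a : G)⁻¹,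
            hinv a a.2 y y.2⟩ : Q)
          map_one' := Finset.prod_eq_one fun a _ => Subtype.ext (by simp)
          map_mul' := fun y z => by
            rw [← Finset.prod_mul_distrib]
            exact Finset.prod_congr rfl fun a _ => Subtype.ext (by simp [mul_assoc]) }
      have hfinv : ∀ (b : G) (hb : b ∈ (P : Subgroup G)) (y : Q),
          f ⟨b * y * b⁻¹, hinv b hb y y.2⟩ = f y := by
        intro b hb y
        refine Fintype.prod_equiv (Equiv.mulRight (⟨b, hb⟩ : (P : Subgroup G))) _ _ fun a => ?_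
        exact Subtype.ext (by simp [mul_assoc])
      have hker : ∀ y : Q, f y = 1 := by
        intro y
        have hK : R ≤ (f.ker).map Q.subtype := (Subgroup.closure_le _).mpr (by
          rintro _ ⟨a, ha, x, hx, rfl⟩
          refine ⟨⟨a * x * a⁻¹, hinv a ha x hx⟩ * (⟨x, hx⟩)⁻¹, ?_, rfl⟩
          rw [SetLike.mem_coe, MonoidHom.mem_ker, map_mul, map_inv, hfinv a ha ⟨x, hx⟩,
            mul_inv_cancel])
        obtain ⟨z, hz, hzy⟩ := hK (hRQ.symm.le y.2)
        rw [← Subtype.ext (a1 := z) (a2 := y) hzy]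
        exact hz
      have h1 : f ⟨c, hc⟩ = (⟨c, hc⟩ : Q) ^ Fintype.card (P : Subgroup G) := by
        refine (Finset.prod_congr rfl fun a _ => ?_).trans (by rw [Finset.prod_const]; rfl)
        exact Subtype.ext (hC₀mem hcC a a.2)
      rw [hker] at h1
      obtain ⟨k, hk⟩ := P.isPGroup'.exists_card_eq
      have h2 : (⟨c, hc⟩ : Q) ^ p ^ k = 1 := by
        rw [h1, ← hk, Nat.card_eq_fintype_card]
      have h2' : c ^ p ^ k = 1 := by simpa using congrArg Subtype.val h2
      exact eq_one_of_coprime_pow (Nat.Coprime.pow_left k hcop.symm) h2'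
        (pow_natCard_eq_one_of_mem (hQN hc))
    obtain ⟨y₀, hy₀, hy₀1⟩ : ∃ y ∈ Q, y ≠ 1 :=
      Q.bot_or_exists_ne_one.resolve_left (fun h => hQC (h ▸ bot_le))
    have hcen : (⊤ : Subgroup Q) ≤ Subgroup.center Q := fun u _ =>
      Subgroup.mem_center_iff.mpr fun v => hQcomm v u
    obtain ⟨W, μ, hW1, hWinv, hμ, d₀, -, hd₀⟩ := exists_invariant_scalar_subspace σ ⊤ ⊤ hcen le_rfl
      ⟨⟨y₀, hy₀⟩, trivial, hnontriv _ (fun h => hy₀1 (congrArg Subtype.val h))⟩
    obtain ⟨w, hw, hw0⟩ := W.exists_mem_ne_zero_of_ne_bot hW1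
    have hμmul : ∀ u v : Q, μ (u * v) = μ u * μ v := by
      intro u v
      have := hμ (u * v) trivial w hw
      rw [map_mul, Module.End.mul_apply, hμ v trivial w hw, map_smul, hμ u trivial w hw,
        smul_smul] at this
      exact smul_left_injective ℂ hw0 (by simpa [mul_comm] using this.symm)
    have hμ1 : ∀ u : Q, μ u ≠ 0 := by
      intro u h
      have := hμ (u⁻¹ * u) trivial w hw
      rw [hμmul, h, mul_zero, zero_smul, inv_mul_cancel, map_one] at this
      exact hw0 this
    let act : ↥(P : Subgroup G) → Q → Q := fun a u =>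
      ⟨(a : G)⁻¹ * u * (a : G), by simpa using hinv _ (inv_mem a.2) u u.2⟩
    have hLI : LinearIndependent ℂ (fun a : (P : Subgroup G) => ρ (a : G) w) := by
      refine linearIndependent_of_joint_eigen (fun u : Q => σ u) _
        (fun a u => μ (act a u)) (fun a h => hw0 ?_) (fun a u => ?_) ?_
      · have := congrArg (ρ (a : G)⁻¹) h
        rwa [← Module.End.mul_apply, ← map_mul, inv_mul_cancel, map_one, map_zero,
          Module.End.one_apply] at this
      · have h : ρ ((u : G) * (a : G)) w = ρ ((a : G) * ((act a u : Q) : G)) w := by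
          congr 2
          simp [act, mul_assoc]
        rw [map_mul, map_mul, Module.End.mul_apply, Module.End.mul_apply] at h
        exact h.trans (by rw [show ρ ((act a u : Q) : G) w = σ (act a u) w from rfl,
          hμ _ trivial w hw, map_smul])
      · intro a b hab'
        by_contra hne
        apply hd₀
        set x : (P : Subgroup G) := a⁻¹ * b with hxdef
        have hx1 : (x : G) ≠ 1 := fun h => hne (by
          have : x = 1 := Subtype.ext h
          rwa [hxdef, inv_mul_eq_one] at this)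
        have hfix : ∀ u : Q, μ (act x u) = μ u := by
          intro u
          have := congrFun hab' ⟨(a : G) * u * (a : G)⁻¹, hinv a a.2 u u.2⟩
          simp only at this
          rw [show act a ⟨_, hinv a a.2 u u.2⟩ = u from Subtype.ext (by simp [act, mul_assoc]),
            show act b ⟨_, hinv a a.2 u u.2⟩ = act x u from
              Subtype.ext (by simp [act, hxdef, mul_assoc])] at this
          exact this.symm
        let φ : Q → Q := fun u => act x u * u⁻¹
        have hφ : Function.Surjective φ := by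
          rw [← Finite.injective_iff_surjective]
          intro u v huv
          have huv' := congrArg Subtype.val huv
          simp only [φ, act, Subgroup.coe_mul, Subgroup.coe_inv] at huv'
          have hc : (u⁻¹ * v : Q) = (1 : Q) := by
            have hcomm2 : act x u⁻¹ * act x v = (u⁻¹ * v : Q) := by
              rw [show act x u⁻¹ = (act x u)⁻¹ from Subtype.ext (by simp [act, mul_assoc]),
                eq_comm, eq_inv_mul_iff_mul_eq]
              have e := congrArg (· * v) huv
              simp only [φ, mul_assoc, inv_mul_cancel, mul_one] at e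
              exact e
            refine Subtype.ext (hCbot _ (u⁻¹ * v).2 (hTI' x x.2 hx1 _ (u⁻¹ * v).2 ?_))
            have e : (x : G)⁻¹ * ((u⁻¹ * v : Q) : G) * (x : G) = ((u⁻¹ * v : Q) : G) := by
              conv_rhs => rw [← hcomm2]
              simp [act, mul_assoc]
            rw [mul_assoc, inv_mul_eq_iff_eq_mul] at e
            exact e.symm
          exact inv_mul_eq_one.mp hc
        obtain ⟨u, hu⟩ := hφ d₀
        rw [← hu]
        show μ (act x u * u⁻¹) = 1
        rw [hμmul, hfix, ← hμmul, mul_inv_cancel]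
        have := hμmul 1 1
        rw [one_mul] at this
        exact (mul_right_eq_self₀.mp this.symm).resolve_right (hμ1 1)
    haveI : Fintype (P : Subgroup G) := Fintype.ofFinite _
    have hle : Nat.card (P : Subgroup G) ≤ Module.finrank ℂ V := by
      rw [Nat.card_eq_fintype_card]
      exact hLI.fintype_card_le_finrank
    have hPne : 1 < Nat.card (P : Subgroup G) := by
      rw [Subgroup.one_lt_card_iff_ne_bot]
      intro h
      exact hQC (fun y _ => Subgroup.mem_centralizer_iff.mpr fun a ha => by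
        rw [h] at ha
        simp [Subgroup.mem_bot.mp ha])
    calc Nat.card (P : Subgroup G) < Nat.card (P : Subgroup G) ^ 2 := by
          rw [sq]; exact lt_mul_of_one_lt_left (by omega) hPne
      _ ≤ _ := Nat.pow_le_pow_left hle 2
  · -- nonabelian case: `|P| + 1` independent operators
    set Z : Subgroup Q := Subgroup.center Q with hZdef
    haveI : Group.IsNilpotent Q := hQp.isNilpotent
    have hZC : ∀ z ∈ Z, (z : G) ∈ C₀ := by
      have hlt : Z.map Q.subtype < Q := lt_of_le_of_ne (Subgroup.map_subtype_le _) (fun he =>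
        hab ⟨⟨fun u v => by
          obtain ⟨u', hu', hu''⟩ := he.symm.le u.2
          rw [← Subtype.ext (a1 := u') (a2 := u) hu'']
          exact (Subgroup.mem_center_iff.mp hu' v).symm⟩⟩)
      have := hproper _ hlt (by
        rintro a ha _ ⟨z, hz, rfl⟩
        refine ⟨⟨a * z * a⁻¹, hinv a ha z z.2⟩, Subgroup.mem_center_iff.mpr fun v => ?_, rfl⟩
        have h := congrArg Subtype.val (Subgroup.mem_center_iff.mp hz
          ⟨a⁻¹ * v * a, by simpa using hinv _ (inv_mem ha) v v.2⟩)
        simp only [Subgroup.coe_mul] at h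
        refine Subtype.ext ?_
        calc (v : G) * (a * z * a⁻¹) = a * ((a⁻¹ * v * a) * z) * a⁻¹ := by group
          _ = (a * z * a⁻¹) * v := by rw [h]; group)
      exact fun z hz => this ⟨z, hz, rfl⟩
    set D : Subgroup Q := commutator Q with hDdef
    haveI : Nontrivial Q := by
      by_contra h
      rw [not_nontrivial_iff_subsingleton] at h
      exact hab ⟨⟨fun u v => Subsingleton.elim _ _⟩⟩
    have hDC : ∀ z ∈ D, (z : G) ∈ C₀ := by
      have hlt : D.map Q.subtype < Q := lt_of_le_of_ne (Subgroup.map_subtype_le _) (fun he =>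
        (Group.IsSolvable.commutator_lt_top_of_nontrivial Q).ne
          (Subgroup.map_injective Q.subtype_injective (by
            rw [he, ← MonoidHom.range_eq_map, Subgroup.range_subtype])))
      have := hproper _ hlt (by
        intro a ha z hz
        rw [hDdef, Subgroup.map_subtype_commutator] at hz ⊢
        have : ⁅Q, Q⁆ ≤ (⁅Q, Q⁆ : Subgroup G).comap (MulAut.conj a).toMonoidHom := by
          rw [Subgroup.commutator_le]
          intro u hu v hv
          show a * ⁅u, v⁆ * a⁻¹ ∈ (⁅Q, Q⁆ : Subgroup G)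
          rw [show a * ⁅u, v⁆ * a⁻¹ = ⁅a * u * a⁻¹, a * v * a⁻¹⁆ from by
            simp only [commutatorElement_def]; group]
          exact Subgroup.commutator_mem_commutator (hinv a ha u hu) (hinv a ha v hv)
        exact this hz)
      exact fun z hz => this ⟨z, hz, rfl⟩
    -- `D` is central
    have hDZ : D ≤ Z := by
      intro c hc
      rw [hZdef, Subgroup.mem_center_iff]
      have hall : R ≤ ⨅ c : D, Subgroup.centralizer ({((c : Q) : G)} : Set G) := by
        refine (Subgroup.closure_le _).mpr ?_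
        rintro _ ⟨a, ha, x, hx, rfl⟩
        simp only [SetLike.mem_coe, Subgroup.mem_iInf]
        intro d
        rw [Subgroup.mem_centralizer_singleton_iff]
        have hd' : (⟨x, hx⟩⁻¹ * (d : Q) * ⟨x, hx⟩ : Q) ∈ D := by
          simpa using (inferInstance : D.Normal).conj_mem _ d.2 (⟨x, hx⟩⁻¹ : Q)
        have e1 := hC₀mem (hDC _ hd') a ha
        have e2 := hC₀mem (hDC _ d.2) a ha
        simp only [Subgroup.coe_mul, Subgroup.coe_inv] at e1
        set dg := ((d : Q) : G)
        have e3 : (a * x * a⁻¹)⁻¹ * dg * (a * x * a⁻¹) = x⁻¹ * dg * x := by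
          conv_lhs => rw [← e2]
          conv_rhs => rw [← e1]
          group
        have e4 : dg * (a * x * a⁻¹ * x⁻¹) = (a * x * a⁻¹) * ((a * x * a⁻¹)⁻¹ * dg *
            (a * x * a⁻¹)) * x⁻¹ := by group
        rw [e4, e3]
        group
      intro g
      refine Subtype.ext ?_
      have h := Subgroup.mem_iInf.mp (hall (hRQ.symm.le g.2)) ⟨c, hc⟩
      exact Subgroup.mem_centralizer_singleton_iff.mp h
    have hbil : ∀ c u v : Q, ⁅c, u * v⁆ = ⁅c, u⁆ * ⁅c, v⁆ := by
      intro c u v
      have hz : ⁅c, v⁆ ∈ Z := hDZ (Subgroup.commutator_mem_commutator trivial trivial)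
      calc ⁅c, u * v⁆ = ⁅c, u⁆ * (u * ⁅c, v⁆ * u⁻¹) := by
            simp only [commutatorElement_def]; group
        _ = ⁅c, u⁆ * ⁅c, v⁆ := by
            rw [Subgroup.mem_center_iff.mp hz u, mul_inv_cancel_right]
    -- `C_Q(P) ≤ Z(Q)`
    have hCZ : ∀ c : Q, (c : G) ∈ C₀ → c ∈ Z := by
      intro c hc
      rw [hZdef, Subgroup.mem_center_iff]
      have hall : R ≤ Subgroup.centralizer ({(c : G)} : Set G) := by
        refine (Subgroup.closure_le _).mpr ?_
        rintro _ ⟨a, ha, x, hx, rfl⟩
        rw [SetLike.mem_coe, Subgroup.mem_centralizer_singleton_iff]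
        have ec := hC₀mem hc a ha
        have ecx : ⁅c, (⟨x, hx⟩ : Q)⁆ ∈ D := Subgroup.commutator_mem_commutator trivial trivial
        have e1 := hC₀mem (hDC _ ecx) a ha
        have h2 : ⁅c, (⟨a * x * a⁻¹, hinv a ha x hx⟩ : Q)⁆ = ⁅c, (⟨x, hx⟩ : Q)⁆ := by
          refine Subtype.ext ?_
          refine Eq.trans ?_ e1
          show ⁅(c : G), a * x * a⁻¹⁆ = a * ⁅(c : G), x⁆ * a⁻¹
          conv_lhs => rw [← ec]
          simp only [commutatorElement_def]
          group
        have h3 := hbil c ⟨a * x * a⁻¹ * x⁻¹, mul_mem (hinv a ha x hx) (inv_mem hx)⟩ ⟨x, hx⟩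
        rw [show (⟨a * x * a⁻¹ * x⁻¹, _⟩ : Q) * ⟨x, hx⟩ = ⟨a * x * a⁻¹, hinv a ha x hx⟩ from
          Subtype.ext (by simp), h2, eq_comm, mul_eq_right] at h3
        rw [commutatorElement_eq_one_iff_mul_comm] at h3
        exact (congrArg Subtype.val h3).symm
      intro g
      refine Subtype.ext ?_
      exact Subgroup.mem_centralizer_singleton_iff.mp (hall (hRQ.symm.le g.2))
    obtain ⟨d₁, hd₁, hd₁1⟩ : ∃ d ∈ D, d ≠ 1 := D.bot_or_exists_ne_one.resolve_left (fun h =>
      hab ⟨⟨fun u v => by
        have : ⁅u, v⁆ ∈ D := Subgroup.commutator_mem_commutator trivial trivial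
        rw [h, Subgroup.mem_bot, commutatorElement_eq_one_iff_mul_comm] at this
        exact this⟩⟩)
    obtain ⟨W, μ, hW1, hWinv, hμ, d₀, hd₀, hd₀1⟩ :=
      exists_invariant_scalar_subspace σ Z D le_rfl hDZ ⟨d₁, hd₁, hnontriv _ hd₁1⟩
    obtain ⟨w, hw, hw0⟩ := W.exists_mem_ne_zero_of_ne_bot hW1
    have hμmul : ∀ u ∈ Z, ∀ v ∈ Z, μ (u * v) = μ u * μ v := by
      intro u hu v hv
      have := hμ (u * v) (mul_mem hu hv) w hw
      rw [map_mul, Module.End.mul_apply, hμ v hv w hw, map_smul, hμ u hu w hw, smul_smul] at this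
      exact smul_left_injective ℂ hw0 (by simpa [mul_comm] using this.symm)
    have hμone : μ 1 = 1 := by
      have := hμ 1 (one_mem _) w hw
      rw [map_one, Module.End.one_apply] at this
      exact smul_left_injective ℂ hw0 (by simpa using this.symm)
    have hcommZ : ∀ u v : Q, ⁅u, v⁆ ∈ Z :=
      fun u v => hDZ (Subgroup.commutator_mem_commutator trivial trivial)
    -- the radical of the form is `Z`
    let Rad : Subgroup Q :=
      { carrier := {t | ∀ y : Q, μ ⁅y, t⁆ = 1}
        one_mem' := fun y => by simp [hμone]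
        mul_mem' := fun {s t} hs ht y => by
          rw [hbil, hμmul _ (hcommZ _ _) _ (hcommZ _ _), hs y, ht y, one_mul]
        inv_mem' := fun {t} ht y => by
          have := hbil y t t⁻¹
          rw [mul_inv_cancel, commutatorElement_one_right] at this
          have h2 := hμmul _ (hcommZ y t) _ (hcommZ y t⁻¹)
          rw [← this, hμone, ht y, one_mul] at h2
          exact h2.symm }
    have hRadinv : ∀ a ∈ (P : Subgroup G), ∀ x ∈ Rad.map Q.subtype,
        a * x * a⁻¹ ∈ Rad.map Q.subtype := by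
      rintro a ha _ ⟨t, ht, rfl⟩
      refine ⟨⟨a * t * a⁻¹, hinv a ha t t.2⟩, ?_, rfl⟩
      intro y
      set y' : Q := ⟨a⁻¹ * y * a, by simpa using hinv _ (inv_mem ha) y y.2⟩ with hy'
      have hmem : ⁅y', t⁆ ∈ D := Subgroup.commutator_mem_commutator trivial trivial
      have : ⁅y, (⟨a * t * a⁻¹, hinv a ha t t.2⟩ : Q)⁆ = ⁅y', t⁆ := by
        refine Subtype.ext ?_
        refine Eq.trans ?_ (hC₀mem (hDC _ hmem) a ha)
        show ⁅(y : G), a * (t : G) * a⁻¹⁆ = a * ⁅a⁻¹ * (y : G) * a, (t : G)⁆ * a⁻¹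
        simp only [commutatorElement_def]
        group
      rw [this]
      exact ht y'
    have hRadlt : Rad.map Q.subtype < Q := lt_of_le_of_ne (Subgroup.map_subtype_le _) (fun he => by
      refine hd₀1 ?_
      have hall : ∀ t : Q, t ∈ Rad := fun t => by
        obtain ⟨t', ht', he'⟩ := he.symm.le t.2
        rwa [← Subtype.ext he']
      let K : Subgroup Q :=
        { carrier := {d | d ∈ Z ∧ μ d = 1}
          one_mem' := ⟨one_mem _, hμone⟩
          mul_mem' := fun {u v} hu hv => ⟨mul_mem hu.1 hv.1, by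
            rw [hμmul _ hu.1 _ hv.1, hu.2, hv.2, one_mul]⟩
          inv_mem' := fun {u} hu => ⟨inv_mem hu.1, by
            have := hμmul _ hu.1 _ (inv_mem hu.1)
            rw [mul_inv_cancel, hμone, hu.2, one_mul] at this
            exact this.symm⟩ }
      have : D ≤ K := by
        rw [hDdef, commutator_def, Subgroup.commutator_le]
        exact fun u _ v _ => ⟨hcommZ u v, hall v u⟩
      exact (this hd₀).2)
    have hRadC := hproper _ hRadlt hRadinv
    have hRadZ : ∀ t ∈ Rad, t ∈ Z := fun t ht => hCZ t (hRadC ⟨t, ht, rfl⟩)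
    obtain ⟨u, hu⟩ : ∃ u : Q, u ∉ Z := by
      by_contra h
      push Not at h
      exact hab ⟨⟨fun u v => (Subgroup.mem_center_iff.mp (h v) u)⟩⟩
    let t : Option (P : Subgroup G) → Q := fun o => o.elim 1 (fun a =>
      ⟨(a : G) * u * (a : G)⁻¹, hinv a a.2 u u.2⟩)
    have hinj : ∀ o o' : Option (P : Subgroup G), t o * (t o')⁻¹ ∈ Z → o = o' := by
      have hone : ∀ a : (P : Subgroup G), t (some a) ∉ Z := by
        intro a h
        refine hu (hCZ u ?_)
        have h' := hZC _ h
        have := hC₀mem h' (a : G)⁻¹ (inv_mem a.2)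
        simp only [t, Option.elim_some, inv_inv] at this
        rw [show ((u : Q) : G) = (a : G)⁻¹ * ((a : G) * u * (a : G)⁻¹) * (a : G) from by group,
          this]
        exact h'
      rintro (_ | a) (_ | b) h
      · rfl
      · exact absurd (by simpa [t] using inv_mem h) (hone b)
      · exact absurd (by simpa [t] using h) (hone a)
      · by_contra hne
        set x : G := (b : G)⁻¹ * a with hx
        have hxP : x ∈ (P : Subgroup G) := mul_mem (inv_mem b.2) a.2
        have hx1 : x ≠ 1 := fun he => hne (congrArg some (Subtype.ext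
          (inv_mul_eq_one.mp he).symm))
        have h' := hC₀mem (hZC _ h) (b : G)⁻¹ (inv_mem b.2)
        have hcC : x * u * x⁻¹ * (u : G)⁻¹ ∈ C₀ := by
          have hz := hZC _ h
          have e : x * u * x⁻¹ * (u : G)⁻¹ =
              (b : G)⁻¹ * ((t (some a) * (t (some b))⁻¹ : Q) : G) * ((b : G)⁻¹)⁻¹ := by
            simp [t, hx, mul_assoc]
          rw [e, h']
          exact hz
        obtain ⟨k, hk⟩ := P.isPGroup' ⟨x, hxP⟩
        have hk' : x ^ p ^ k = 1 := by simpa using congrArg Subtype.val hk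
        have hcN : x * u * x⁻¹ * (u : G)⁻¹ ∈ N :=
          hQN (mul_mem (hinv x hxP u u.2) (inv_mem u.2))
        have hxu := comm_eq_of_comm_commutator (m := p ^ k) (Nat.Coprime.pow_left k hcop.symm) hk'
          (pow_natCard_eq_one_of_mem hcN)
          (Subgroup.mem_centralizer_iff.mp hcC x hxP)
        exact hu (hCZ u (hTI' x hxP hx1 u u.2 hxu))
    let T : Option (P : Subgroup G) → (W →ₗ[ℂ] W) := fun o => (σ (t o)).restrict (hWinv _)
    let F : Q → (W →ₗ[ℂ] W) →ₗ[ℂ] (W →ₗ[ℂ] W) := fun y =>
      { toFun := fun S => ((σ y).restrict (hWinv y)).comp (S.comp ((σ y⁻¹).restrict (hWinv y⁻¹)))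
        map_add' := fun S S' => by ext; simp
        map_smul' := fun r S => by ext; simp }
    have hLI : LinearIndependent ℂ T := by
      refine linearIndependent_of_joint_eigen F T (fun o y => μ ⁅y, t o⁆) (fun o h => ?_)
        (fun o y => ?_) ?_
      · have h' := congrArg Subtype.val (LinearMap.congr_fun h ⟨w, hw⟩)
        simp only [T, LinearMap.restrict_apply, LinearMap.zero_apply, ZeroMemClass.coe_zero] at h'
        have := congrArg (σ (t o)⁻¹) h'
        rw [← Module.End.mul_apply, ← map_mul, inv_mul_cancel, map_one, map_zero,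
          Module.End.one_apply] at this
        exact hw0 this
      · ext v
        show σ y (σ (t o) (σ y⁻¹ (v : V))) = μ ⁅y, t o⁆ • σ (t o) (v : V)
        rw [← Module.End.mul_apply, ← Module.End.mul_apply, ← map_mul, ← map_mul,
          show y * t o * y⁻¹ = ⁅y, t o⁆ * t o from by rw [commutatorElement_def]; group,
          map_mul, Module.End.mul_apply, hμ _ (hcommZ _ _) _ (hWinv _ v v.2)]
      · intro o o' h
        refine hinj o o' (hRadZ _ fun y => ?_)
        have h1 := congrFun h y
        simp only at h1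
        have hb := hbil y (t o * (t o')⁻¹) (t o')
        rw [inv_mul_cancel_right] at hb
        have h2 := hμmul _ (hcommZ y (t o * (t o')⁻¹)) _ (hcommZ y (t o'))
        rw [← hb, h1] at h2
        have hne : μ ⁅y, t o'⁆ ≠ 0 := by
          intro h0
          have hm := hμ _ (hcommZ y (t o')) w hw
          rw [h0, zero_smul] at hm
          exact hw0 (by
            have := congrArg (σ ⁅y, t o'⁆⁻¹) hm
            rwa [← Module.End.mul_apply, ← map_mul, inv_mul_cancel, map_one, map_zero,
              Module.End.one_apply] at this)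
        exact (mul_eq_right₀ hne).mp h2.symm
    haveI : Fintype (P : Subgroup G) := Fintype.ofFinite _
    have hle := hLI.fintype_card_le_finrank
    rw [Fintype.card_option, Module.finrank_linearMap] at hle
    rw [Nat.card_eq_fintype_card, sq]
    exact lt_of_lt_of_le (Nat.lt_succ_self _)
      (hle.trans (Nat.mul_le_mul (Submodule.finrank_le W) (Submodule.finrank_le W)))

end Cfsg.Agent.H44
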