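import Mathlib
import Cfsg.Agent.H44.TwoClass

/-!
# Inertia groups of the characters of the kernel of a two-class character
-/

set_option autoImplicit false
open scoped ComplexConjugate commutatorElement

namespace Cfsg.Agent.H44

variable {G : Type*} [Group G] [Finite G] {χ : Cfsg.IrrCharacter G} {N : Subgroup G} {g : G}

/-- The inertia group of a nonprincipal character of `N` is a Sylow `p`-subgroup. -/
theorem TwoClassData.exists_sylow_inertia (d : TwoClassData χ N g) {p : ℕ} [Fact p.Prime]
    [N.Normal] (hpN : IsPGroup p N) (μ : Cfsg.IrrCharacter N) (hμ : μ.1 ≠ fun _ => (1 : ℂ)) :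
    ∃ P : Sylow p G, ∀ x : G, x ∈ (P : Subgroup G) ↔
      ∀ n n' : N, (n' : G) = x * n * x⁻¹ → μ.1 n' = μ.1 n := by
  classical
  haveI := Fintype.ofFinite G
  haveI := Fintype.ofFinite N
  obtain ⟨p', hp', hcomm, -, -⟩ := d.elementary
  let act : G → Cfsg.IrrCharacter N → Cfsg.IrrCharacter N := fun x φ =>
    ⟨fun n => φ.1 ((MulAut.conjNormal x⁻¹ : MulAut N) n),
      isIrrCharacter_comp_surjective (MulAut.conjNormal x⁻¹ : MulAut N).toMonoidHom
        (MulAut.conjNormal x⁻¹ : MulAut N).surjective φ.2⟩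
  letI : MulAction G (Cfsg.IrrCharacter N) :=
    { smul := act
      one_smul := fun φ => Subtype.ext (funext fun n => by
        show φ.1 ((MulAut.conjNormal (1 : G)⁻¹ : MulAut N) n) = φ.1 n
        simp)
      mul_smul := fun x y φ => Subtype.ext (funext fun n => by
        show φ.1 ((MulAut.conjNormal (x * y)⁻¹ : MulAut N) n) =
          φ.1 ((MulAut.conjNormal y⁻¹ : MulAut N) ((MulAut.conjNormal x⁻¹ : MulAut N) n))
        simp [mul_inv_rev, map_mul]) }
  have hsmul : ∀ (x : G) (φ : Cfsg.IrrCharacter N) (n : N),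
      (x • φ).1 n = φ.1 ((MulAut.conjNormal x⁻¹ : MulAut N) n) := fun _ _ _ => rfl
  have hlin : ∀ φ : Cfsg.IrrCharacter N, φ.1 1 = 1 := by
    intro φ
    rw [irr_one_eq_one_iff, commutator_def, Subgroup.commutator_le]
    intro a _ b _
    rw [show ⁅a, b⁆ = 1 from commutatorElement_eq_one_iff_mul_comm.mpr (hcomm.is_comm.comm a b)]
    exact one_mem _
  have hg : g ∈ N := (d.mem_iff g).mpr (Or.inr (IsConj.refl g))
  -- the orbit sum is constant on the non-identity elements
  set O : Finset (Cfsg.IrrCharacter N) := Finset.univ.filter fun φ => φ ∈ MulAction.orbit G μ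
    with hO
  set f : N → ℂ := ∑ φ ∈ O, φ.1 with hf
  have hfinv : ∀ (x : G) (n : N), f ((MulAut.conjNormal x⁻¹ : MulAut N) n) = f n := by
    intro x n
    rw [hf, Finset.sum_apply, Finset.sum_apply]
    refine Finset.sum_equiv (MulAction.toPerm x) (fun φ => ?_) (fun φ _ => (hsmul x φ n).symm)
    simp only [hO, Finset.mem_filter, Finset.mem_univ, true_and, MulAction.toPerm_apply]
    rw [← MulAction.orbit_eq_iff, ← MulAction.orbit_eq_iff (a := x • φ), MulAction.orbit_smul]
  have hfconst : ∀ n : N, n ≠ 1 → f n = f ⟨g, hg⟩ := by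
    intro n hn
    obtain ⟨c, hc⟩ := isConj_iff.mp (d.isConj_of_mem hg n.2 d.ne_one (fun h => hn (Subtype.ext h)))
    rw [← hfinv c n]
    congr 1
    refine Subtype.ext ?_
    rw [MulAut.conjNormal_apply, ← hc]
    group
  have hinner : ∀ φ : Cfsg.IrrCharacter N, φ.1 ≠ (fun _ => (1 : ℂ)) →
      Cfsg.classInner f φ.1 = (Nat.card N : ℂ)⁻¹ * (f 1 - f ⟨g, hg⟩) := by
    intro φ hφ
    rw [Cfsg.classInner]
    congr 1
    have h0 := H26.classInner_irr (H26.oneIrr N) φ
    rw [if_neg (fun e => hφ (by rw [← e]; exact funext H26.oneIrr_val)), Cfsg.classInner,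
      mul_eq_zero] at h0
    have h0' := h0.resolve_left (inv_ne_zero (Nat.cast_ne_zero.mpr Nat.card_pos.ne'))
    simp only [H26.oneIrr_val, one_mul] at h0'
    have hterm : ∀ n : N, f n * conj (φ.1 n) =
        (if n = 1 then f 1 - f ⟨g, hg⟩ else 0) + f ⟨g, hg⟩ * conj (φ.1 n) := by
      intro n
      split_ifs with h
      · subst h
        rw [hlin φ, map_one]
        ring
      · rw [hfconst n h, zero_add]
    rw [Finset.sum_congr rfl fun n _ => hterm n, Finset.sum_add_distrib,
      Finset.sum_ite_eq', if_pos (Finset.mem_univ _), ← Finset.mul_sum, h0', mul_zero, add_zero]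
  have hval : ∀ φ : Cfsg.IrrCharacter N,
      Cfsg.classInner f φ.1 = if φ ∈ O then 1 else 0 := by
    intro φ
    rw [hf, H26.classInner_sum_left]
    simp only [H26.classInner_irr]
    rw [Finset.sum_ite_eq' O φ (fun _ => (1 : ℂ))]
  have hμO : μ ∈ O := Finset.mem_filter.mpr ⟨Finset.mem_univ _, MulAction.mem_orbit_self μ⟩
  have hOall : O = Finset.univ.filter (fun φ : Cfsg.IrrCharacter N => φ ≠ H26.oneIrr N) := by
    refine Finset.ext fun φ => Iff.trans ?_ Finset.mem_filter.symm
    refine ⟨fun h => ⟨Finset.mem_univ _, fun e => ?_⟩, fun ⟨_, h⟩ => ?_⟩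
    · subst e
      obtain ⟨x, hx⟩ := (Finset.mem_filter.mp h).2
      apply hμ
      have hx' : x⁻¹ • H26.oneIrr N = μ := by
        have hx2 : x • μ = H26.oneIrr N := hx
        rw [← hx2, inv_smul_smul]
      rw [← hx']
      funext n
      rw [hsmul, H26.oneIrr_val]
    · by_contra hφ
      have h1 := hinner φ (fun e => h (Subtype.ext (e.trans (funext H26.oneIrr_val).symm)))
      have h2 := hinner μ hμ
      rw [hval φ, if_neg hφ] at h1
      rw [hval μ, if_pos hμO, ← h1] at h2
      exact one_ne_zero h2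
  have hcardO : Nat.card (MulAction.orbit G μ) = Nat.card N - 1 := by
    rw [Nat.card_coe_set_eq, Set.ncard_eq_toFinset_card']
    rw [show (MulAction.orbit G μ).toFinset = O by ext; simp [hO], hOall, Finset.filter_ne',
      Finset.card_erase_of_mem (Finset.mem_univ _), Finset.card_univ, ← Nat.card_eq_fintype_card,
      H26.card_irr_eq_card_conjClasses]
    congr 1
    haveI := hcomm
    exact (Nat.card_congr (Equiv.ofBijective (ConjClasses.mk : N → ConjClasses N)
      ⟨fun a b h => by
        obtain ⟨c, hc⟩ := isConj_iff.mp (ConjClasses.mk_eq_mk_iff_isConj.mp h)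
        rw [← hc, hcomm.is_comm.comm c a, mul_inv_cancel_right], fun C => C.exists_rep⟩)).symm
  obtain ⟨P, hP⟩ := d.exists_sylow_centralizer hpN hg d.ne_one
  have hgc : Nat.card {h : G // IsConj g h} = Nat.card N - 1 := by
    rw [Nat.card_congr (Equiv.subtypeEquivRight (p := IsConj g) (q := fun h => h ∈ N ∧ h ≠ 1)
      fun h => ⟨fun hh => ⟨(d.mem_iff h).mpr (Or.inr hh),
        fun e => d.ne_one (isConj_one_left.mp (e ▸ hh))⟩,
        fun hh => ((d.mem_iff h).mp hh.1).resolve_left hh.2⟩),
      Nat.card_eq_fintype_card, Fintype.card_subtype,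
      show Finset.univ.filter (fun h : G => h ∈ N ∧ h ≠ 1) =
        (Finset.univ.filter fun h : G => h ∈ N).erase 1 by ext; simp [and_comm],
      Finset.card_erase_of_mem (Finset.mem_filter.mpr ⟨Finset.mem_univ _, N.one_mem⟩),
      Nat.card_eq_fintype_card, Fintype.card_subtype]
  set T := MulAction.stabilizer G μ with hT
  have hTcard : Nat.card T = Nat.card (P : Subgroup G) := by
    have h1 := MulAction.card_orbit_mul_card_stabilizer_eq_card_group G μ
    have h2 := card_isConj_mul_card_centralizer g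
    simp only [← Nat.card_eq_fintype_card] at h1
    rw [hcardO, ← h2, hgc, hP] at h1
    refine Nat.eq_of_mul_eq_mul_left ?_ h1
    haveI := N.nontrivial_iff_ne_bot.mpr d.ne_bot
    have := Finite.one_lt_card (α := N)
    omega
  refine ⟨Sylow.ofCard T (by rw [hTcard, P.card_eq_multiplicity]), fun x => ?_⟩
  rw [Sylow.coe_ofCard, hT, MulAction.mem_stabilizer_iff]
  constructor
  · intro hx n n' hn'
    have h := congrFun (congrArg Subtype.val hx) n'
    rw [hsmul] at h
    rw [← h]
    refine congrArg μ.1 (Subtype.ext ?_)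
    rw [MulAut.conjNormal_apply, hn']
    group
  · intro hx
    refine Subtype.ext (funext fun n => ?_)
    rw [hsmul]
    refine (hx _ n ?_).symm
    rw [MulAut.conjNormal_apply]
    group

end Cfsg.Agent.H44
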