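import Mathlib
import Cfsg.Agent.H44.OrbitSums
import Cfsg.Agent.H27.Permutation

/-!
# A normal `p`-complement and one irreducible degree divisible by `p`
-/

set_option autoImplicit false
open scoped ComplexConjugate Pointwise

namespace Cfsg.Agent.H44

variable {G : Type*} [Group G] [Finite G] {p : ℕ} [hp : Fact p.Prime]
  (N : Subgroup G) [N.Normal]

theorem twist_eq_comp (θ : N → ℂ) (g : G) :
    H56.twist N θ g = θ ∘ (MulAut.conjNormal g : MulAut N) :=
  funext fun x => congrArg θ (Subtype.ext (MulAut.conjNormal_apply g x).symm)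

/-- The irreducible characters of `N` as permuted by an element of `G`. -/
noncomputable def irrPerm (g : G) : Equiv.Perm (Cfsg.IrrCharacter N) where
  toFun θ := ⟨θ.1 ∘ (MulAut.conjNormal g : MulAut N), H27.isIrrCharacter_comp_mulEquiv _ θ.2⟩
  invFun θ :=
    ⟨θ.1 ∘ (MulAut.conjNormal g : MulAut N).symm, H27.isIrrCharacter_comp_mulEquiv _ θ.2⟩
  left_inv θ := Subtype.ext (funext fun x => by simp)
  right_inv θ := Subtype.ext (funext fun x => by simp)

theorem irrPerm_val (g : G) (θ : Cfsg.IrrCharacter N) :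
    (irrPerm N g θ).1 = H56.twist N θ.1 g := (twist_eq_comp N θ.1 g).symm

theorem irrPerm_pow (g : G) (i : ℕ) (θ : Cfsg.IrrCharacter N) :
    ((irrPerm N g ^ i) θ).1 = H56.twist N θ.1 (g ^ i) := by
  induction i with
  | zero => simp [H56.twist_one]
  | succ i ih => rw [pow_succ', Equiv.Perm.mul_apply, irrPerm_val, ih, H56.twist_twist, pow_succ]

/-- The size of a class is the index of a centralizer. -/
theorem card_carrier_eq_index (g : G) :
    Nat.card (ConjClasses.mk g).carrier = (Subgroup.centralizer ({g} : Set G)).index := by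
  rw [H25.index_centralizer_eq_card_class]
  refine Nat.card_congr (Equiv.subtypeEquivRight fun x => ?_)
  rw [ConjClasses.mem_carrier_iff_mk_eq, ConjClasses.mk_eq_mk_iff_isConj]
  exact ⟨IsConj.symm, IsConj.symm⟩

/-- If a subgroup and a normal complement of coprime order generate, the normal complement
together with any subgroup containing the complement is everything. -/
theorem sup_eq_top_of_index_pow (P : Sylow p G) (hidx : ∃ k, N.index = p ^ k) :
    (P : Subgroup G) ⊔ N = ⊤ := by
  obtain ⟨k, hk⟩ := hidx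
  refine Subgroup.index_eq_one.mp (Nat.eq_one_of_dvd_coprimes (a := (P : Subgroup G).index)
    (b := p ^ k) ?_ (Subgroup.index_dvd_of_le le_sup_left)
    (hk ▸ Subgroup.index_dvd_of_le le_sup_right))
  exact Nat.Coprime.pow_right k (hp.out.coprime_iff_not_dvd.mpr P.not_dvd_index).symm

/-- A Sylow subgroup centralizing a normal complement gives two singular degrees unless the
group is nilpotent. -/
theorem false_of_centralizes (hN : (Nat.card N).Coprime p) (P : Sylow p G)
    (hsup : (P : Subgroup G) ⊔ N = ⊤) (hnil : ¬ Group.IsNilpotent G)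
    (hone : Nat.card {χ : Cfsg.IrrCharacter G // p ∣ Cfsg.charDegree (χ : G → ℂ)} = 1)
    (hc : N ≤ Subgroup.centralizer ((P : Subgroup G) : Set G)) : False := by
  classical
  haveI := Fintype.ofFinite G
  have hcomm : ∀ u ∈ (P : Subgroup G), ∀ n ∈ N, u * n = n * u := fun u hu n hn =>
    Subgroup.mem_centralizer_iff.mp (hc hn) u hu
  haveI hPn : (P : Subgroup G).Normal := by
    rw [← Subgroup.normalizer_eq_top_iff, eq_top_iff, ← hsup]
    exact sup_le Subgroup.le_normalizer (hc.trans (Subgroup.centralizer_le_normalizer _))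
  have hdisj : ∀ x ∈ (P : Subgroup G), x ∈ N → x = 1 := by
    intro x hx hxN
    obtain ⟨i, hi⟩ := P.isPGroup' ⟨x, hx⟩
    refine orderOf_eq_one_iff.mp (Nat.eq_one_of_dvd_coprimes (hN.pow_right i)
      (Subgroup.orderOf_dvd_natCard _ hxN) (orderOf_dvd_of_pow_eq_one ?_))
    exact congrArg Subtype.val hi
  haveI : Subsingleton {χ : Cfsg.IrrCharacter G // p ∣ Cfsg.charDegree (χ : G → ℂ)} :=
    (Nat.card_eq_one_iff_unique.mp hone).1
  obtain ⟨χ₀, hχ₀⟩ : Nonempty {χ : Cfsg.IrrCharacter G // p ∣ Cfsg.charDegree (χ : G → ℂ)} :=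
    (Nat.card_eq_one_iff_unique.mp hone).2
  have hbij : Function.Bijective fun x : ↥(P : Subgroup G) × N => (x.1 : G) * x.2 := by
    refine ⟨fun x y h => ?_, fun g => ?_⟩
    · have h' : (y.1 : G)⁻¹ * x.1 = y.2 * (x.2 : G)⁻¹ := by
        rw [eq_mul_inv_iff_mul_eq, mul_assoc, show (x.1 : G) * x.2 = y.1 * y.2 from h,
          inv_mul_cancel_left]
      have h1 := hdisj _ ((P : Subgroup G).mul_mem ((P : Subgroup G).inv_mem y.1.2) x.1.2)
        (h' ▸ N.mul_mem y.2.2 (N.inv_mem x.2.2))
      have ha : (x.1 : G) = y.1 := (inv_mul_eq_one.mp h1).symm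
      have hb : (x.2 : G) = y.2 := by
        have h3 : (x.1 : G) * x.2 = y.1 * y.2 := h
        rw [ha] at h3
        exact mul_left_cancel h3
      exact Prod.ext (Subtype.ext ha) (Subtype.ext hb)
    · have hg : g ∈ (P : Subgroup G) ⊔ N := hsup ▸ Subgroup.mem_top g
      obtain ⟨a, ha, b, hb, rfl⟩ := Subgroup.mem_sup_of_normal_right.mp hg
      exact ⟨(⟨a, ha⟩, ⟨b, hb⟩), rfl⟩
  let f : ↥(P : Subgroup G) × N →* G :=
    { toFun := fun x => (x.1 : G) * x.2
      map_one' := by simp
      map_mul' := fun x y => by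
        have := hcomm y.1 y.1.2 x.2 x.2.2
        simp only [Prod.fst_mul, Prod.snd_mul, Subgroup.coe_mul]
        rw [mul_assoc (x.1 : G) (y.1 : G), ← mul_assoc (y.1 : G) (x.2 : G), this, mul_assoc,
          mul_assoc] }
  let e : ↥(P : Subgroup G) × N ≃* G := MulEquiv.ofBijective f hbij
  have hirr : ∀ (φ : Cfsg.IrrCharacter ↥(P : Subgroup G)) (θ : Cfsg.IrrCharacter N),
      ∃ χ : Cfsg.IrrCharacter G, (∀ x, χ.1 (e x) = φ.1 x.1 * θ.1 x.2) ∧
        Cfsg.charDegree (χ : G → ℂ) =
          Cfsg.charDegree (φ : ↥(P : Subgroup G) → ℂ) * Cfsg.charDegree (θ : N → ℂ) := by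
    intro φ θ
    have h := (H27.isIrrCharacter_prod_iff (G := ↥(P : Subgroup G)) (H := N) _).mpr
      ⟨φ.1, θ.1, φ.2, θ.2, rfl⟩
    refine ⟨⟨_, isIrrCharacter_comp_surjective e.symm.toMonoidHom e.symm.surjective h⟩,
      fun x => by simp, ?_⟩
    rw [← Nat.cast_inj (R := ℂ), Nat.cast_mul, cast_charDegree, cast_charDegree, cast_charDegree]
    simp
  by_cases hab : ∀ φ : Cfsg.IrrCharacter ↥(P : Subgroup G), φ.1 1 = 1
  · obtain ⟨n, ρ, hρ, he⟩ := χ₀.2
    haveI := hρ
    have hcomm' := H26.comm_iff_forall_irr_one.mpr hab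
    have h := S0169.result ρ (P : Subgroup G)
      (fun a ha b hb => congrArg Subtype.val (hcomm' ⟨a, ha⟩ ⟨b, hb⟩))
    rw [Module.finrank_fin_fun] at h
    have hd : Cfsg.charDegree (χ₀ : G → ℂ) = n := by simp [Cfsg.charDegree, ← he]
    exact P.not_dvd_index ((hd ▸ hχ₀).trans h)
  push Not at hab
  obtain ⟨φ, hφ⟩ := hab
  have hφp := (dvd_degree_iff_of_pGroup P.isPGroup' φ).mpr hφ
  haveI : Nontrivial N := by
    by_contra hcon
    rw [not_nontrivial_iff_subsingleton] at hcon
    have hNb : N = ⊥ := Subgroup.eq_bot_of_subsingleton N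
    rw [hNb, sup_bot_eq] at hsup
    exact hnil (IsPGroup.of_equiv P.isPGroup' ((MulEquiv.subgroupCongr hsup).trans
      Subgroup.topEquiv)).isNilpotent
  have h2 : 1 < Nat.card (Cfsg.IrrCharacter N) := by
    haveI := Fintype.ofFinite N
    by_contra hle
    have h1 : Nat.card N = 1 := by
      rw [← sum_charDegree_sq]
      haveI : Subsingleton (Cfsg.IrrCharacter N) :=
        Finite.card_le_one_iff_subsingleton.mp (not_lt.mp hle)
      rw [Fintype.sum_subsingleton _ (H26.oneIrr N), charDegree_oneIrr, one_pow]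
    exact (Finite.one_lt_card (α := N)).ne' h1
  rw [Finite.one_lt_card_iff_nontrivial] at h2
  obtain ⟨θ, hθ⟩ := exists_ne (H26.oneIrr N)
  obtain ⟨χ₁, hχ₁, hd₁⟩ := hirr φ θ
  obtain ⟨χ₂, hχ₂, hd₂⟩ := hirr φ (H26.oneIrr N)
  have heq : χ₁ = χ₂ := congrArg Subtype.val (Subsingleton.elim
    (⟨χ₁, by rw [hd₁]; exact hφp.mul_right _⟩ :
      {χ : Cfsg.IrrCharacter G // p ∣ Cfsg.charDegree (χ : G → ℂ)})
    ⟨χ₂, by rw [hd₂]; exact hφp.mul_right _⟩)
  refine hθ (Subtype.ext (funext fun n => ?_))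
  have h := hχ₁ (1, n)
  rw [heq, hχ₂] at h
  exact (mul_left_cancel₀ (H26.irr_one_ne_zero φ) h).symm

/-- A class has size prime to `p` exactly when its centralizer covers the quotient by the normal
complement. -/
theorem not_dvd_index_centralizer_iff (hN : (Nat.card N).Coprime p)
    (hidx : ∃ k, N.index = p ^ k) (g : G) :
    ¬ p ∣ (Subgroup.centralizer ({g} : Set G)).index ↔
      Subgroup.centralizer ({g} : Set G) ⊔ N = ⊤ := by
  obtain ⟨k, hk⟩ := hidx
  constructor
  · intro h
    refine Subgroup.index_eq_one.mp (Nat.eq_one_of_dvd_coprimes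
      (a := (Subgroup.centralizer ({g} : Set G)).index) (b := p ^ k) ?_
      (Subgroup.index_dvd_of_le le_sup_left) (hk ▸ Subgroup.index_dvd_of_le le_sup_right))
    exact Nat.Coprime.pow_right k (hp.out.coprime_iff_not_dvd.mpr h).symm
  · intro h hd
    set C := Subgroup.centralizer ({g} : Set G)
    have h1 : N.relIndex C = N.index := by
      rw [← Subgroup.relIndex_sup_right, h, Subgroup.relIndex_top_right]
    have h2 : p ^ k ∣ Nat.card C := hk ▸ h1 ▸ Subgroup.relIndex_dvd_card N C
    obtain ⟨m, hm⟩ := h2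
    have h3 : C.index * m = Nat.card N := by
      refine Nat.eq_of_mul_eq_mul_left (pow_pos hp.out.pos k) ?_
      calc p ^ k * (C.index * m) = Nat.card C * C.index := by rw [hm]; ring
        _ = Nat.card N * N.index := by rw [C.card_mul_index, N.card_mul_index]
        _ = p ^ k * Nat.card N := by rw [hk, mul_comm]
    exact (hp.out.coprime_iff_not_dvd.mp hN.symm) (hd.trans (Dvd.intro m h3))

/-- Splitting off the `p`-part of an element outside the normal complement. -/
theorem exists_conj_mul (hN : (Nat.card N).Coprime p) (hidx : ∃ k, N.index = p ^ k)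
    (P : Sylow p G) {g : G} (hg : g ∉ N) :
    ∃ (c : G) (y : N) (u : G), u ∈ (P : Subgroup G) ∧ u ≠ 1 ∧ Commute (y : G) u ∧
      c * g * c⁻¹ = y * u := by
  obtain ⟨k, hk⟩ := hidx
  have ho : orderOf g ≠ 0 := (orderOf_pos g).ne'
  set a := (orderOf g).factorization p with ha
  set m := orderOf g / p ^ a with hm
  have hfac : p ^ a * m = orderOf g := Nat.ordProj_mul_ordCompl_eq_self _ _
  have hcop : (p ^ a).Coprime m :=
    Nat.Coprime.pow_left a (Nat.coprime_ordCompl hp.out ho)
  obtain ⟨e, he1, he2⟩ := Nat.chineseRemainder hcop 1 0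
  set u₀ := g ^ e with hu₀
  have hu : u₀ ^ p ^ a = 1 := by
    obtain ⟨t, ht⟩ := Nat.modEq_zero_iff_dvd.mp he2
    rw [hu₀, ← pow_mul, ht, mul_comm (m * t), ← mul_assoc, hfac, pow_mul, pow_orderOf_eq_one,
      one_pow]
  set z := u₀⁻¹ * g with hz
  have hcz : Commute u₀ g := (Commute.refl g).pow_left e
  have hzm : z ^ m = 1 := by
    rw [hz, hcz.inv_left.mul_pow, inv_pow, inv_mul_eq_one, hu₀, ← pow_mul, pow_eq_pow_iff_modEq,
      ← hfac]
    simpa using he1.mul_right' m
  have hzN : z ∈ N := by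
    rw [← QuotientGroup.eq_one_iff]
    refine orderOf_eq_one_iff.mp (Nat.eq_one_of_dvd_coprimes
      (Nat.Coprime.pow_left k ((Nat.coprime_ordCompl hp.out ho)))
      (hk ▸ Subgroup.index_eq_card N ▸ orderOf_dvd_natCard _) (orderOf_dvd_of_pow_eq_one ?_))
    rw [← QuotientGroup.mk_pow, hzm, QuotientGroup.mk_one]
  have hu1 : u₀ ≠ 1 := fun h => hg (by
    have : g = z := by rw [hz, h, inv_one, one_mul]
    rw [this]; exact hzN)
  obtain ⟨S, hS⟩ := (IsPGroup.of_card (G := Subgroup.zpowers u₀)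
    (n := ((Nat.dvd_prime_pow hp.out).mp (orderOf_dvd_of_pow_eq_one hu)).choose)
    (by rw [Nat.card_zpowers]
        exact ((Nat.dvd_prime_pow hp.out).mp (orderOf_dvd_of_pow_eq_one hu)).choose_spec.2)).exists_le_sylow
  obtain ⟨c, hc⟩ := MulAction.exists_smul_eq G S P
  refine ⟨c, ⟨c * z * c⁻¹, (inferInstance : N.Normal).conj_mem z hzN c⟩, c * u₀ * c⁻¹, ?_,
    fun h => hu1 (conj_eq_one_iff.mp h), ?_, ?_⟩
  · rw [← hc, Sylow.smul_def, Sylow.pointwise_smul_def]
    exact Subgroup.smul_mem_pointwise_smul u₀ (MulAut.conj c) _ (hS (Subgroup.mem_zpowers u₀))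
  · have h1 : Commute z u₀ := by
      rw [hz]
      exact Commute.mul_left ((Commute.refl u₀).inv_left) hcz.symm
    exact (Commute.conj_iff c).mpr h1
  · show c * g * c⁻¹ = c * (u₀⁻¹ * g) * c⁻¹ * (c * u₀ * c⁻¹)
    have : u₀⁻¹ * g * u₀ = g := by rw [mul_assoc, ← hcz.eq, inv_mul_cancel_left]
    calc c * g * c⁻¹ = c * (u₀⁻¹ * g * u₀) * c⁻¹ := by rw [this]
      _ = c * (u₀⁻¹ * g) * c⁻¹ * (c * u₀ * c⁻¹) := by group

/-- The main count. -/
theorem card_singular_classes_eq_one (hnil : ¬ Group.IsNilpotent G) (hN : (Nat.card N).Coprime p)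
    (hidx : ∃ k, N.index = p ^ k)
    (hone : Nat.card {χ : Cfsg.IrrCharacter G // p ∣ Cfsg.charDegree (χ : G → ℂ)} = 1) :
    Nat.card {C : ConjClasses G // p ∣ Nat.card C.carrier} = 1 := by
  classical
  haveI := Fintype.ofFinite G
  haveI := Fintype.ofFinite N
  obtain ⟨k, hk⟩ := hidx
  let P : Sylow p G := default
  have hsup := sup_eq_top_of_index_pow N P ⟨k, hk⟩
  haveI hsub : Subsingleton {χ : Cfsg.IrrCharacter G // p ∣ Cfsg.charDegree (χ : G → ℂ)} :=
    (Nat.card_eq_one_iff_unique.mp hone).1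
  -- a moved character of `N`
  obtain ⟨θ₀, hθ₀⟩ : ∃ θ : Cfsg.IrrCharacter N, ¬ (P : Subgroup G) ≤ inertia N θ.1 := by
    by_contra hcon
    push Not at hcon
    exact false_of_centralizes N hN P hsup hnil hone
      (le_centralizer_of_fixes_irr (P : Subgroup G) P.isPGroup' N hN hcon)
  -- every moved character lies under the singular character
  have hmoved : ∀ θ : Cfsg.IrrCharacter N, ¬ (P : Subgroup G) ≤ inertia N θ.1 →
      ∀ χ : Cfsg.IrrCharacter G, Cfsg.classInner (fun n : N => χ.1 n) θ.1 ≠ 0 →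
        p ∣ Cfsg.charDegree (χ : G → ℂ) := by
    intro θ hθ χ hχ
    refine Dvd.dvd.trans ?_ ((Dvd.intro _ rfl).trans (degree_mul_index_inertia_dvd N χ θ hχ))
    obtain ⟨j, -, hj⟩ := (Nat.dvd_prime_pow hp.out).mp
      (hk ▸ Subgroup.index_dvd_of_le (le_inertia N (H26.irr_isClassFunction θ)))
    rw [hj]
    refine dvd_pow_self p fun h0 => hθ ?_
    rw [h0, pow_zero, Subgroup.index_eq_one] at hj
    rw [hj]
    exact le_top
  obtain ⟨χ₀, hχθ₀⟩ := exists_irr_over N θ₀
  have hχ₀ := hmoved θ₀ hθ₀ χ₀ hχθ₀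
  have huniq : ∀ χ : Cfsg.IrrCharacter G, p ∣ Cfsg.charDegree (χ : G → ℂ) → χ = χ₀ := fun χ h =>
    congrArg Subtype.val (Subsingleton.elim
      (⟨χ, h⟩ : {χ : Cfsg.IrrCharacter G // p ∣ Cfsg.charDegree (χ : G → ℂ)}) ⟨χ₀, hχ₀⟩)
  -- the quotient is abelian
  have hGN : ∀ a b : G ⧸ N, a * b = b * a := by
    refine H26.comm_iff_forall_irr_one.mpr fun ψ => ?_
    by_contra hψ
    have hQp : IsPGroup p (G ⧸ N) := IsPGroup.of_card (n := k) (by rw [← Subgroup.index_eq_card, hk])
    have hd := (dvd_degree_iff_of_pGroup hQp ψ).mpr hψ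
    rw [← charDegree_inflate] at hd
    have he := huniq _ hd
    refine hθ₀ (fun x _ => ?_)
    have hθ1 : θ₀ = H26.oneIrr N := by
      by_contra hne
      refine hχθ₀ ?_
      rw [show (fun n : N => χ₀.1 n) = (χ₀.1 1) • (H26.oneIrr N).1 from funext fun n => by
        rw [← he, Pi.smul_apply, H26.oneIrr_val, smul_eq_mul, mul_one]
        exact mem_kerOf.mp (le_kerOf_inflate N ψ n.2), H26.classInner_smul_left, H26.classInner_irr,
        if_neg (Ne.symm hne), mul_zero]
    rw [hθ1, mem_inertia]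
    funext m
    simp [H56.twist, H26.oneIrr_val]
  have hPcomm : ∀ a ∈ (P : Subgroup G), ∀ b ∈ (P : Subgroup G), a * b = b * a := by
    intro a ha b hb
    have h := hGN (a : G ⧸ N) (b : G ⧸ N)
    rw [← QuotientGroup.mk_mul, ← QuotientGroup.mk_mul, QuotientGroup.eq] at h
    obtain ⟨i, hi⟩ := P.isPGroup' ⟨(a * b)⁻¹ * (b * a),
      (P : Subgroup G).mul_mem ((P : Subgroup G).inv_mem ((P : Subgroup G).mul_mem ha hb))
        ((P : Subgroup G).mul_mem hb ha)⟩
    have h1 := orderOf_eq_one_iff.mp (Nat.eq_one_of_dvd_coprimes (hN.pow_right i)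
      (Subgroup.orderOf_dvd_natCard _ h) (orderOf_dvd_of_pow_eq_one (congrArg Subtype.val hi)))
    exact inv_mul_eq_one.mp h1
  -- moved characters are conjugate to `θ₀`
  have horb : ∀ θ : Cfsg.IrrCharacter N, ¬ (P : Subgroup G) ≤ inertia N θ.1 →
      ∃ g : G, H56.twist N θ₀.1 g = θ.1 := by
    intro θ hθ
    obtain ⟨χ, hχ⟩ := exists_irr_over N θ
    rw [huniq χ (hmoved θ hθ χ hχ)] at hχ
    exact H27.exists_twist_of_constituents N χ₀.2 θ₀.2 θ.2 hχθ₀ hχ
  -- an element fixing a moved character is trivial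
  have hfree : ∀ u ∈ (P : Subgroup G), ∀ θ : Cfsg.IrrCharacter N,
      ¬ (P : Subgroup G) ≤ inertia N θ.1 → u ∈ inertia N θ.1 → u = 1 := by
    intro u hu θ hθ huθ
    by_contra hu1
    have hall : ∀ η : Cfsg.IrrCharacter N, u ∈ inertia N η.1 := by
      intro η
      by_cases hη : (P : Subgroup G) ≤ inertia N η.1
      · exact hη hu
      · obtain ⟨g₁, hg₁⟩ := horb θ hθ
        obtain ⟨g₂, hg₂⟩ := horb η hη
        set g := g₁⁻¹ * g₂ with hg
        have hηθ : H56.twist N θ.1 g = η.1 := by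
          rw [← hg₁, H56.twist_twist, hg, mul_inv_cancel_left, hg₂]
        have hconj : g * u * g⁻¹ ∈ inertia N θ.1 := by
          have h := hGN (g : G ⧸ N) (u : G ⧸ N)
          rw [← QuotientGroup.mk_mul, ← QuotientGroup.mk_mul, QuotientGroup.eq] at h
          have h2 : g * u * g⁻¹ = u * (g * ((g * u)⁻¹ * (u * g)) * g⁻¹)⁻¹ := by group
          rw [h2]
          exact (inertia N θ.1).mul_mem huθ ((inertia N θ.1).inv_mem
            (le_inertia N (H26.irr_isClassFunction θ) ((inferInstance : N.Normal).conj_mem _ h g)))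
        rw [mem_inertia] at hconj ⊢
        rw [← hηθ, H56.twist_twist, show g * u = g * u * g⁻¹ * g by group, ← H56.twist_twist,
          hconj]
    have hcN : N ≤ Subgroup.centralizer (Subgroup.zpowers u : Set G) :=
      le_centralizer_of_fixes_irr (p := p) (Subgroup.zpowers u)
        (P.isPGroup'.to_le (Subgroup.zpowers_le.mpr hu)) N hN
        (fun η => Subgroup.zpowers_le.mpr (hall η))
    have hcen : u ∈ Subgroup.center G := by
      refine Subgroup.mem_center_iff.mpr fun g => ?_
      have hle : (P : Subgroup G) ⊔ N ≤ Subgroup.centralizer ({u} : Set G) := by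
        refine sup_le (fun v hv => ?_) (fun n hn => ?_)
        · exact Subgroup.mem_centralizer_singleton_iff.mpr (hPcomm v hv u hu)
        · exact Subgroup.mem_centralizer_singleton_iff.mpr
            (Subgroup.mem_centralizer_iff.mp (hcN hn) u (Subgroup.mem_zpowers u)).symm
      rw [hsup] at hle
      exact Subgroup.mem_centralizer_singleton_iff.mp (hle (Subgroup.mem_top g))
    have huN : u ∉ N := by
      intro hn
      obtain ⟨i, hi⟩ := P.isPGroup' ⟨u, hu⟩
      exact hu1 (orderOf_eq_one_iff.mp (Nat.eq_one_of_dvd_coprimes (hN.pow_right i)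
        (Subgroup.orderOf_dvd_natCard _ hn) (orderOf_dvd_of_pow_eq_one (congrArg Subtype.val hi))))
    obtain ⟨lam, hlam1, hlam⟩ : ∃ lam : Cfsg.IrrCharacter G, lam.1 1 = 1 ∧ u ∉ kerOf lam := by
      by_contra hcon
      push Not at hcon
      refine huN (mem_of_forall_kerOf N fun ψ hψ => hcon ψ ?_)
      obtain ⟨ψ', rfl⟩ := exists_eq_inflate N ψ hψ
      exact H26.comm_iff_forall_irr_one.mp hGN ψ'
    obtain ⟨f, hf⟩ := H26.exists_hom_of_isCharacter_one (H26.irr_isCharacter lam) hlam1
    let χ' : Cfsg.IrrCharacter G := ⟨_, isIrrCharacter_linear_mul f χ₀⟩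
    have heq : χ' = χ₀ := huniq χ' (by
      rwa [show Cfsg.charDegree (χ' : G → ℂ) = Cfsg.charDegree (χ₀ : G → ℂ) by
        simp [Cfsg.charDegree, χ']])
    have hne : χ₀.1 u ≠ 0 := by
      intro h0
      have hu' := sum_norm_sq_eq_card_centralizer u
      have h1 := sum_norm_sq_eq_card_centralizer (1 : G)
      rw [show Subgroup.centralizer ({1} : Set G) = Subgroup.centralizer ({u} : Set G) from by
        ext x
        simp [Subgroup.mem_centralizer_singleton_iff, Subgroup.mem_center_iff.mp hcen x], ← hu'] at h1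
      have hnn : ∀ η : Cfsg.IrrCharacter G, ‖η.1 u‖ ^ 2 ≤ ‖η.1 1‖ ^ 2 := fun η => by
        have h := norm_irr_le η u
        rw [← cast_charDegree, Complex.norm_natCast]
        have h' : ‖η.1 u‖ ≤ (Cfsg.charDegree (η : G → ℂ) : ℝ) := by simpa [← cast_charDegree] using h
        exact pow_le_pow_left₀ (norm_nonneg _) h' 2
      have := (Finset.sum_eq_sum_iff_of_le fun η _ => hnn η).mp h1.symm χ₀ (Finset.mem_univ _)
      rw [h0, norm_zero, zero_pow two_ne_zero, eq_comm, sq_eq_zero_iff, norm_eq_zero] at this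
      exact H26.irr_one_ne_zero χ₀ this
    exact hlam (mem_kerOf.mpr (by
      rw [← hf, mul_eq_right₀ hne |>.mp (congrFun (congrArg Subtype.val heq) u), hlam1]))
  -- a class fixed by a nontrivial element is fixed by all of `P`
  have hclass : ∀ y : N, ∀ v ∈ (P : Subgroup G), v ≠ 1 → Commute (y : G) v →
      ∀ h ∈ (P : Subgroup G), IsConj y (MulAut.conjNormal h y) := by
    intro y v hv hv1 hyv h hh
    obtain ⟨j, hj⟩ : ∃ j : ℕ, orderOf (v ^ j) = p := by
      obtain ⟨i, hi⟩ := P.isPGroup' ⟨v, hv⟩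
      obtain ⟨b, -, hb⟩ := (Nat.dvd_prime_pow hp.out).mp
        (orderOf_dvd_of_pow_eq_one (show v ^ p ^ i = 1 from congrArg Subtype.val hi))
      have hpv : p ∣ orderOf v := by
        rw [hb]
        exact dvd_pow_self p fun h0 => hv1 (orderOf_eq_one_iff.mp (by rw [hb, h0, pow_zero]))
      exact ⟨_, orderOf_pow_orderOf_div (orderOf_pos v).ne' hpv⟩
    set w := v ^ j with hw
    have hwP : w ∈ (P : Subgroup G) := pow_mem hv j
    have hw1 : w ≠ 1 := fun e => hp.out.ne_one (by rw [← hj, e, orderOf_one])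
    have hyw : Commute (y : G) w := hyv.pow_right j
    set y' : N := MulAut.conjNormal h y with hy'
    have hy'w : Commute (y' : G) w := by
      have hhw : h * w = w * h := hPcomm h hh w hwP
      show (MulAut.conjNormal h y : G) * w = w * (MulAut.conjNormal h y : G)
      rw [MulAut.conjNormal_apply]
      have h2 : h⁻¹ * w = w * h⁻¹ := by
        rw [inv_mul_eq_iff_eq_mul, ← mul_assoc, hhw, mul_inv_cancel_right]
      calc h * y * h⁻¹ * w = h * y * (h⁻¹ * w) := by group
        _ = h * ((y : G) * w) * h⁻¹ := by rw [h2]; group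
        _ = (h * w) * y * h⁻¹ := by rw [hyw.eq]; group
        _ = w * (h * y * h⁻¹) := by rw [hhw]; group
    by_contra hnc
    let X := {θ : Cfsg.IrrCharacter N // irrPerm N w θ ≠ θ}
    let σ : Equiv.Perm X := (irrPerm N w).subtypePerm fun θ => by
      exact not_congr ⟨fun e => (irrPerm N w).injective e, fun e => congrArg _ e⟩
    have hσ : σ ^ p = 1 := by
      ext θ : 1
      rw [Equiv.Perm.subtypePerm_pow]
      refine Subtype.ext (Subtype.ext ?_)
      show ((irrPerm N w ^ p) θ.1).1 = θ.1.1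
      rw [irrPerm_pow, ← hj, pow_orderOf_eq_one, H56.twist_one]
    let F : Cfsg.IrrCharacter N → ℂ := fun θ => (θ.1 y - θ.1 y') * conj (θ.1 y)
    have hval : ∀ (z : N), Commute (z : G) w → ∀ θ : Cfsg.IrrCharacter N,
        (irrPerm N w θ).1 z = θ.1 z := by
      intro z hz θ
      refine congrArg θ.1 (Subtype.ext ?_)
      show (MulAut.conjNormal w z : G) = z
      rw [MulAut.conjNormal_apply, ← hz.eq, mul_inv_cancel_right]
    obtain ⟨c, hc, hsum⟩ := exists_eq_prime_mul_sum σ hσ
      (fun θ e => θ.2 (congrArg Subtype.val e)) (fun θ => F θ.1)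
      (fun θ => by
        show F (irrPerm N w θ.1) = F θ.1
        simp only [F, hval y hyw, hval y' hy'w])
      (fun θ => ((isIntegral_irr θ.1 y).sub (isIntegral_irr θ.1 y')).mul
        (by rw [← H26.irr_inv]; exact isIntegral_irr θ.1 _))
    have hzero : ∀ θ : Cfsg.IrrCharacter N, irrPerm N w θ = θ → F θ = 0 := by
      intro θ hθ
      have hwθ : w ∈ inertia N θ.1 := by
        rw [mem_inertia, ← irrPerm_val, hθ]
      have hPθ : (P : Subgroup G) ≤ inertia N θ.1 := by
        by_contra hcon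
        exact hw1 (hfree w hwP θ hcon hwθ)
      have := congrFun (mem_inertia N |>.mp (hPθ hh)) y
      rw [twist_eq_comp] at this
      simp only [F, hy']
      rw [show θ.1 (MulAut.conjNormal h y) = θ.1 y from this, sub_self, zero_mul]
    have htot : ∑ θ : Cfsg.IrrCharacter N, F θ =
        (Nat.card (Subgroup.centralizer ({y} : Set N)) : ℂ) := by
      simp only [F, sub_mul, Finset.sum_sub_distrib]
      rw [H26.column_orthogonality, H26.column_orthogonality, H26.classIndicator,
        H26.classIndicator, if_pos (IsConj.refl y), if_neg (fun e => hnc e.symm), mul_one, mul_zero,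
        sub_zero]
    have hsplit : ∑ θ : Cfsg.IrrCharacter N, F θ = ∑ θ : X, F θ.1 := by
      rw [← Finset.sum_subtype (Finset.univ.filter fun θ => irrPerm N w θ ≠ θ)
        (fun θ => by simp) F]
      exact (Finset.sum_filter_of_ne (p := fun θ => irrPerm N w θ ≠ θ)
        fun θ _ hne e => hne (hzero θ e)).symm
    rw [hsplit, hsum] at htot
    have hd : p ∣ Nat.card (Subgroup.centralizer ({y} : Set N)) := by
      refine H25.dvd_of_isIntegral_div hp.out.ne_zero ?_
      rw [← htot, mul_div_cancel_left₀ _ (Nat.cast_ne_zero.mpr hp.out.ne_zero)]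
      exact hc
    exact hp.out.coprime_iff_not_dvd.mp hN.symm (hd.trans (Subgroup.card_subgroup_dvd_card _))
  -- classes outside `N`
  have hout : ∀ g : G, g ∉ N → ¬ p ∣ (Subgroup.centralizer ({g} : Set G)).index := by
    intro g hg
    obtain ⟨c, y, u, huP, hu1, hyu, hconj⟩ := exists_conj_mul N hN ⟨k, hk⟩ P hg
    have hidxeq : (Subgroup.centralizer ({g} : Set G)).index =
        (Subgroup.centralizer ({(y : G) * u} : Set G)).index := by
      rw [← card_carrier_eq_index, ← card_carrier_eq_index,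
        ConjClasses.mk_eq_mk_iff_isConj.mpr (isConj_iff.mpr ⟨c, hconj⟩)]
    rw [hidxeq, not_dvd_index_centralizer_iff N hN ⟨k, hk⟩, eq_top_iff, ← hsup]
    refine sup_le (fun h hh => ?_) le_sup_right
    have hy := hclass y u huP hu1 hyu h hh
    obtain ⟨n₀, hn₀⟩ := isConj_iff.mp hy
    -- a conjugating element commuting with `u`
    let X := {n : N // n * y * n⁻¹ = MulAut.conjNormal h y}
    have hX : Nat.card X = Nat.card (Subgroup.centralizer ({y} : Set N)) := by
      refine Nat.card_congr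
        { toFun := fun n => ⟨n₀⁻¹ * n.1, Subgroup.mem_centralizer_singleton_iff.mpr ?_⟩
          invFun := fun d => ⟨n₀ * d.1, ?_⟩
          left_inv := fun n => Subtype.ext (mul_inv_cancel_left _ _)
          right_inv := fun d => Subtype.ext (inv_mul_cancel_left _ _) }
      · have h1 : n₀⁻¹ * (n.1 * y * n.1⁻¹) * n₀ = y := by rw [n.2, ← hn₀]; group
        calc n₀⁻¹ * n.1 * y = n₀⁻¹ * (n.1 * y * n.1⁻¹) * n₀ * (n₀⁻¹ * n.1) := by group
          _ = y * (n₀⁻¹ * n.1) := by rw [h1]
      · rw [← hn₀]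
        have h1 := Subgroup.mem_centralizer_singleton_iff.mp d.2
        calc n₀ * d.1 * y * (n₀ * d.1)⁻¹ = n₀ * (d.1 * y) * d.1⁻¹ * n₀⁻¹ := by group
          _ = n₀ * y * n₀⁻¹ := by rw [h1]; group
    have huy : (MulAut.conjNormal u : MulAut N) y = y := Subtype.ext (by
      rw [MulAut.conjNormal_apply, ← hyu.eq, mul_inv_cancel_right])
    have huy' : (MulAut.conjNormal u : MulAut N) (MulAut.conjNormal h y) = MulAut.conjNormal h y := by
      rw [← MulAut.mul_apply, ← map_mul, hPcomm u huP h hh, map_mul, MulAut.mul_apply, huy]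
    have hinvX : ∀ w ∈ Subgroup.zpowers u, ∀ n : X,
        (MulAut.conjNormal w : MulAut N) n.1 * y * ((MulAut.conjNormal w : MulAut N) n.1)⁻¹ =
          MulAut.conjNormal h y := by
      intro w hw n
      have key : ∀ z : N, (MulAut.conjNormal u : MulAut N) z = z →
          (MulAut.conjNormal w : MulAut N) z = z := by
        intro z hz
        refine Subtype.ext ?_
        have hz' : Commute u (z : G) := by
          have := congrArg Subtype.val hz
          rw [MulAut.conjNormal_apply] at this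
          exact mul_inv_eq_iff_eq_mul.mp this
        obtain ⟨i, rfl⟩ := Subgroup.mem_zpowers_iff.mp hw
        rw [MulAut.conjNormal_apply, (hz'.zpow_left i).eq, mul_inv_cancel_right]
      have := congrArg (MulAut.conjNormal w : MulAut N) n.2
      rw [map_mul, map_mul, map_inv, key y huy, key _ huy'] at this
      exact this
    letI : MulAction (Subgroup.zpowers u) X :=
      { smul := fun w n => ⟨(MulAut.conjNormal (w : G) : MulAut N) n.1, hinvX w w.2 n⟩
        one_smul := fun n => Subtype.ext (by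
          show (MulAut.conjNormal ((1 : Subgroup.zpowers u) : G) : MulAut N) n.1 = n.1
          simp)
        mul_smul := fun a b n => Subtype.ext (by
          show (MulAut.conjNormal ((a * b : Subgroup.zpowers u) : G) : MulAut N) n.1 =
            (MulAut.conjNormal (a : G) : MulAut N) ((MulAut.conjNormal (b : G) : MulAut N) n.1)
          simp) }
    have hnd : ¬ p ∣ Nat.card X := fun hd => hp.out.coprime_iff_not_dvd.mp hN.symm
      ((hX ▸ hd).trans (Subgroup.card_subgroup_dvd_card _))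
    obtain ⟨n, hn⟩ := (P.isPGroup'.to_le
      (Subgroup.zpowers_le.mpr huP)).nonempty_fixed_point_of_prime_not_dvd_card X hnd
    have hnu : u * (n.1 : G) * u⁻¹ = (n.1 : G) := by
      have := congrArg (fun z : X => ((z.1 : N) : G)) (hn ⟨u, Subgroup.mem_zpowers u⟩)
      exact this
    have hny : (n.1 : G) * y * (n.1 : G)⁻¹ = h * y * h⁻¹ := by
      have := congrArg Subtype.val n.2
      rwa [Subgroup.coe_mul, Subgroup.coe_mul, Subgroup.coe_inv, MulAut.conjNormal_apply] at this
    have hmem : (n.1 : G)⁻¹ * h ∈ Subgroup.centralizer ({(y : G) * u} : Set G) := by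
      rw [Subgroup.mem_centralizer_singleton_iff]
      have h1 : u * h = h * u := hPcomm u huP h hh
      have h2 : u * (n.1 : G)⁻¹ = (n.1 : G)⁻¹ * u := by
        have := mul_inv_eq_iff_eq_mul.mp hnu
        rw [eq_inv_mul_iff_mul_eq, ← mul_assoc, ← this, mul_inv_cancel_right]
      have h3 : (n.1 : G)⁻¹ * h * y = y * ((n.1 : G)⁻¹ * h) := by
        calc (n.1 : G)⁻¹ * h * y = (n.1 : G)⁻¹ * (h * y * h⁻¹) * h := by group
          _ = y * ((n.1 : G)⁻¹ * h) := by rw [← hny]; group
      calc (n.1 : G)⁻¹ * h * (y * u) = (n.1 : G)⁻¹ * h * y * u := by group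
        _ = y * ((n.1 : G)⁻¹ * (h * u)) := by rw [h3]; group
        _ = y * (((n.1 : G)⁻¹ * u) * h) := by rw [← h1]; group
        _ = y * u * ((n.1 : G)⁻¹ * h) := by rw [← h2]; group
    have : (n.1 : G) * ((n.1 : G)⁻¹ * h) ∈
        Subgroup.centralizer ({(y : G) * u} : Set G) ⊔ N :=
      Subgroup.mul_mem _ (Subgroup.mem_sup_right n.1.2) (Subgroup.mem_sup_left hmem)
    rwa [mul_inv_cancel_left] at this
  -- counting moved classes
  let mv : ConjClasses N → Prop := fun C =>
    ∃ v ∈ (P : Subgroup G), ConjClasses.map (MulAut.conjNormal v : MulAut N).toMonoidHom C ≠ C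
  have hclfix : ∀ v ∈ (P : Subgroup G), v ≠ 1 → ∀ C : ConjClasses N,
      ConjClasses.map (MulAut.conjNormal v : MulAut N).toMonoidHom C = C ↔ ¬ mv C := by
    intro v hv hv1 C
    refine ⟨fun hC => ?_, fun hC => not_not.mp fun hne => hC ⟨v, hv, hne⟩⟩
    rintro ⟨h, hh, hne⟩
    obtain ⟨m, rfl⟩ := ConjClasses.mk_surjective C
    have hm : IsConj m (MulAut.conjNormal v m) :=
      (ConjClasses.mk_eq_mk_iff_isConj.mp hC).symm
    obtain ⟨i, hi⟩ := P.isPGroup' ⟨v, hv⟩
    obtain ⟨c, hmc, hcv⟩ := exists_fixed_of_class_fixed (p := p) N hN v (a := i)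
      (congrArg Subtype.val hi) m hm
    refine hne (ConjClasses.mk_eq_mk_iff_isConj.mpr ?_)
    exact ((MulAut.conjNormal h : MulAut N).toMonoidHom.map_isConj hmc).trans
      ((hclass c v hv hv1 hcv h hh).symm.trans hmc.symm)
  have hθfix : ∀ v ∈ (P : Subgroup G), v ≠ 1 → ∀ θ : Cfsg.IrrCharacter N,
      θ.1 ∘ (MulAut.conjNormal v : MulAut N) = θ.1 ↔ (P : Subgroup G) ≤ inertia N θ.1 := by
    intro v hv hv1 θ
    rw [← twist_eq_comp, ← mem_inertia]
    exact ⟨fun h => by_contra fun hcon => hv1 (hfree v hv θ hcon h), fun h => h hv⟩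
  obtain ⟨v₀, hv₀, hv₀1⟩ : ∃ v ∈ (P : Subgroup G), v ≠ 1 := by
    by_contra hcon
    push Not at hcon
    exact hθ₀ fun x hx => by rw [hcon x hx]; exact one_mem _
  have hcount : Nat.card {C : ConjClasses N // mv C} =
      Nat.card {θ : Cfsg.IrrCharacter N // ¬ (P : Subgroup G) ≤ inertia N θ.1} := by
    have h1 := H27.card_fixed_classes_eq_card_fixed_irr (MulAut.conjNormal v₀ : MulAut N)
    have h2 : Nat.card (ConjClasses N) = Nat.card (Cfsg.IrrCharacter N) := by
      haveI := Fintype.ofFinite (ConjClasses N)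
      exact (H26.card_irr_eq_card_conjClasses).symm
    rw [Nat.card_congr (Equiv.subtypeEquivRight (hclfix v₀ hv₀ hv₀1)),
      Nat.card_congr (Equiv.subtypeEquivRight (hθfix v₀ hv₀ hv₀1))] at h1
    have h3 : Nat.card {C : ConjClasses N // ¬ mv C} + Nat.card {C : ConjClasses N // mv C} =
        Nat.card (ConjClasses N) := by
      rw [add_comm, ← Nat.card_sum, Nat.card_congr (Equiv.sumCompl mv)]
    have h4 : Nat.card {θ : Cfsg.IrrCharacter N // (P : Subgroup G) ≤ inertia N θ.1} +
        Nat.card {θ : Cfsg.IrrCharacter N // ¬ (P : Subgroup G) ≤ inertia N θ.1} =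
        Nat.card (Cfsg.IrrCharacter N) := by
      rw [← Nat.card_sum, Nat.card_congr (Equiv.sumCompl _)]
    omega
  have hcountP : Nat.card {θ : Cfsg.IrrCharacter N // ¬ (P : Subgroup G) ≤ inertia N θ.1} =
      Nat.card ↥(P : Subgroup G) := by
    refine (Nat.card_congr (Equiv.ofBijective
      (fun v : ↥(P : Subgroup G) =>
        (⟨irrPerm N v θ₀, fun hle => hθ₀ fun x hx => ?_⟩ :
          {θ : Cfsg.IrrCharacter N // ¬ (P : Subgroup G) ≤ inertia N θ.1})) ⟨?_, ?_⟩)).symm
    · have h := (mem_inertia N).mp (hle hx)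
      rw [irrPerm_val, H56.twist_twist, ← hPcomm x hx v v.2, ← H56.twist_twist] at h
      have h2 := congrArg (fun f => H56.twist N f (v : G)⁻¹) h
      simp only [H56.twist_twist, mul_inv_cancel_right, mul_inv_cancel, H56.twist_one] at h2
      exact (mem_inertia N).mpr h2
    · intro a b hab
      have h : H56.twist N θ₀.1 a = H56.twist N θ₀.1 b := by
        rw [← irrPerm_val, ← irrPerm_val]
        exact congrArg (fun z => z.1.1) hab
      have h2 := congrArg (fun f => H56.twist N f (b : G)⁻¹) h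
      simp only [H56.twist_twist, mul_inv_cancel, H56.twist_one] at h2
      exact Subtype.ext (mul_inv_eq_one.mp (hfree _ ((P : Subgroup G).mul_mem a.2
        ((P : Subgroup G).inv_mem b.2)) θ₀ hθ₀ ((mem_inertia N).mpr h2)))
    · rintro ⟨θ, hθ⟩
      obtain ⟨g, hg⟩ := horb θ hθ
      have hgm : g ∈ (P : Subgroup G) ⊔ N := hsup ▸ Subgroup.mem_top g
      rw [sup_comm] at hgm
      obtain ⟨n, hn, v, hv, rfl⟩ := Subgroup.mem_sup_of_normal_left.mp hgm
      refine ⟨⟨v, hv⟩, Subtype.ext (Subtype.ext ?_)⟩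
      rw [irrPerm_val]
      rw [← H56.twist_twist, show H56.twist N θ₀.1 n = θ₀.1 from
        (mem_inertia N).mp (le_inertia N (H26.irr_isClassFunction θ₀) hn)] at hg
      exact hg
  -- moved classes form one orbit
  obtain ⟨⟨C₀, hC₀⟩⟩ : Nonempty {C : ConjClasses N // mv C} :=
    (Nat.card_pos_iff.mp (by rw [hcount, hcountP]; exact Nat.card_pos)).1
  obtain ⟨y₀, rfl⟩ := ConjClasses.mk_surjective C₀
  have horbC : ∀ C : ConjClasses N, mv C → ∃ v ∈ (P : Subgroup G),
      ConjClasses.map (MulAut.conjNormal v : MulAut N).toMonoidHom (ConjClasses.mk y₀) = C := by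
    intro C hC
    let f : ↥(P : Subgroup G) → {C : ConjClasses N // mv C} := fun v =>
      ⟨ConjClasses.mk (MulAut.conjNormal (v : G) y₀), by
        by_contra hcon
        have h := (hclfix v₀ hv₀ hv₀1 _).mpr hcon
        refine (hclfix v₀ hv₀ hv₀1 _).mp ?_ hC₀
        have h' := ConjClasses.mk_eq_mk_iff_isConj.mp h
        refine ConjClasses.mk_eq_mk_iff_isConj.mpr ?_
        have h'' := (MulAut.conjNormal (v : G)⁻¹ : MulAut N).toMonoidHom.map_isConj h'
        simp only [MulEquiv.coe_toMonoidHom, ← MulAut.mul_apply, ← map_mul] at h''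
        rw [show (v : G)⁻¹ * (v₀ * v) = v₀ by
          rw [hPcomm v₀ hv₀ v v.2, inv_mul_cancel_left], inv_mul_cancel, map_one,
          MulAut.one_apply] at h''
        exact h''⟩
    have hinj : Function.Injective f := by
      intro a b hab
      by_contra hne
      have hd : (b : G)⁻¹ * a ≠ 1 := fun e => hne (Subtype.ext (inv_mul_eq_one.mp e).symm)
      refine (hclfix _ ((P : Subgroup G).mul_mem ((P : Subgroup G).inv_mem b.2) a.2) hd _).mp ?_ hC₀
      have h' := ConjClasses.mk_eq_mk_iff_isConj.mp (congrArg Subtype.val hab)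
      have h'' := (MulAut.conjNormal (b : G)⁻¹ : MulAut N).toMonoidHom.map_isConj h'
      simp only [MulEquiv.coe_toMonoidHom, ← MulAut.mul_apply, ← map_mul, inv_mul_cancel, map_one,
        MulAut.one_apply] at h''
      exact ConjClasses.mk_eq_mk_iff_isConj.mpr h''
    obtain ⟨v, hv⟩ := ((Nat.bijective_iff_injective_and_card f).mpr
      ⟨hinj, (hcount.trans hcountP).symm⟩).2 ⟨C, hC⟩
    exact ⟨v, v.2, congrArg Subtype.val hv⟩
  have hmv : ∀ z : N, mv (ConjClasses.mk z) ↔
      p ∣ (Subgroup.centralizer ({(z : G)} : Set G)).index := by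
    intro z
    rw [← not_iff_not, not_dvd_index_centralizer_iff N hN ⟨k, hk⟩]
    constructor
    · intro h
      rw [eq_top_iff, ← hsup]
      refine sup_le (fun x hx => ?_) le_sup_right
      have hc : IsConj (MulAut.conjNormal x z) z := by
        by_contra hne
        exact h ⟨x, hx, fun e => hne (ConjClasses.mk_eq_mk_iff_isConj.mp e)⟩
      obtain ⟨n, hn⟩ := isConj_iff.mp hc
      have hn' : (n : G) * (x * z * x⁻¹) * (n : G)⁻¹ = z := by
        have := congrArg Subtype.val hn
        rwa [Subgroup.coe_mul, Subgroup.coe_mul, Subgroup.coe_inv, MulAut.conjNormal_apply] at this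
      have hmem : (n : G) * x ∈ Subgroup.centralizer ({(z : G)} : Set G) := by
        rw [Subgroup.mem_centralizer_singleton_iff]
        calc (n : G) * x * z = (n : G) * (x * z * x⁻¹) * (n : G)⁻¹ * ((n : G) * x) := by group
          _ = z * ((n : G) * x) := by rw [hn']
      have : (n : G)⁻¹ * ((n : G) * x) ∈ Subgroup.centralizer ({(z : G)} : Set G) ⊔ N :=
        Subgroup.mul_mem _ (Subgroup.mem_sup_right (N.inv_mem n.2)) (Subgroup.mem_sup_left hmem)
      rwa [inv_mul_cancel_left] at this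
    · rintro h ⟨x, hx, hne⟩
      have hxm : x ∈ N ⊔ Subgroup.centralizer ({(z : G)} : Set G) := by
        rw [sup_comm, h]; exact Subgroup.mem_top x
      obtain ⟨n, hn, c, hc, rfl⟩ := Subgroup.mem_sup_of_normal_left.mp hxm
      refine hne (ConjClasses.mk_eq_mk_iff_isConj.mpr (IsConj.symm (isConj_iff.mpr ⟨⟨n, hn⟩, ?_⟩)))
      refine Subtype.ext ?_
      show n * (z : G) * n⁻¹ = (MulAut.conjNormal (n * c) z : G)
      rw [MulAut.conjNormal_apply]
      have h1 := Subgroup.mem_centralizer_singleton_iff.mp hc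
      calc n * (z : G) * n⁻¹ = n * ((z : G) * c) * c⁻¹ * n⁻¹ := by group
        _ = n * c * z * (n * c)⁻¹ := by rw [← h1]; group
  have hy₀ := (hmv y₀).mp hC₀
  rw [← card_carrier_eq_index] at hy₀
  haveI : Nonempty {C : ConjClasses G // p ∣ Nat.card C.carrier} :=
    ⟨⟨ConjClasses.mk (y₀ : G), hy₀⟩⟩
  haveI : Subsingleton {C : ConjClasses G // p ∣ Nat.card C.carrier} := by
    refine ⟨fun A B => ?_⟩
    have key : ∀ D : {C : ConjClasses G // p ∣ Nat.card C.carrier},
        D.1 = ConjClasses.mk (y₀ : G) := by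
      rintro ⟨D, hD⟩
      obtain ⟨g, rfl⟩ := ConjClasses.mk_surjective D
      rw [card_carrier_eq_index] at hD
      by_cases hg : g ∈ N
      · obtain ⟨v, hv, e⟩ := horbC _ ((hmv ⟨g, hg⟩).mpr hD)
        have h := ConjClasses.mk_eq_mk_iff_isConj.mp e
        have h' := N.subtype.map_isConj h
        refine ConjClasses.mk_eq_mk_iff_isConj.mpr (h'.symm.trans ?_)
        rw [MulEquiv.coe_toMonoidHom, Subgroup.coe_subtype, MulAut.conjNormal_apply]
        exact (isConj_iff.mpr ⟨v, rfl⟩).symm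
      · exact absurd hD (hout g hg)
    exact Subtype.ext ((key A).trans (key B).symm)
  exact Nat.card_unique

end Cfsg.Agent.H44
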